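import Mathlib
import Cfsg.Agent.Lib.Helper18.LSDefs

/-!
# S2333 piece LS-OMEGA0 (helper69): fibre count for `Omega`

Every `x` decomposes as `x = a • u₀ + c • v₀ + w` with `w ∈ Wperp M u₀ v₀`
(`a = bl M x v₀`, `c = bl M x u₀`), so `Omega M α β` injects into a sigma type over
`Wperp × Wperp` whose fibres are bounded by hypothesis.
-/

set_option autoImplicit false

namespace Cfsg.Agent.Lib.Helper18.LS

open Matrix

universe u

variable {F : Type u} [Field F] {n : ℕ}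

private theorem omega0_decomp [CharP F 2] (M : Matrix (Fin n) (Fin n) F)
    (u₀ v₀ : Fin n → F) (h : bl M u₀ v₀ = 1) (x : Fin n → F) :
    (x + (-(bl M x v₀)) • u₀ + (-(bl M x u₀)) • v₀) ∈ Wperp M u₀ v₀ ∧
    bl M x v₀ • u₀ + bl M x u₀ • v₀ +
      (x + (-(bl M x v₀)) • u₀ + (-(bl M x u₀)) • v₀) = x := by
  refine ⟨⟨?_, ?_⟩, ?_⟩
  · rw [bl_add_left, bl_add_left, bl_smul_left, bl_smul_left, bl_self, bl_comm M v₀ u₀, h]
    ring
  · rw [bl_add_left, bl_add_left, bl_smul_left, bl_smul_left, bl_self, h]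
    ring
  · module

theorem omega_fiber [Fintype F] [CharP F 2] (M : Matrix (Fin n) (Fin n) F)
    (u₀ v₀ : Fin n → F) (h : bl M u₀ v₀ = 1) (α β : F) (N : ℕ)
    (hcount : ∀ w w' : Fin n → F, w ∈ Wperp M u₀ v₀ → w' ∈ Wperp M u₀ v₀ →
      Nat.card {P : (F × F) × (F × F) |
        qf M (P.1.1 • u₀ + P.1.2 • v₀ + w) = α ∧ qf M (P.2.1 • u₀ + P.2.2 • v₀ + w') = β ∧
        bl M (P.1.1 • u₀ + P.1.2 • v₀ + w) (P.2.1 • u₀ + P.2.2 • v₀ + w') = 1} ≤ N) :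
    Nat.card (Omega M α β) ≤ N * Nat.card (Wperp M u₀ v₀) ^ 2 := by
  classical
  let wf : (Fin n → F) → (Fin n → F) :=
    fun x => x + (-(bl M x v₀)) • u₀ + (-(bl M x u₀)) • v₀
  have hw : ∀ x, wf x ∈ Wperp M u₀ v₀ := fun x => (omega0_decomp M u₀ v₀ h x).1
  have hx : ∀ x, bl M x v₀ • u₀ + bl M x u₀ • v₀ + wf x = x :=
    fun x => (omega0_decomp M u₀ v₀ h x).2
  let S : (Wperp M u₀ v₀) × (Wperp M u₀ v₀) → Set ((F × F) × (F × F)) := fun y =>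
    {P : (F × F) × (F × F) |
      qf M (P.1.1 • u₀ + P.1.2 • v₀ + (y.1 : Fin n → F)) = α ∧
      qf M (P.2.1 • u₀ + P.2.2 • v₀ + (y.2 : Fin n → F)) = β ∧
      bl M (P.1.1 • u₀ + P.1.2 • v₀ + (y.1 : Fin n → F))
        (P.2.1 • u₀ + P.2.2 • v₀ + (y.2 : Fin n → F)) = 1}
  have hmem : ∀ p : Omega M α β,
      ((bl M p.1.1 v₀, bl M p.1.1 u₀), (bl M p.1.2 v₀, bl M p.1.2 u₀)) ∈
        S (⟨wf p.1.1, hw _⟩, ⟨wf p.1.2, hw _⟩) := by
    intro p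
    show qf M (bl M p.1.1 v₀ • u₀ + bl M p.1.1 u₀ • v₀ + wf p.1.1) = α ∧
      qf M (bl M p.1.2 v₀ • u₀ + bl M p.1.2 u₀ • v₀ + wf p.1.2) = β ∧
      bl M (bl M p.1.1 v₀ • u₀ + bl M p.1.1 u₀ • v₀ + wf p.1.1)
        (bl M p.1.2 v₀ • u₀ + bl M p.1.2 u₀ • v₀ + wf p.1.2) = 1
    rw [hx, hx]
    exact p.2
  let Φ : Omega M α β → Σ y : (Wperp M u₀ v₀) × (Wperp M u₀ v₀), S y := fun p =>
    ⟨(⟨wf p.1.1, hw _⟩, ⟨wf p.1.2, hw _⟩),
     ⟨((bl M p.1.1 v₀, bl M p.1.1 u₀), (bl M p.1.2 v₀, bl M p.1.2 u₀)), hmem p⟩⟩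
  let g : (Σ y : (Wperp M u₀ v₀) × (Wperp M u₀ v₀), S y) →
      ((Fin n → F) × (Fin n → F)) × ((F × F) × (F × F)) :=
    fun s => (((s.1.1 : Fin n → F), (s.1.2 : Fin n → F)), (s.2 : (F × F) × (F × F)))
  have hinj : Function.Injective Φ := by
    intro p p' hpp
    have hg : g (Φ p) = g (Φ p') := by rw [hpp]
    have h1 : wf p.1.1 = wf p'.1.1 := congrArg (fun t => t.1.1) hg
    have h2 : wf p.1.2 = wf p'.1.2 := congrArg (fun t => t.1.2) hg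
    have h3 : bl M p.1.1 v₀ = bl M p'.1.1 v₀ := congrArg (fun t => t.2.1.1) hg
    have h4 : bl M p.1.1 u₀ = bl M p'.1.1 u₀ := congrArg (fun t => t.2.1.2) hg
    have h5 : bl M p.1.2 v₀ = bl M p'.1.2 v₀ := congrArg (fun t => t.2.2.1) hg
    have h6 : bl M p.1.2 u₀ = bl M p'.1.2 u₀ := congrArg (fun t => t.2.2.2) hg
    apply Subtype.ext
    apply Prod.ext
    · rw [← hx p.1.1, ← hx p'.1.1, h1, h3, h4]
    · rw [← hx p.1.2, ← hx p'.1.2, h2, h5, h6]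
  haveI : Finite (Fin n → F) := inferInstance
  calc Nat.card (Omega M α β)
      ≤ Nat.card (Σ y : (Wperp M u₀ v₀) × (Wperp M u₀ v₀), S y) :=
        Nat.card_le_card_of_injective Φ hinj
    _ = ∑ y : (Wperp M u₀ v₀) × (Wperp M u₀ v₀), Nat.card (S y) := Nat.card_sigma
    _ ≤ ∑ _y : (Wperp M u₀ v₀) × (Wperp M u₀ v₀), N :=
        Finset.sum_le_sum (fun y _ => hcount _ _ y.1.2 y.2.2)
    _ = N * Nat.card (Wperp M u₀ v₀) ^ 2 := by
        rw [Finset.sum_const, Finset.card_univ, smul_eq_mul, Fintype.card_prod,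
          Nat.card_eq_fintype_card, sq, mul_comm]

end Cfsg.Agent.Lib.Helper18.LS
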