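import Mathlib
import Cfsg.Prelude.Def_Classical
import Cfsg.Agent.Lib.Helper18.UEDefs
import Cfsg.Agent.Lib.Helper18.UODefs

/-!
# S2334 piece UO-BASIS3 (helper69): extending a hyperbolic basis by one orthonormal vector
-/

set_option autoImplicit false

namespace Cfsg.Agent.Lib.Helper18.UE

open Matrix

universe u

variable {F : Type u} [Field F] {m : ℕ}

theorem exists_basis3 (σ : F →+* F) (β : F) (P : Matrix (Fin (m + m)) (Fin m ⊕ Fin m) F)
    (P' : Matrix (Fin m ⊕ Fin m) (Fin (m + m)) F) (h1 : P * P' = 1) (h2 : P' * P = 1)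
    (h3 : Pᵀ * P.map σ = Jb m β) :
    ∃ (Q : Matrix (Fin (m + m + 1)) (I3 m) F) (Q' : Matrix (I3 m) (Fin (m + m + 1)) F),
      Q * Q' = 1 ∧ Q' * Q = 1 ∧ Qᵀ * Q.map σ = J3 m β := by
  obtain ⟨e, -⟩ : ∃ e : Fin (m + m + 1) ≃ Fin (m + m) ⊕ Fin 1, e = e :=
    ⟨finSumFinEquiv.symm, rfl⟩
  obtain ⟨B, hB⟩ : ∃ B : Matrix (Fin (m + m) ⊕ Fin 1) (I3 m) F,
      B = fromBlocks P 0 0 (1 : Matrix (Fin 1) (Fin 1) F) := ⟨_, rfl⟩
  obtain ⟨B', hB'⟩ : ∃ B' : Matrix (I3 m) (Fin (m + m) ⊕ Fin 1) F,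
      B' = fromBlocks P' 0 0 (1 : Matrix (Fin 1) (Fin 1) F) := ⟨_, rfl⟩
  have hBB' : B * B' = 1 := by
    rw [hB, hB', fromBlocks_multiply, h1]
    simp [fromBlocks_one]
  have hB'B : B' * B = 1 := by
    rw [hB, hB', fromBlocks_multiply, h2]
    simp [fromBlocks_one]
  have hBJ : Bᵀ * B.map σ = J3 m β := by
    rw [hB, fromBlocks_transpose, fromBlocks_map, fromBlocks_multiply, h3]
    unfold J3
    simp
  refine ⟨B.submatrix e (Equiv.refl _), B'.submatrix (Equiv.refl _) e, ?_, ?_, ?_⟩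
  · rw [submatrix_mul_equiv, hBB', submatrix_one_equiv]
  · rw [submatrix_mul_equiv, hB'B]
    simp
  · rw [transpose_submatrix, ← submatrix_map, submatrix_mul_equiv, hBJ]
    simp

end Cfsg.Agent.Lib.Helper18.UE
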