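import Mathlib
import Cfsg.Agent.Lib.Helper48.QADefs

/-!
# Project QA (helper48, S2787): piece QA-QRELY

`1 + M` acts on `e R ⊕ M e R` by the lower unitriangular matrix `!![1, 0; 1, 1]` when `M * M = 0`.
-/

set_option autoImplicit false

namespace Cfsg.Agent.Lib.Helper48.QA

open Matrix Polynomial

theorem rel_y {R : Type*} [Ring R] (N M : R) (hM : M * M = 0) (j : ℕ) :
    Rel M (N * M) ((N * M) ^ j) (1 + M) !![1, 0; 1, 1] := by
  unfold Rel
  have h00 : (!![1, 0; 1, 1] : Matrix (Fin 2) (Fin 2) ℤ[X]) 0 0 = 1 := rfl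
  have h01 : (!![1, 0; 1, 1] : Matrix (Fin 2) (Fin 2) ℤ[X]) 0 1 = 0 := rfl
  have h10 : (!![1, 0; 1, 1] : Matrix (Fin 2) (Fin 2) ℤ[X]) 1 0 = 1 := rfl
  have h11 : (!![1, 0; 1, 1] : Matrix (Fin 2) (Fin 2) ℤ[X]) 1 1 = 1 := rfl
  rw [h00, h01, h10, h11]
  refine ⟨?_, ?_⟩
  · rw [map_one, one_mul, add_mul, one_mul]
  · rw [map_one, map_zero, zero_mul, zero_add, one_mul, add_mul, one_mul, ← mul_assoc M M, hM,
      zero_mul, add_zero]

end Cfsg.Agent.Lib.Helper48.QA
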