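import Mathlib
import Cfsg.Agent.Lib.Helper40.SL2Gen
import Cfsg.Agent.Lib.Helper51.NMDefs

/-!
# S3009 piece NM-B (helper69): the equivariant additive bijection `M → F²`

Given `x₀ ≠ 0` fixed by the lower unitriangular group with `(u - 1) x₀` fixed by the upper
unitriangular group, the map `Psi c = n(1) φ(c₀) x₀ + φ(c₁) x₀` is an equivariant additive
bijection `F² → M`; its inverse is the required `ψ`.
-/

set_option autoImplicit false

namespace Cfsg.Agent.Lib.Helper69.NMB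

open Matrix Cfsg.Agent.Lib.Helper40 Cfsg.Agent.Lib.Helper51.NM

section mats

variable {F : Type*} [Field F]

/-- `n(a) = [[0, a], [-1/a, 0]]` (for `a ≠ 0`) -/
def nn (a : F) : SpecialLinearGroup (Fin 2) F := sl2Up a * sl2Lo (-a⁻¹) * sl2Up a

/-- `h(t) = [[t, 0], [0, 1/t]]` (for `t ≠ 0`) -/
def hh (t : F) : SpecialLinearGroup (Fin 2) F := nn t * (nn 1)⁻¹

theorem nn_00 {a : F} (ha : a ≠ 0) : nn a 0 0 = 0 := by
  simp only [nn, sl2_mul_00, sl2_mul_01, sl2_mul_10, sl2_mul_11, sl2Up_00, sl2Up_01, sl2Up_10,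
    sl2Up_11, sl2Lo_00, sl2Lo_01, sl2Lo_10, sl2Lo_11]
  linear_combination (-1 : F) * mul_inv_cancel₀ ha

theorem nn_01 {a : F} (ha : a ≠ 0) : nn a 0 1 = a := by
  simp only [nn, sl2_mul_00, sl2_mul_01, sl2_mul_10, sl2_mul_11, sl2Up_00, sl2Up_01, sl2Up_10,
    sl2Up_11, sl2Lo_00, sl2Lo_01, sl2Lo_10, sl2Lo_11]
  linear_combination (-a) * mul_inv_cancel₀ ha

theorem nn_10 (a : F) : nn a 1 0 = -a⁻¹ := by
  simp only [nn, sl2_mul_00, sl2_mul_01, sl2_mul_10, sl2_mul_11, sl2Up_00, sl2Up_01, sl2Up_10,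
    sl2Up_11, sl2Lo_00, sl2Lo_01, sl2Lo_10, sl2Lo_11]
  ring

theorem nn_11 {a : F} (ha : a ≠ 0) : nn a 1 1 = 0 := by
  simp only [nn, sl2_mul_00, sl2_mul_01, sl2_mul_10, sl2_mul_11, sl2Up_00, sl2Up_01, sl2Up_10,
    sl2Up_11, sl2Lo_00, sl2Lo_01, sl2Lo_10, sl2Lo_11]
  linear_combination (-1 : F) * mul_inv_cancel₀ ha

theorem hh_00 {t : F} (ht : t ≠ 0) : hh t 0 0 = t := by
  simp only [hh, sl2_mul_00, sl2_inv_00, sl2_inv_10, nn_00 ht, nn_01 ht, nn_10,
    nn_11 (one_ne_zero : (1 : F) ≠ 0)]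
  simp

theorem hh_01 {t : F} (ht : t ≠ 0) : hh t 0 1 = 0 := by
  simp only [hh, sl2_mul_01, sl2_inv_01, sl2_inv_11, nn_00 ht, nn_01 ht,
    nn_00 (one_ne_zero : (1 : F) ≠ 0)]
  simp

theorem hh_10 {t : F} (ht : t ≠ 0) : hh t 1 0 = 0 := by
  simp only [hh, sl2_mul_10, sl2_inv_00, sl2_inv_10, nn_10, nn_11 ht,
    nn_11 (one_ne_zero : (1 : F) ≠ 0)]
  simp

theorem hh_11 {t : F} (ht : t ≠ 0) : hh t 1 1 = t⁻¹ := by
  simp only [hh, sl2_mul_11, sl2_inv_01, sl2_inv_11, nn_10, nn_11 ht,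
    nn_01 (one_ne_zero : (1 : F) ≠ 0), nn_00 (one_ne_zero : (1 : F) ≠ 0)]
  simp

theorem hh_one : hh (1 : F) = 1 := mul_inv_cancel _

theorem lo_mul_nn {a : F} (ha : a ≠ 0) (c : F) :
    sl2Lo c * nn a = nn a * sl2Up (-c * a ^ 2) := by
  apply sl2_ext' <;>
    simp only [sl2_mul_00, sl2_mul_01, sl2_mul_10, sl2_mul_11, sl2Up_00, sl2Up_01, sl2Up_10,
      sl2Up_11, sl2Lo_00, sl2Lo_01, sl2Lo_10, sl2Lo_11, nn_00 ha, nn_01 ha, nn_10, nn_11 ha] <;>
    field_simp <;> ring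

theorem up_mul_nn {a : F} (ha : a ≠ 0) (c : F) :
    sl2Up c * nn a = nn a * sl2Lo (-c / a ^ 2) := by
  apply sl2_ext' <;>
    simp only [sl2_mul_00, sl2_mul_01, sl2_mul_10, sl2_mul_11, sl2Up_00, sl2Up_01, sl2Up_10,
      sl2Up_11, sl2Lo_00, sl2Lo_01, sl2Lo_10, sl2Lo_11, nn_00 ha, nn_01 ha, nn_10, nn_11 ha] <;>
    field_simp <;> ring

theorem lo_mul_hh {t : F} (ht : t ≠ 0) (c : F) :
    sl2Lo c * hh t = hh t * sl2Lo (c * t ^ 2) := by
  apply sl2_ext' <;>
    simp only [sl2_mul_00, sl2_mul_01, sl2_mul_10, sl2_mul_11, sl2Up_00, sl2Up_01, sl2Up_10,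
      sl2Up_11, sl2Lo_00, sl2Lo_01, sl2Lo_10, sl2Lo_11, hh_00 ht, hh_01 ht, hh_10 ht, hh_11 ht] <;>
    field_simp <;> ring

theorem up_mul_hh {t : F} (ht : t ≠ 0) (c : F) :
    sl2Up c * hh t = hh t * sl2Up (c / t ^ 2) := by
  apply sl2_ext' <;>
    simp only [sl2_mul_00, sl2_mul_01, sl2_mul_10, sl2_mul_11, sl2Up_00, sl2Up_01, sl2Up_10,
      sl2Up_11, sl2Lo_00, sl2Lo_01, sl2Lo_10, sl2Lo_11, hh_00 ht, hh_01 ht, hh_10 ht, hh_11 ht] <;>
    field_simp <;> ring

theorem nn_eq' {a : F} (ha : a ≠ 0) : nn a = sl2Lo (-a⁻¹) * sl2Up a * sl2Lo (-a⁻¹) := by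
  apply sl2_ext' <;>
    simp only [sl2_mul_00, sl2_mul_01, sl2_mul_10, sl2_mul_11, sl2Up_00, sl2Up_01, sl2Up_10,
      sl2Up_11, sl2Lo_00, sl2Lo_01, sl2Lo_10, sl2Lo_11, nn_00 ha, nn_01 ha, nn_10, nn_11 ha] <;>
    field_simp <;> ring

theorem nn_eq_hh {a : F} (ha : a ≠ 0) : nn a = nn 1 * hh a⁻¹ := by
  have ha' : a⁻¹ ≠ 0 := inv_ne_zero ha
  apply sl2_ext' <;>
    simp only [sl2_mul_00, sl2_mul_01, sl2_mul_10, sl2_mul_11, nn_00 ha, nn_01 ha, nn_10,
      nn_11 ha, nn_00 (one_ne_zero : (1 : F) ≠ 0), nn_01 (one_ne_zero : (1 : F) ≠ 0),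
      nn_11 (one_ne_zero : (1 : F) ≠ 0), hh_00 ha', hh_01 ha', hh_10 ha', hh_11 ha'] <;>
    simp

theorem nn_one_sq : nn (1 : F) * nn 1 = hh (-1) := by
  have h1 : (-1 : F) ≠ 0 := neg_ne_zero.2 one_ne_zero
  apply sl2_ext' <;>
    simp only [sl2_mul_00, sl2_mul_01, sl2_mul_10, sl2_mul_11, nn_10,
      nn_00 (one_ne_zero : (1 : F) ≠ 0), nn_01 (one_ne_zero : (1 : F) ≠ 0),
      nn_11 (one_ne_zero : (1 : F) ≠ 0), hh_00 h1, hh_01 h1, hh_10 h1, hh_11 h1] <;>
    simp [inv_neg]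

theorem hh_mul {s t : F} (hs : s ≠ 0) (ht : t ≠ 0) : hh s * hh t = hh (s * t) := by
  have hst : s * t ≠ 0 := mul_ne_zero hs ht
  apply sl2_ext' <;>
    simp only [sl2_mul_00, sl2_mul_01, sl2_mul_10, sl2_mul_11, hh_00 hs, hh_01 hs, hh_10 hs,
      hh_11 hs, hh_00 ht, hh_01 ht, hh_10 ht, hh_11 ht, hh_00 hst, hh_01 hst, hh_10 hst,
      hh_11 hst] <;>
    simp [mul_comm]

theorem mulVec_0 (g : SpecialLinearGroup (Fin 2) F) (c : Fin 2 → F) :
    ((g : Matrix (Fin 2) (Fin 2) F) *ᵥ c) 0 = g 0 0 * c 0 + g 0 1 * c 1 := by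
  simp [mulVec, dotProduct, Fin.sum_univ_two]

theorem mulVec_1 (g : SpecialLinearGroup (Fin 2) F) (c : Fin 2 → F) :
    ((g : Matrix (Fin 2) (Fin 2) F) *ᵥ c) 1 = g 1 0 * c 0 + g 1 1 * c 1 := by
  simp [mulVec, dotProduct, Fin.sum_univ_two]

end mats

section action

variable {F : Type*} [Field F] {M : Type*} [AddCommGroup M]
  {act : SpecialLinearGroup (Fin 2) F → M → M}

theorem act_zero (h : IsIrrAct act) (g : SpecialLinearGroup (Fin 2) F) : act g 0 = 0 := by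
  have := h.add g 0 0
  simpa using this

theorem act_neg (h : IsIrrAct act) (g : SpecialLinearGroup (Fin 2) F) (m : M) :
    act g (-m) = -act g m := by
  have := h.add g m (-m)
  rw [add_neg_cancel, act_zero h] at this
  exact eq_neg_of_add_eq_zero_right this.symm

theorem act_sub (h : IsIrrAct act) (g : SpecialLinearGroup (Fin 2) F) (m m' : M) :
    act g (m - m') = act g m - act g m' := by
  rw [sub_eq_add_neg, h.add, act_neg h, ← sub_eq_add_neg]

theorem act_inv_act (h : IsIrrAct act) (g : SpecialLinearGroup (Fin 2) F) (m : M) :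
    act g⁻¹ (act g m) = m := by
  rw [← h.mul, inv_mul_cancel, h.one]

theorem act_act_inv (h : IsIrrAct act) (g : SpecialLinearGroup (Fin 2) F) (m : M) :
    act g (act g⁻¹ m) = m := by
  rw [← h.mul, mul_inv_cancel, h.one]

theorem act_inj (h : IsIrrAct act) (g : SpecialLinearGroup (Fin 2) F) {m m' : M}
    (e : act g m = act g m') : m = m' := by
  rw [← act_inv_act h g m, e, act_inv_act h g m']

/-- fixed by the upper unitriangular group -/
def Fu (act : SpecialLinearGroup (Fin 2) F → M → M) (m : M) : Prop :=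
  ∀ a : F, act (sl2Up a) m = m

/-- fixed by the lower unitriangular group -/
def Fl (act : SpecialLinearGroup (Fin 2) F → M → M) (m : M) : Prop :=
  ∀ a : F, act (sl2Lo a) m = m

/-- the set `X₀` -/
def X0 (act : SpecialLinearGroup (Fin 2) F → M → M) (x : M) : Prop :=
  Fl act x ∧ ∀ a : F, Fu act (act (sl2Up a) x - x)

theorem Fu_zero (h : IsIrrAct act) : Fu act (0 : M) := fun a => act_zero h _

theorem Fu_add (h : IsIrrAct act) {m m' : M} (hm : Fu act m) (hm' : Fu act m') :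
    Fu act (m + m') := fun a => by rw [h.add, hm a, hm' a]

theorem Fu_neg (h : IsIrrAct act) {m : M} (hm : Fu act m) : Fu act (-m) :=
  fun a => by rw [act_neg h, hm a]

theorem Fu_sub (h : IsIrrAct act) {m m' : M} (hm : Fu act m) (hm' : Fu act m') :
    Fu act (m - m') := fun a => by rw [act_sub h, hm a, hm' a]

theorem Fl_zero (h : IsIrrAct act) : Fl act (0 : M) := fun a => act_zero h _

theorem Fl_add (h : IsIrrAct act) {m m' : M} (hm : Fl act m) (hm' : Fl act m') :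
    Fl act (m + m') := fun a => by rw [h.add, hm a, hm' a]

theorem Fl_neg (h : IsIrrAct act) {m : M} (hm : Fl act m) : Fl act (-m) :=
  fun a => by rw [act_neg h, hm a]

theorem X0_zero (h : IsIrrAct act) : X0 act (0 : M) :=
  ⟨Fl_zero h, fun a => by rw [act_zero h, sub_zero]; exact Fu_zero h⟩

/-- FACT 0: `M₀ ∩ M₀' = 0` -/
theorem fact0 (h : IsIrrAct act) {m : M} (hu : Fu act m) (hl : Fl act m) : m = 0 := by
  let H : Subgroup (SpecialLinearGroup (Fin 2) F) :=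
    { carrier := {g | act g m = m}
      mul_mem' := fun {a b} ha hb => by
        show act (a * b) m = m
        rw [h.mul, (hb : act b m = m), (ha : act a m = m)]
      one_mem' := h.one m
      inv_mem' := fun {a} ha => by
        show act a⁻¹ m = m
        have h1 := act_inv_act h a m
        rw [(ha : act a m = m)] at h1
        exact h1 }
  have hH : H = ⊤ := by
    refine eq_top_of_unip2_le (H := H) ?_ (g := sl2Lo 1) (hl 1) (by simp)
    intro g hg
    obtain ⟨x, rfl⟩ := mem_unip2_iff.mp hg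
    exact hu x
  have hfix : ∀ g, act g m = m := fun g => by
    have : g ∈ H := by rw [hH]; exact Subgroup.mem_top g
    exact this
  let N : AddSubgroup M :=
    { carrier := {m | ∀ g, act g m = m}
      add_mem' := fun {a b} ha hb g => by
        rw [h.add, (ha g : act g a = a), (hb g : act g b = b)]
      zero_mem' := fun g => act_zero h g
      neg_mem' := fun {a} ha g => by
        rw [act_neg h, (ha g : act g a = a)] }
  have hinv : ∀ g, ∀ m' ∈ N, act g m' ∈ N := by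
    intro g m' hm'
    have e : act g m' = m' := hm' g
    rw [e]
    exact hm'
  rcases h.irr N hinv with hN | hN
  · have hm : m ∈ N := hfix
    rw [hN] at hm
    exact (AddSubgroup.mem_bot).1 hm
  · obtain ⟨g, m', hne⟩ := h.nt
    have hm' : m' ∈ N := by rw [hN]; exact AddSubgroup.mem_top m'
    exact absurd (hm' g) hne

/-- FACT 1 -/
theorem nn_Fu_Fl (h : IsIrrAct act) {a : F} (ha : a ≠ 0) {m : M} (hm : Fu act m) :
    Fl act (act (nn a) m) := by
  intro c
  rw [← h.mul, lo_mul_nn ha c, h.mul, hm]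

theorem nn_Fl_Fu (h : IsIrrAct act) {a : F} (ha : a ≠ 0) {m : M} (hm : Fl act m) :
    Fu act (act (nn a) m) := by
  intro c
  rw [← h.mul, up_mul_nn ha c, h.mul, hm]

theorem hh_Fu (h : IsIrrAct act) {t : F} (ht : t ≠ 0) {m : M} (hm : Fu act m) :
    Fu act (act (hh t) m) := by
  intro c
  rw [← h.mul, up_mul_hh ht c, h.mul, hm]

theorem hh_Fl (h : IsIrrAct act) {t : F} (ht : t ≠ 0) {m : M} (hm : Fl act m) :
    Fl act (act (hh t) m) := by
  intro c
  rw [← h.mul, lo_mul_hh ht c, h.mul, hm]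

/-- (B1) -/
theorem hh_X0 (h : IsIrrAct act) {t : F} (ht : t ≠ 0) {x : M} (hx : X0 act x) :
    X0 act (act (hh t) x) := by
  refine ⟨hh_Fl h ht hx.1, fun a => ?_⟩
  have e : act (sl2Up a) (act (hh t) x) - act (hh t) x =
      act (hh t) (act (sl2Up (a / t ^ 2)) x - x) := by
    rw [act_sub h, ← h.mul, ← h.mul, up_mul_hh ht a]
  rw [e]
  exact hh_Fu h ht (hx.2 _)

/-- (B2) -/
theorem up_eq (h : IsIrrAct act) {x : M} (hx : X0 act x) {a : F} (ha : a ≠ 0) :
    act (sl2Up a) x = x + act (nn a) x := by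
  have hyu : Fu act (act (sl2Up a) x - x) := hx.2 a
  have e1 : act (nn a) x = x + act (sl2Lo (-a⁻¹)) (act (sl2Up a) x - x) := by
    rw [nn_eq' ha, h.mul, h.mul, hx.1 (-a⁻¹), act_sub h, hx.1 (-a⁻¹)]
    abel
  have e2 : act (nn a) (act (sl2Up a) x - x) =
      act (nn a) x - x - (act (sl2Up a) x - x) := by
    have e3 : act (nn a) (act (sl2Up a) x - x) =
        act (sl2Up a) (act (sl2Lo (-a⁻¹)) (act (sl2Up a) x - x)) := by
      conv_lhs => rw [nn, h.mul, h.mul, hyu a]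
    have e4 : act (sl2Lo (-a⁻¹)) (act (sl2Up a) x - x) = act (nn a) x - x := by
      rw [e1]; abel
    rw [e3, e4, act_sub h, nn_Fl_Fu h ha hx.1 a]
    abel
  have hz : act (nn a) x - (act (sl2Up a) x - x) = 0 := by
    apply fact0 h
    · exact Fu_sub h (nn_Fl_Fu h ha hx.1) hyu
    · have e5 : act (nn a) x - (act (sl2Up a) x - x) =
          act (nn a) (act (sl2Up a) x - x) + x := by
        rw [e2]; abel
      rw [e5]
      exact Fl_add h (nn_Fu_Fl h ha hyu) hx.1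
  have e6 : act (nn a) x = act (sl2Up a) x - x := sub_eq_zero.1 hz
  rw [e6]
  abel

open Classical in
/-- the "field action" `φ a = act h(1/a)` (and `0` for `a = 0`) -/
noncomputable def phi (act : SpecialLinearGroup (Fin 2) F → M → M) (a : F) (x : M) : M :=
  if a = 0 then 0 else act (hh a⁻¹) x

theorem phi_zero (x : M) : phi act (0 : F) x = 0 := by
  unfold phi
  rw [if_pos rfl]

theorem phi_ne {a : F} (ha : a ≠ 0) (x : M) : phi act a x = act (hh a⁻¹) x := by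
  unfold phi
  rw [if_neg ha]

theorem phi_X0 (h : IsIrrAct act) (a : F) {x : M} (hx : X0 act x) : X0 act (phi act a x) := by
  by_cases ha : a = 0
  · rw [ha, phi_zero]
    exact X0_zero h
  · rw [phi_ne ha]
    exact hh_X0 h (inv_ne_zero ha) hx

theorem phi_one (h : IsIrrAct act) (x : M) : phi act (1 : F) x = x := by
  rw [phi_ne one_ne_zero, inv_one, hh_one, h.one]

theorem phi_mul (h : IsIrrAct act) (a b : F) (x : M) :
    phi act a (phi act b x) = phi act (a * b) x := by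
  by_cases ha : a = 0
  · rw [ha, zero_mul, phi_zero, phi_zero]
  · by_cases hb : b = 0
    · rw [hb, mul_zero, phi_zero, phi_ne ha, act_zero h]
    · rw [phi_ne ha, phi_ne hb, phi_ne (mul_ne_zero ha hb), ← h.mul,
        hh_mul (inv_ne_zero ha) (inv_ne_zero hb), mul_inv]

theorem phi_eq_zero (h : IsIrrAct act) {a : F} {x : M} (hx : x ≠ 0) (e : phi act a x = 0) :
    a = 0 := by
  by_contra ha
  rw [phi_ne ha] at e
  apply hx
  apply act_inj h (hh a⁻¹)
  rw [e, act_zero h]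

/-- (B3) -/
theorem up_phi (h : IsIrrAct act) {x : M} (hx : X0 act x) (a : F) :
    act (sl2Up a) x = x + act (nn 1) (phi act a x) := by
  by_cases ha : a = 0
  · rw [ha, sl2Up_zero, h.one, phi_zero, act_zero h, add_zero]
  · rw [up_eq h hx ha, phi_ne ha, ← h.mul, ← nn_eq_hh ha]

/-- (B4) -/
theorem phi_add (h : IsIrrAct act) {x : M} (hx : X0 act x) (a b : F) :
    phi act (a + b) x = phi act a x + phi act b x := by
  have e := up_phi h hx (a + b)
  rw [← sl2Up_mul, h.mul, up_phi h hx b, h.add, up_phi h hx a,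
    (nn_Fl_Fu h one_ne_zero (phi_X0 h b hx).1) a, add_assoc] at e
  have e' := add_left_cancel e
  apply act_inj h (nn 1)
  rw [h.add]
  exact e'.symm

/-- (B5) the map `Ψ` -/
noncomputable def Psi (act : SpecialLinearGroup (Fin 2) F → M → M) (x₀ : M)
    (c : Fin 2 → F) : M :=
  act (nn 1) (phi act (c 0) x₀) + phi act (c 1) x₀

theorem Psi_add (h : IsIrrAct act) {x₀ : M} (hx : X0 act x₀) (c c' : Fin 2 → F) :
    Psi act x₀ (c + c') = Psi act x₀ c + Psi act x₀ c' := by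
  unfold Psi
  rw [Pi.add_apply, Pi.add_apply, phi_add h hx, phi_add h hx, h.add]
  abel

theorem Psi_zero (h : IsIrrAct act) (x₀ : M) : Psi act x₀ (0 : Fin 2 → F) = 0 := by
  unfold Psi
  rw [Pi.zero_apply, Pi.zero_apply, phi_zero, act_zero h, add_zero]

theorem Psi_up (h : IsIrrAct act) {x₀ : M} (hx : X0 act x₀) (a : F) (c : Fin 2 → F) :
    act (sl2Up a) (Psi act x₀ c) =
      Psi act x₀ ((sl2Up a : Matrix (Fin 2) (Fin 2) F) *ᵥ c) := by
  unfold Psi
  rw [mulVec_0, mulVec_1, sl2Up_00, sl2Up_01, sl2Up_10, sl2Up_11, one_mul, zero_mul, zero_add,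
    one_mul, phi_add h hx, h.add, h.add,
    (nn_Fl_Fu h one_ne_zero (phi_X0 h (c 0) hx).1) a, up_phi h (phi_X0 h (c 1) hx) a,
    phi_mul h]
  abel

theorem Psi_nn (h : IsIrrAct act) {x₀ : M} (hx : X0 act x₀) (c : Fin 2 → F) :
    act (nn 1) (Psi act x₀ c) =
      Psi act x₀ ((nn (1 : F) : Matrix (Fin 2) (Fin 2) F) *ᵥ c) := by
  have h1 : (-1 : F) ≠ 0 := neg_ne_zero.2 one_ne_zero
  have e0 : ((nn (1 : F) : Matrix (Fin 2) (Fin 2) F) *ᵥ c) 0 = c 1 := by
    rw [mulVec_0, nn_00 one_ne_zero, nn_01 one_ne_zero, zero_mul, zero_add, one_mul]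
  have e1 : ((nn (1 : F) : Matrix (Fin 2) (Fin 2) F) *ᵥ c) 1 = -1 * c 0 := by
    rw [mulVec_1, nn_10, nn_11 one_ne_zero, zero_mul, add_zero, inv_one]
  unfold Psi
  rw [e0, e1, h.add, ← h.mul, nn_one_sq, ← phi_mul h, phi_ne h1, inv_neg, inv_one]
  abel

/-- equivariance of `Ψ` under `g` -/
def Eqv (act : SpecialLinearGroup (Fin 2) F → M → M) (x₀ : M)
    (g : SpecialLinearGroup (Fin 2) F) : Prop :=
  ∀ c : Fin 2 → F, act g (Psi act x₀ c) = Psi act x₀ ((g : Matrix (Fin 2) (Fin 2) F) *ᵥ c)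

theorem coe_mul_mulVec (a b : SpecialLinearGroup (Fin 2) F) (c : Fin 2 → F) :
    ((a * b : SpecialLinearGroup (Fin 2) F) : Matrix (Fin 2) (Fin 2) F) *ᵥ c =
      (a : Matrix (Fin 2) (Fin 2) F) *ᵥ ((b : Matrix (Fin 2) (Fin 2) F) *ᵥ c) :=
  (mulVec_mulVec c (a : Matrix (Fin 2) (Fin 2) F) (b : Matrix (Fin 2) (Fin 2) F)).symm

theorem coe_one_mulVec (c : Fin 2 → F) :
    ((1 : SpecialLinearGroup (Fin 2) F) : Matrix (Fin 2) (Fin 2) F) *ᵥ c = c := by
  simp

theorem Eqv_one (h : IsIrrAct act) (x₀ : M) : Eqv act x₀ (1 : SpecialLinearGroup (Fin 2) F) := by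
  intro c
  rw [h.one, coe_one_mulVec]

theorem Eqv_mul (h : IsIrrAct act) {x₀ : M} {a b : SpecialLinearGroup (Fin 2) F}
    (ha : Eqv act x₀ a) (hb : Eqv act x₀ b) : Eqv act x₀ (a * b) := by
  intro c
  rw [h.mul, hb c, ha _, coe_mul_mulVec]

theorem Eqv_inv (h : IsIrrAct act) {x₀ : M} {a : SpecialLinearGroup (Fin 2) F}
    (ha : Eqv act x₀ a) : Eqv act x₀ a⁻¹ := by
  intro c
  apply act_inj h a
  rw [act_act_inv h, ha _, ← coe_mul_mulVec, mul_inv_cancel, coe_one_mulVec]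

/-- (B6) full equivariance -/
theorem Psi_equiv (h : IsIrrAct act) {x₀ : M} (hx : X0 act x₀)
    (g : SpecialLinearGroup (Fin 2) F) (c : Fin 2 → F) :
    act g (Psi act x₀ c) = Psi act x₀ ((g : Matrix (Fin 2) (Fin 2) F) *ᵥ c) := by
  let H : Subgroup (SpecialLinearGroup (Fin 2) F) :=
    { carrier := {g : SpecialLinearGroup (Fin 2) F | Eqv act x₀ g}
      mul_mem' := fun {a b} ha hb => Eqv_mul h ha hb
      one_mem' := Eqv_one h x₀
      inv_mem' := fun {a} ha => Eqv_inv h ha }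
  have hH : H = ⊤ := by
    refine eq_top_of_unip2_le (H := H) ?_ (g := nn 1) (fun c => Psi_nn h hx c) ?_
    · intro g hg
      obtain ⟨a, rfl⟩ := mem_unip2_iff.mp hg
      exact fun c => Psi_up h hx a c
    · rw [nn_10]
      simp
  have : g ∈ H := by rw [hH]; exact Subgroup.mem_top g
  exact this c

theorem Psi_surj (h : IsIrrAct act) {x₀ : M} (hx : X0 act x₀) (hx₀ : x₀ ≠ 0) :
    Function.Surjective (Psi act x₀ : (Fin 2 → F) → M) := by
  let N : AddSubgroup M :=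
    { carrier := Set.range (Psi act x₀ : (Fin 2 → F) → M)
      add_mem' := by
        rintro _ _ ⟨c, rfl⟩ ⟨c', rfl⟩
        exact ⟨c + c', Psi_add h hx c c'⟩
      zero_mem' := ⟨0, Psi_zero h x₀⟩
      neg_mem' := by
        rintro _ ⟨c, rfl⟩
        refine ⟨-c, ?_⟩
        have := Psi_add h hx c (-c)
        rw [add_neg_cancel, Psi_zero h] at this
        exact eq_neg_of_add_eq_zero_right this.symm }
  have hinv : ∀ g, ∀ m ∈ N, act g m ∈ N := by
    rintro g _ ⟨c, rfl⟩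
    exact ⟨_, (Psi_equiv h hx g c).symm⟩
  have hmem : x₀ ∈ N := by
    refine ⟨![0, 1], ?_⟩
    unfold Psi
    simp only [Matrix.cons_val_zero, Matrix.cons_val_one]
    rw [phi_zero, act_zero h, zero_add, phi_one h]
  rcases h.irr N hinv with hN | hN
  · rw [hN] at hmem
    exact absurd ((AddSubgroup.mem_bot).1 hmem) hx₀
  · intro m
    have : m ∈ N := by rw [hN]; exact AddSubgroup.mem_top m
    exact this

theorem Psi_ker (h : IsIrrAct act) {x₀ : M} (hx : X0 act x₀) (hx₀ : x₀ ≠ 0)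
    {d : Fin 2 → F} (hd : Psi act x₀ d = 0) : d = 0 := by
  unfold Psi at hd
  have hA : Fu act (act (nn 1) (phi act (d 0) x₀)) :=
    nn_Fl_Fu h one_ne_zero (phi_X0 h (d 0) hx).1
  have hB : Fl act (phi act (d 1) x₀) := (phi_X0 h (d 1) hx).1
  have e1 : phi act (d 1) x₀ = -act (nn 1) (phi act (d 0) x₀) :=
    eq_neg_of_add_eq_zero_right hd
  have hB0 : phi act (d 1) x₀ = 0 := fact0 h (by rw [e1]; exact Fu_neg h hA) hB
  have hA0 : act (nn 1) (phi act (d 0) x₀) = 0 := by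
    rw [hB0, add_zero] at hd
    exact hd
  have hA1 : phi act (d 0) x₀ = 0 := by
    apply act_inj h (nn 1)
    rw [hA0, act_zero h]
  ext i
  fin_cases i
  · exact phi_eq_zero h hx₀ hA1
  · exact phi_eq_zero h hx₀ hB0

theorem Psi_inj (h : IsIrrAct act) {x₀ : M} (hx : X0 act x₀) (hx₀ : x₀ ≠ 0) :
    Function.Injective (Psi act x₀ : (Fin 2 → F) → M) := by
  intro c c' hcc
  have e : Psi act x₀ c = Psi act x₀ (c - c') + Psi act x₀ c' := by
    rw [← Psi_add h hx, sub_add_cancel]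
  rw [hcc] at e
  have e0 : Psi act x₀ (c - c') = 0 := by
    have := e.symm
    rwa [add_eq_right] at this
  exact sub_eq_zero.1 (Psi_ker h hx hx₀ e0)

end action

theorem exists_iso {F : Type*} [Field F] {M : Type*} [AddCommGroup M]
    (act : SpecialLinearGroup (Fin 2) F → M → M) (h : IsIrrAct act)
    (x₀ : M) (hx₀ : x₀ ≠ 0) (hlo : ∀ b : F, act (sl2Lo b) x₀ = x₀)
    (hup : ∀ a c : F, act (sl2Up c) (act (sl2Up a) x₀ - x₀) = act (sl2Up a) x₀ - x₀) :
    ∃ ψ : M → (Fin 2 → F), Function.Bijective ψ ∧ (∀ m m', ψ (m + m') = ψ m + ψ m') ∧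
      ∀ (g : SpecialLinearGroup (Fin 2) F) (m : M),
        ψ (act g m) = (g : Matrix (Fin 2) (Fin 2) F).mulVec (ψ m) := by
  have hx : X0 act x₀ := ⟨hlo, fun a c => hup a c⟩
  let e : (Fin 2 → F) ≃ M := Equiv.ofBijective (Psi act x₀) ⟨Psi_inj h hx hx₀, Psi_surj h hx hx₀⟩
  have he : ∀ c, e c = Psi act x₀ c := fun c => rfl
  refine ⟨e.symm, e.symm.bijective, fun m m' => ?_, fun g m => ?_⟩
  · apply e.injective
    rw [Equiv.apply_symm_apply, he, Psi_add h hx, ← he, ← he, Equiv.apply_symm_apply,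
      Equiv.apply_symm_apply]
  · apply e.injective
    rw [Equiv.apply_symm_apply, he, ← Psi_equiv h hx, ← he, Equiv.apply_symm_apply]

end Cfsg.Agent.Lib.Helper69.NMB
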