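import Mathlib
import Cfsg.Agent.Lib.Helper80.CTDefs

/-!
# S5748 piece COVER

The `A`-conjugates of `H = N ∩ u₀ N u₀⁻¹` cover `N ∖ A` (injective map + counting).
-/

set_option autoImplicit false

namespace Cfsg.Agent.Lib.Helper69.CTCOVER

open Cfsg.Agent.Lib.Helper80.CT

variable {G : Type*} [Group G] [Finite G]

variable {A N : Subgroup G} {q : ℕ}

/-- piece COVER -/
theorem cover (hD : Data G A N q)
    (hall : ∀ v : G, orderOf v = 2 → v ∉ N →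
      Dsub N v ⊓ A = ⊥ ∧ Nat.card (Dsub N v) = q - 1 ∧ ∀ d ∈ Dsub N v, v * d * v⁻¹ = d⁻¹)
    (hcoset : ∀ g : G, g ∉ N → ∃ v : G, orderOf v = 2 ∧ v * g⁻¹ ∈ N) :
    ∀ h ∈ N, h ∉ A → ∃ u : G, orderOf u = 2 ∧ u ∉ N ∧ h ∈ Dsub N u := by
  classical
  obtain ⟨g₀, hg₀⟩ := hD.ne_top
  obtain ⟨u₀, hu₀, hu₀g⟩ := hcoset g₀ hg₀
  have hu₀N : u₀ ∉ N := by
    intro h
    apply hg₀
    have h1 : g₀⁻¹ = u₀⁻¹ * (u₀ * g₀⁻¹) := by group
    have h2 : g₀⁻¹ ∈ N := by rw [h1]; exact mul_mem (inv_mem h) hu₀g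
    simpa using inv_mem h2
  obtain ⟨hHA, hHcard, -⟩ := hall u₀ hu₀ hu₀N
  have hHN : ∀ k ∈ Dsub N u₀, k ∈ N := fun k hk => ((mem_Dsub N u₀ k).mp hk).1
  have hk_notA : ∀ k ∈ Dsub N u₀, k ≠ 1 → k ∉ A := by
    intro k hk hk1 hkA
    have h1 : k ∈ Dsub N u₀ ⊓ A := Subgroup.mem_inf.mpr ⟨hk, hkA⟩
    rw [hHA, Subgroup.mem_bot] at h1
    exact hk1 h1
  -- the map `(a, k) ↦ a k a⁻¹`
  have hΨmem : ∀ (a : A) (k : ↥((Dsub N u₀ : Set G) \ {1})),
      (a : G) * (k : G) * (a : G)⁻¹ ∈ (N : Set G) \ (A : Set G) := by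
    intro a k
    have hkH : (k : G) ∈ Dsub N u₀ := k.2.1
    have hk1 : (k : G) ≠ 1 := fun h => k.2.2 (by simpa using h)
    refine ⟨?_, ?_⟩
    · exact mul_mem (mul_mem (hD.le a.2) (hHN _ hkH)) (inv_mem (hD.le a.2))
    · intro hA
      apply hk_notA _ hkH hk1
      have h1 : (k : G) = (a : G)⁻¹ * ((a : G) * (k : G) * (a : G)⁻¹) * (a : G) := by group
      rw [h1]
      exact mul_mem (mul_mem (inv_mem a.2) hA) a.2
  let Ψ : A × ↥((Dsub N u₀ : Set G) \ {1}) → ↥((N : Set G) \ (A : Set G)) :=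
    fun p => ⟨(p.1 : G) * (p.2 : G) * (p.1 : G)⁻¹, hΨmem p.1 p.2⟩
  have hΨinj : Function.Injective Ψ := by
    rintro ⟨a, k⟩ ⟨a', k'⟩ h
    have h0 : (a : G) * (k : G) * (a : G)⁻¹ = (a' : G) * (k' : G) * (a' : G)⁻¹ :=
      congrArg Subtype.val h
    have hkH : (k : G) ∈ Dsub N u₀ := k.2.1
    have hk'H : (k' : G) ∈ Dsub N u₀ := k'.2.1
    have hk1 : (k : G) ≠ 1 := fun h => k.2.2 (by simpa using h)
    have hcA : (a' : G)⁻¹ * (a : G) ∈ A := mul_mem (inv_mem a'.2) a.2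
    have hck : ((a' : G)⁻¹ * (a : G)) * (k : G) * ((a' : G)⁻¹ * (a : G))⁻¹ = (k' : G) := by
      have e1 : ((a' : G)⁻¹ * (a : G)) * (k : G) * ((a' : G)⁻¹ * (a : G))⁻¹ =
          (a' : G)⁻¹ * ((a : G) * (k : G) * (a : G)⁻¹) * (a' : G) := by group
      rw [e1, h0]
      group
    -- `k⁻¹ (c k c⁻¹)` lies in `H ⊓ A`
    have h1 : (k : G)⁻¹ * (k' : G) ∈ Dsub N u₀ := mul_mem (inv_mem hkH) hk'H
    have h2 : (k : G)⁻¹ * (k' : G) ∈ A := by
      rw [← hck]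
      have e2 : (k : G)⁻¹ * (((a' : G)⁻¹ * (a : G)) * (k : G) * ((a' : G)⁻¹ * (a : G))⁻¹) =
          ((k : G)⁻¹ * ((a' : G)⁻¹ * (a : G)) * (k : G)) * ((a' : G)⁻¹ * (a : G))⁻¹ := by group
      rw [e2]
      exact mul_mem (hD.conj_mem' (hHN _ hkH) hcA) (inv_mem hcA)
    have h3 : (k : G)⁻¹ * (k' : G) = 1 := by
      have h4 : (k : G)⁻¹ * (k' : G) ∈ Dsub N u₀ ⊓ A := Subgroup.mem_inf.mpr ⟨h1, h2⟩
      rw [hHA, Subgroup.mem_bot] at h4
      exact h4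
    have hkk' : (k : G) = (k' : G) := by
      have := inv_mul_eq_one.mp h3
      exact this
    -- `c` commutes with `k`, hence `c = 1`
    have hcomm : Commute (k : G) ((a' : G)⁻¹ * (a : G)) := by
      show (k : G) * ((a' : G)⁻¹ * (a : G)) = ((a' : G)⁻¹ * (a : G)) * (k : G)
      have e3 : (k : G) * ((a' : G)⁻¹ * (a : G)) =
          (((a' : G)⁻¹ * (a : G)) * (k : G) * ((a' : G)⁻¹ * (a : G))⁻¹) *
            ((a' : G)⁻¹ * (a : G)) := by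
        rw [hck, ← hkk']
      rw [e3]
      group
    have hc1 : (a' : G)⁻¹ * (a : G) = 1 := hD.frob (hk_notA _ hkH hk1) hcA hcomm
    have haa' : (a : G) = (a' : G) := by
      have := inv_mul_eq_one.mp hc1
      exact this.symm
    exact Prod.ext (Subtype.ext haa') (Subtype.ext hkk')
  -- cardinalities
  have hq := hD.four_le
  have hcardX : Nat.card ↥((Dsub N u₀ : Set G) \ {1}) = q - 2 := by
    rw [Nat.card_coe_set_eq, Set.ncard_diff_singleton_of_mem (one_mem (Dsub N u₀)),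
      ← Nat.card_coe_set_eq]
    have : Nat.card ↥(Dsub N u₀ : Set G) = Nat.card (Dsub N u₀) := rfl
    rw [this, hHcard]
    omega
  have hcardS : Nat.card ↥((N : Set G) \ (A : Set G)) = Nat.card A * (q - 2) := by
    rw [Nat.card_coe_set_eq, Set.ncard_diff (by exact_mod_cast hD.le),
      ← Nat.card_coe_set_eq, ← Nat.card_coe_set_eq]
    have h1 : Nat.card ↥(N : Set G) = Nat.card N := rfl
    have h2 : Nat.card ↥(A : Set G) = Nat.card A := rfl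
    rw [h1, h2, hD.card_N]
    have h3 : q - 1 = (q - 2) + 1 := by omega
    rw [h3, Nat.mul_add, Nat.mul_one, Nat.add_sub_cancel]
  have hΨbij : Function.Bijective Ψ := by
    apply hΨinj.bijective_of_nat_card_le
    rw [Nat.card_prod, hcardX, hcardS]
  -- conclusion
  intro h hhN hhA
  obtain ⟨⟨a, k⟩, hak⟩ := hΨbij.2 ⟨h, hhN, hhA⟩
  have hak' : (a : G) * (k : G) * (a : G)⁻¹ = h := congrArg Subtype.val hak
  have hkH : (k : G) ∈ Dsub N u₀ := k.2.1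
  refine ⟨(a : G) * u₀ * (a : G)⁻¹, ?_, ?_, ?_⟩
  · have := (MulAut.conj (a : G)).orderOf_eq u₀
    rw [MulAut.conj_apply] at this
    rw [this, hu₀]
  · intro hN
    apply hu₀N
    have e : u₀ = (a : G)⁻¹ * ((a : G) * u₀ * (a : G)⁻¹) * (a : G) := by group
    rw [e]
    exact mul_mem (mul_mem (inv_mem (hD.le a.2)) hN) (hD.le a.2)
  · rw [mem_Dsub]
    refine ⟨hhN, ?_⟩
    rw [← hak']
    have e : ((a : G) * u₀ * (a : G)⁻¹)⁻¹ * ((a : G) * (k : G) * (a : G)⁻¹) *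
        ((a : G) * u₀ * (a : G)⁻¹) = (a : G) * (u₀⁻¹ * (k : G) * u₀) * (a : G)⁻¹ := by group
    rw [e]
    exact mul_mem (mul_mem (hD.le a.2) ((mem_Dsub N u₀ _).mp hkH).2) (inv_mem (hD.le a.2))

end Cfsg.Agent.Lib.Helper69.CTCOVER
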