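import Mathlib
import Cfsg.Agent.Lib.Helper4.FCDefs

/-! Project FC (S4146, helper4): piece STEP1. -/

set_option autoImplicit false

namespace Cfsg.Agent.Lib.Helper4.FC

universe u

theorem step1_helper69_not_dvd_both {n m s : ℕ} (hs : s.Prime) (hc : n.Coprime m) (h1 : s ∣ n)
    (h2 : s ∣ m) : False := by
  have h3 := Nat.dvd_gcd h1 h2
  rw [Nat.Coprime.gcd_eq_one hc] at h3
  exact hs.one_lt.ne' (Nat.dvd_one.mp h3)

theorem fc_step1 : PrimStmt.{u} → E3Stmt.{u} → APStmt.{u} → ClaimXStmt.{u} → BCbStmt.{u} →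
    BCcStmt.{u} → Step1Stmt.{u} := by
  intro hPrim hE3 hAP hClaimX hBCb hBCc G _ _ n m hF hmn hH s a hs hsa hcsa hsn
  have hF' := hF
  obtain ⟨h1n, h1m, hcop, hcs, ⟨xn, hxn⟩, ⟨xm, hxm⟩, hnm⟩ := hF'
  obtain ⟨t, b, ht, htb, hcsb, -⟩ := hPrim G m n xm (four_symm hF) hxm
  by_cases htn : t ∣ n
  · obtain ⟨A, hAn, hAp, hAab, hAcs, hAmem⟩ := hAP G n m t hF hmn ht htn
    have hbA : b ∈ A := hAmem b htb (Or.inr hcsb)
    have hcent : ∀ v ∈ A, a * v = v * a := by
      intro v hv
      rcases hAcs v hv with h | h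
      · have h2 : Cen v = ⊤ := Subgroup.index_eq_one.mp h
        have h3 : a ∈ Cen v := by rw [h2]; exact Subgroup.mem_top a
        have h4 := Subgroup.mem_centralizer_iff.mp h3 v (Set.mem_singleton v)
        exact h4.symm
      · by_contra hne
        exact step1_helper69_not_dvd_both hs hcop hsn (hBCc G n m s a v hF hs h hsa hcsa hne)
    obtain ⟨e, he⟩ := hBCb G n m t s A a b hF ht htn hs hAn hAp hbA hcsb hsa hcsa hcent
    have he0 : e ≠ 0 := by
      rintro rfl
      rw [pow_zero] at he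
      omega
    have hsm : s ∣ m := by rw [he]; exact dvd_pow_self s he0
    exact step1_helper69_not_dvd_both hs hcop hsn hsm
  · obtain ⟨k, hk⟩ := htb
    have hco : (orderOf b).Coprime n := by
      rw [hk]
      exact Nat.Coprime.pow_left k ((Nat.Prime.coprime_iff_not_dvd ht).mpr htn)
    have hab : a * b = b * a := hE3 G n m a b hF hmn hcsa (Or.inr hcsb) hco
    have hst : s ≠ t := by
      rintro rfl
      exact htn hsn
    rcases hClaimX G n m s t a b hF hs ht hst hsa hcsa ⟨k, hk⟩ hcsb hab with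
      ⟨hj, -⟩ | ⟨⟨j, hj⟩, -⟩
    · exact hH s hs hj a hsa hcsa
    · have hj0 : j ≠ 0 := by
        rintro rfl
        rw [pow_zero] at hj
        omega
      exact htn (by rw [hj]; exact dvd_pow_self t hj0)

end Cfsg.Agent.Lib.Helper4.FC
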