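import Mathlib

set_option autoImplicit false

namespace Cfsg.Agent.Lib.Helper69

section FiberCount

open Finset

/-- if every fibre of `f` on `s` has at least `n` elements then `n * |f(s)| ≤ |s|` -/
theorem mul_card_image_le {X T : Type*} [DecidableEq X] [DecidableEq T] (s : Finset X)
    (f : X → T) (n : ℕ) (h : ∀ x ∈ s, n ≤ (s.filter (fun y => f y = f x)).card) :
    n * (s.image f).card ≤ s.card := by
  rw [Finset.card_eq_sum_card_image f s, mul_comm]
  have := Finset.card_nsmul_le_sum (s.image f) (fun t => (s.filter (fun y => f y = t)).card) n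
    (by
      intro t ht
      obtain ⟨x, hx, rfl⟩ := Finset.mem_image.mp ht
      exact h x hx)
  simpa using this

/-- the fibre counting bound -/
theorem fiber_count {X T : Type*} [Fintype X] [Fintype T] [DecidableEq X] [DecidableEq T]
    (φ : X → T) (hφ : Function.Surjective φ) (A F : Finset X) (hFA : F ⊆ A)
    (h3 : ∀ x ∈ A \ F, ∃ x' ∈ A \ F, ∃ x'' ∈ A \ F, x' ≠ x ∧ x'' ≠ x ∧ x'' ≠ x' ∧
      φ x' = φ x ∧ φ x'' = φ x)
    (h2 : ∀ x, x ∉ A → (∃ a ∈ A, φ a = φ x) ∨ (∃ x', x' ∉ A ∧ x' ≠ x ∧ φ x' = φ x)) :
    6 * Fintype.card T ≤ 6 * F.card + 2 * (A \ F).card + 3 * (Finset.univ \ A).card := by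
  classical
  -- the three parts of the image
  let S₃ : Finset X := (Finset.univ \ A).filter (fun x => φ x ∉ A.image φ)
  have hcover : (Finset.univ : Finset T) ⊆ F.image φ ∪ (A \ F).image φ ∪ S₃.image φ := by
    intro t _
    obtain ⟨x, rfl⟩ := hφ t
    by_cases hxA : x ∈ A
    · by_cases hxF : x ∈ F
      · exact Finset.mem_union_left _ (Finset.mem_union_left _ (Finset.mem_image_of_mem φ hxF))
      · exact Finset.mem_union_left _ (Finset.mem_union_right _
          (Finset.mem_image_of_mem φ (Finset.mem_sdiff.mpr ⟨hxA, hxF⟩)))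
    · by_cases him : φ x ∈ A.image φ
      · obtain ⟨a, ha, hax⟩ := Finset.mem_image.mp him
        rw [← hax]
        by_cases haF : a ∈ F
        · exact Finset.mem_union_left _ (Finset.mem_union_left _ (Finset.mem_image_of_mem φ haF))
        · exact Finset.mem_union_left _ (Finset.mem_union_right _
            (Finset.mem_image_of_mem φ (Finset.mem_sdiff.mpr ⟨ha, haF⟩)))
      · exact Finset.mem_union_right _ (Finset.mem_image_of_mem φ
          (Finset.mem_filter.mpr ⟨Finset.mem_sdiff.mpr ⟨Finset.mem_univ _, hxA⟩, him⟩))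
  have hc1 : (F.image φ).card ≤ F.card := Finset.card_image_le
  have hc2 : 3 * ((A \ F).image φ).card ≤ (A \ F).card := by
    apply mul_card_image_le
    intro x hx
    obtain ⟨x', hx', x'', hx'', h1, h2', h3', e1, e2⟩ := h3 x hx
    have hsub : ({x, x', x''} : Finset X) ⊆ (A \ F).filter (fun y => φ y = φ x) := by
      intro y hy
      simp only [Finset.mem_insert, Finset.mem_singleton] at hy
      rcases hy with rfl | rfl | rfl
      · exact Finset.mem_filter.mpr ⟨hx, rfl⟩
      · exact Finset.mem_filter.mpr ⟨hx', e1⟩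
      · exact Finset.mem_filter.mpr ⟨hx'', e2⟩
    have hcard : ({x, x', x''} : Finset X).card = 3 := by
      rw [Finset.card_insert_of_notMem, Finset.card_insert_of_notMem, Finset.card_singleton]
      · simpa using h3'.symm
      · simp only [Finset.mem_insert, Finset.mem_singleton]
        push Not
        exact ⟨h1.symm, h2'.symm⟩
    calc 3 = ({x, x', x''} : Finset X).card := hcard.symm
      _ ≤ _ := Finset.card_le_card hsub
  have hc3 : 2 * (S₃.image φ).card ≤ S₃.card := by
    apply mul_card_image_le
    intro x hx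
    obtain ⟨hx1, hx2⟩ := Finset.mem_filter.mp hx
    have hxA : x ∉ A := (Finset.mem_sdiff.mp hx1).2
    rcases h2 x hxA with ⟨a, ha, hax⟩ | ⟨x', hx'A, hx'x, hx'φ⟩
    · exact absurd (Finset.mem_image.mpr ⟨a, ha, hax⟩) hx2
    · have hx'S : x' ∈ S₃ := by
        refine Finset.mem_filter.mpr ⟨Finset.mem_sdiff.mpr ⟨Finset.mem_univ _, hx'A⟩, ?_⟩
        rw [hx'φ]
        exact hx2
      have hsub : ({x, x'} : Finset X) ⊆ S₃.filter (fun y => φ y = φ x) := by
        intro y hy
        simp only [Finset.mem_insert, Finset.mem_singleton] at hy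
        rcases hy with rfl | rfl
        · exact Finset.mem_filter.mpr ⟨hx, rfl⟩
        · exact Finset.mem_filter.mpr ⟨hx'S, hx'φ⟩
      have hcard : ({x, x'} : Finset X).card = 2 := by
        rw [Finset.card_insert_of_notMem, Finset.card_singleton]
        simpa using hx'x.symm
      calc 2 = ({x, x'} : Finset X).card := hcard.symm
        _ ≤ _ := Finset.card_le_card hsub
  have hc4 : S₃.card ≤ (Finset.univ \ A).card := Finset.card_filter_le _ _
  have hT : Fintype.card T ≤ (F.image φ).card + ((A \ F).image φ).card + (S₃.image φ).card := by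
    calc Fintype.card T = (Finset.univ : Finset T).card := rfl
      _ ≤ (F.image φ ∪ (A \ F).image φ ∪ S₃.image φ).card := Finset.card_le_card hcover
      _ ≤ (F.image φ ∪ (A \ F).image φ).card + (S₃.image φ).card := Finset.card_union_le _ _
      _ ≤ (F.image φ).card + ((A \ F).image φ).card + (S₃.image φ).card :=
          Nat.add_le_add_right (Finset.card_union_le _ _) _
  omega

end FiberCount

end Cfsg.Agent.Lib.Helper69
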