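import Mathlib
import Cfsg.Agent.Lib.Helper69.MetaCyc

set_option autoImplicit false

namespace Cfsg.Agent.Lib.Helper69

open scoped commutatorElement

theorem index_centralizer_le_one_iff {G : Type*} [Group G] [Finite G] (g : G) :
    (Subgroup.centralizer ({g} : Set G)).index ≤ 1 ↔ g ∈ Subgroup.center G := by
  constructor
  · intro h
    have h1 : (Subgroup.centralizer ({g} : Set G)).index = 1 :=
      le_antisymm h (Nat.one_le_iff_ne_zero.mpr Subgroup.index_ne_zero_of_finite)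
    rw [Subgroup.index_eq_one, Subgroup.centralizer_eq_top_iff_subset] at h1
    exact h1 rfl
  · intro h
    have h1 : Subgroup.centralizer ({g} : Set G) = ⊤ :=
      Subgroup.centralizer_eq_top_iff_subset.mpr (Set.singleton_subset_iff.mpr h)
    rw [h1, Subgroup.index_top]

namespace MC

section sub

variable {p : ℕ} [Fact p.Prime] {G : Type*} [Group G] [Finite G] (M : MC p G)

theorem mem_sup_iff (H : Subgroup G) (j : ℕ) :
    M.b ^ j ∈ H ⊔ Subgroup.zpowers M.a ↔ ∃ e : ℕ, M.a ^ e * M.b ^ j ∈ H := by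
  have hN := M.normal_zpowers_a
  constructor
  · intro h
    obtain ⟨y, hy, z, hz, hyz⟩ := Subgroup.mem_sup_of_normal_right.mp h
    have h1 : M.b ^ j * z⁻¹ * (M.b ^ j)⁻¹ ∈ Subgroup.zpowers M.a :=
      hN.conj_mem _ (Subgroup.inv_mem _ hz) _
    obtain ⟨w, hw⟩ := Subgroup.mem_zpowers_iff.mp h1
    obtain ⟨e, he⟩ := zpow_eq_pow_of_finite M.a w
    refine ⟨e, ?_⟩
    have h2 : M.a ^ e * M.b ^ j = y := by
      rw [← he, hw, ← hyz]
      group
    rw [h2]
    exact hy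
  · rintro ⟨e, he⟩
    have h2 : M.b ^ j = (M.a ^ e)⁻¹ * (M.a ^ e * M.b ^ j) := by group
    rw [h2]
    exact Subgroup.mul_mem _
      (Subgroup.inv_mem _ ((le_sup_right : Subgroup.zpowers M.a ≤ H ⊔ Subgroup.zpowers M.a)
        (Subgroup.pow_mem _ (Subgroup.mem_zpowers _) _)))
      ((le_sup_left : H ≤ H ⊔ Subgroup.zpowers M.a) he)

/-- the two invariants of a subgroup -/
theorem exists_inv (hG : IsPGroup p G) (H : Subgroup G) :
    ∃ u w : ℕ, (∀ k : ℕ, M.a ^ k ∈ H ↔ p ^ u ∣ k) ∧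
      (∀ j : ℕ, (∃ e : ℕ, M.a ^ e * M.b ^ j ∈ H) ↔ p ^ w ∣ j) := by
  have hpp := (Fact.out : p.Prime)
  obtain ⟨ma, hma⟩ := hG M.a
  obtain ⟨mb, hmb⟩ := hG M.b
  obtain ⟨u, -, hu⟩ := exists_pow_mem_iff hpp H M.a hma
  obtain ⟨w, -, hw⟩ := exists_pow_mem_iff hpp (H ⊔ Subgroup.zpowers M.a) M.b hmb
  exact ⟨u, w, hu, fun j => by rw [← M.mem_sup_iff, hw]⟩

/-- the order of a subgroup in terms of its two invariants -/
theorem card_of_inv (hG : IsPGroup p G) (H : Subgroup G) (u w : ℕ)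
    (hu : ∀ k : ℕ, M.a ^ k ∈ H ↔ p ^ u ∣ k)
    (hw : ∀ j : ℕ, (∃ e : ℕ, M.a ^ e * M.b ^ j ∈ H) ↔ p ^ w ∣ j) :
    Nat.card ↥H * (p ^ u * p ^ w) = Nat.card G := by
  have hpp := (Fact.out : p.Prime)
  have := M.normal_zpowers_a
  obtain ⟨ma, hma⟩ := hG M.a
  have h1 := card_inf_zpowers_mul hpp H M.a hma hu
  have h2 : (H ⊔ Subgroup.zpowers M.a).index = p ^ w := by
    apply index_eq_of_pow_mem_iff _ M.b (p ^ w) (pow_pos hpp.pos w)
    · intro g
      obtain ⟨j, i, rfl⟩ := M.gen' g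
      exact ⟨j, M.a ^ i, (le_sup_right : Subgroup.zpowers M.a ≤ H ⊔ Subgroup.zpowers M.a)
        (Subgroup.pow_mem _ (Subgroup.mem_zpowers _) _), rfl⟩
    · intro j
      rw [M.mem_sup_iff, hw]
  have h3 := Subgroup.card_mul_index (H ⊔ Subgroup.zpowers M.a)
  have h4 := card_sup_mul_card_inf H (Subgroup.zpowers M.a)
  rw [Nat.card_zpowers] at h4
  rw [h2] at h3
  have ho : 0 < orderOf M.a := orderOf_pos _
  apply Nat.eq_of_mul_eq_mul_right ho
  calc Nat.card ↥H * (p ^ u * p ^ w) * orderOf M.a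
      = (Nat.card ↥H * orderOf M.a) * (p ^ u * p ^ w) := by ring
    _ = (Nat.card ↥(H ⊔ Subgroup.zpowers M.a) * Nat.card ↥(H ⊓ Subgroup.zpowers M.a)) *
          (p ^ u * p ^ w) := by rw [h4]
    _ = (Nat.card ↥(H ⊔ Subgroup.zpowers M.a) * p ^ w) *
          (Nat.card ↥(H ⊓ Subgroup.zpowers M.a) * p ^ u) := by ring
    _ = Nat.card G * orderOf M.a := by rw [h3, h1]

/-- the class-size criterion -/
theorem index_centralizer_le_iff (hp2 : p ≠ 2) (hG : IsPGroup p G) {n : ℕ}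
    (hn : Nat.card ↥(commutator G) = p ^ n) (i j t : ℕ) (ht : t ≤ n) :
    (p ^ t ∣ i ∧ p ^ t ∣ j) ↔
      (Subgroup.centralizer ({M.a ^ i * M.b ^ j} : Set G)).index ≤ p ^ (n - t) := by
  have hpp := (Fact.out : p.Prime)
  constructor
  · rintro ⟨hi, hj⟩
    have hcard : Nat.card ↥(Subgroup.zpowers (M.c ^ p ^ t)) = p ^ (n - t) := by
      rw [Nat.card_zpowers, orderOf_pow' _ (pow_pos hpp.pos t).ne', M.orderOf_c hn,
        Nat.gcd_eq_right (pow_dvd_pow p ht), Nat.pow_div ht hpp.pos]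
    rw [← hcard]
    apply index_centralizer_le_card
    intro h
    obtain ⟨k, l, rfl⟩ := M.gen h
    rw [comm_formula]
    have hgj : p ^ t ∣ gs M.r j := (pow_dvd_gs_iff hpp hp2 M.hr1 M.hr j t).mpr hj
    obtain ⟨i', rfl⟩ := hi
    obtain ⟨g', hg'⟩ := hgj
    have h1 : ((p ^ t * i' : ℕ) : ℤ) * (gs M.r l : ℤ) - (k : ℤ) * (gs M.r j : ℤ) =
        ((p ^ t : ℕ) : ℤ) * ((i' : ℤ) * (gs M.r l : ℤ) - (k : ℤ) * (g' : ℤ)) := by
      rw [hg']
      push_cast
      ring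
    rw [h1, zpow_mul, zpow_natCast]
    exact Subgroup.zpow_mem_zpowers _ _
  · intro hidx
    constructor
    · obtain ⟨mb, hmb⟩ := hG M.b
      obtain ⟨u, -, hu⟩ := exists_pow_mem_iff hpp
        (Subgroup.centralizer ({M.a ^ i * M.b ^ j} : Set G)) M.b hmb
      have h1 := le_index_of_pow_mem_iff _ M.b (p ^ u) hu
      have h2 : u ≤ n - t := (Nat.pow_le_pow_iff_right hpp.one_lt).mp (h1.trans hidx)
      have h3 : M.b ^ p ^ (n - t) ∈ Subgroup.centralizer ({M.a ^ i * M.b ^ j} : Set G) :=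
        (hu _).mpr (pow_dvd_pow p h2)
      rw [mem_centralizer_singleton_iff_comm] at h3
      have h4 : M.b ^ p ^ (n - t) = M.a ^ 0 * M.b ^ p ^ (n - t) := by simp
      rw [h4, M.comm_eq_one_iff hn] at h3
      have h5 : (p : ℤ) ^ n ∣ (i : ℤ) * (gs M.r (p ^ (n - t)) : ℤ) := by simpa using h3
      rw [int_pow_dvd_mul_gs_iff hpp hp2 M.hr1 M.hr] at h5
      have h6 : p ^ n ∣ i * p ^ (n - t) := by exact_mod_cast h5
      have h7 := pow_dvd_of_mul_pow hpp (Nat.sub_le n t) h6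
      rwa [Nat.sub_sub_self ht] at h7
    · obtain ⟨ma, hma⟩ := hG M.a
      obtain ⟨u, -, hu⟩ := exists_pow_mem_iff hpp
        (Subgroup.centralizer ({M.a ^ i * M.b ^ j} : Set G)) M.a hma
      have h1 := le_index_of_pow_mem_iff _ M.a (p ^ u) hu
      have h2 : u ≤ n - t := (Nat.pow_le_pow_iff_right hpp.one_lt).mp (h1.trans hidx)
      have h3 : M.a ^ p ^ (n - t) ∈ Subgroup.centralizer ({M.a ^ i * M.b ^ j} : Set G) :=
        (hu _).mpr (pow_dvd_pow p h2)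
      rw [mem_centralizer_singleton_iff_comm] at h3
      have h4 : M.a ^ p ^ (n - t) = M.a ^ p ^ (n - t) * M.b ^ 0 := by simp
      rw [h4, M.comm_eq_one_iff hn] at h3
      have h5 : (p : ℤ) ^ n ∣ ((p ^ (n - t) : ℕ) : ℤ) * (gs M.r j : ℤ) := by
        have h5' := (dvd_neg).mpr h3
        simpa [gs_zero] using h5'
      rw [int_pow_dvd_mul_gs_iff hpp hp2 M.hr1 M.hr] at h5
      have h6 : p ^ n ∣ j * p ^ (n - t) := by
        have : p ^ n ∣ p ^ (n - t) * j := by exact_mod_cast h5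
        rwa [mul_comm] at this
      have h7 := pow_dvd_of_mul_pow hpp (Nat.sub_le n t) h6
      rwa [Nat.sub_sub_self ht] at h7

theorem mem_center_iff (hp2 : p ≠ 2) (hG : IsPGroup p G) {n : ℕ}
    (hn : Nat.card ↥(commutator G) = p ^ n) (i j : ℕ) :
    M.a ^ i * M.b ^ j ∈ Subgroup.center G ↔ p ^ n ∣ i ∧ p ^ n ∣ j := by
  rw [M.index_centralizer_le_iff hp2 hG hn i j n le_rfl, Nat.sub_self, pow_zero,
    index_centralizer_le_one_iff]

include M in
/-- `|G : Z(G)| = |G'|^2` in invariant form -/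
theorem card_center_mul (hp2 : p ≠ 2) (hG : IsPGroup p G) {n : ℕ}
    (hn : Nat.card ↥(commutator G) = p ^ n) :
    Nat.card ↥(Subgroup.center G) * (p ^ n * p ^ n) = Nat.card G := by
  apply M.card_of_inv hG (Subgroup.center G) n n
  · intro k
    have h := M.mem_center_iff hp2 hG hn k 0
    rw [pow_zero, mul_one] at h
    rw [h]
    exact ⟨fun h => h.1, fun h => ⟨h, dvd_zero _⟩⟩
  · intro j
    constructor
    · rintro ⟨e, he⟩
      exact ((M.mem_center_iff hp2 hG hn e j).mp he).2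
    · intro hj
      exact ⟨0, (M.mem_center_iff hp2 hG hn 0 j).mpr ⟨dvd_zero _, hj⟩⟩

/-- elements of the subgroup generated by the `p^s`-th powers -/
theorem agemo_le (hp2 : p ≠ 2) (s : ℕ) (g : G)
    (hg : g ∈ Subgroup.closure {x : G | ∃ y : G, y ^ p ^ s = x}) :
    ∃ i j : ℕ, g = M.a ^ i * M.b ^ j ∧ p ^ s ∣ i ∧ p ^ s ∣ j := by
  have hpp := (Fact.out : p.Prime)
  have hpow : ∀ (x : G) (m : ℕ), (∃ i j : ℕ, x = M.a ^ i * M.b ^ j ∧ p ^ s ∣ i ∧ p ^ s ∣ j) →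
      ∃ i j : ℕ, x ^ m = M.a ^ i * M.b ^ j ∧ p ^ s ∣ i ∧ p ^ s ∣ j := by
    rintro x m ⟨i, j, rfl, hi, hj⟩
    exact ⟨_, _, M.pow_formula i j m, hi.mul_right _, hj.mul_right _⟩
  induction hg using Subgroup.closure_induction with
  | mem x hx =>
    obtain ⟨y, rfl⟩ := hx
    obtain ⟨i, j, rfl⟩ := M.gen y
    refine ⟨_, _, M.pow_formula i j (p ^ s), ?_, Dvd.intro_left _ rfl⟩
    exact Dvd.dvd.mul_left ((pow_dvd_gs_iff hpp hp2 (Nat.one_le_pow _ _ M.hr1)
      (dvd_pow_sub_one M.hr1 M.hr j) (p ^ s) s).mpr dvd_rfl) i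
  | one => exact ⟨0, 0, by simp, dvd_zero _, dvd_zero _⟩
  | mul x y _ _ hx hy =>
    obtain ⟨i, j, rfl, hi, hj⟩ := hx
    obtain ⟨k, l, rfl, hk, hl⟩ := hy
    exact ⟨_, _, M.mul_formula i j k l, dvd_add hi (hk.mul_right _), dvd_add hj hl⟩
  | inv x _ hx =>
    obtain ⟨k, hk⟩ := inv_eq_pow_of_finite x
    rw [hk]
    exact hpow x k hx

theorem mem_agemo_of (s i j : ℕ) (hi : p ^ s ∣ i) (hj : p ^ s ∣ j) :
    M.a ^ i * M.b ^ j ∈ Subgroup.closure {x : G | ∃ y : G, y ^ p ^ s = x} := by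
  obtain ⟨i', rfl⟩ := hi
  obtain ⟨j', rfl⟩ := hj
  apply Subgroup.mul_mem
  · apply Subgroup.subset_closure
    exact ⟨M.a ^ i', by rw [← pow_mul, mul_comm]⟩
  · apply Subgroup.subset_closure
    exact ⟨M.b ^ j', by rw [← pow_mul, mul_comm]⟩

include M in
theorem mem_agemo_iff (hp2 : p ≠ 2) (hG : IsPGroup p G) {n : ℕ}
    (hn : Nat.card ↥(commutator G) = p ^ n) (s : ℕ) (hs : s ≤ n) (g : G) :
    g ∈ Subgroup.closure {x : G | ∃ y : G, y ^ p ^ s = x} ↔
      (Subgroup.centralizer ({g} : Set G)).index ≤ p ^ (n - s) := by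
  constructor
  · intro hg
    obtain ⟨i, j, rfl, hi, hj⟩ := M.agemo_le hp2 s g hg
    exact (M.index_centralizer_le_iff hp2 hG hn i j s hs).mp ⟨hi, hj⟩
  · intro h
    obtain ⟨i, j, rfl⟩ := M.gen g
    obtain ⟨hi, hj⟩ := (M.index_centralizer_le_iff hp2 hG hn i j s hs).mpr h
    exact M.mem_agemo_of s i j hi hj

include M in
theorem card_agemo_mul (hp2 : p ≠ 2) (hG : IsPGroup p G) {n : ℕ}
    (hn : Nat.card ↥(commutator G) = p ^ n) (s : ℕ) (hs : s ≤ n) :
    Nat.card ↥(Subgroup.closure {x : G | ∃ y : G, y ^ p ^ s = x}) * (p ^ s * p ^ s) =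
      Nat.card G := by
  apply M.card_of_inv hG _ s s
  · intro k
    constructor
    · intro h
      have h1 : M.a ^ k * M.b ^ 0 ∈ Subgroup.closure {x : G | ∃ y : G, y ^ p ^ s = x} := by
        rwa [pow_zero, mul_one]
      rw [M.mem_agemo_iff hp2 hG hn s hs] at h1
      exact ((M.index_centralizer_le_iff hp2 hG hn k 0 s hs).mpr h1).1
    · intro h
      have := M.mem_agemo_of s k 0 h (dvd_zero _)
      rwa [pow_zero, mul_one] at this
  · intro j
    constructor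
    · rintro ⟨e, he⟩
      rw [M.mem_agemo_iff hp2 hG hn s hs] at he
      exact ((M.index_centralizer_le_iff hp2 hG hn e j s hs).mpr he).2
    · intro hj
      exact ⟨0, M.mem_agemo_of s 0 j (dvd_zero _) hj⟩

end sub

end MC

end Cfsg.Agent.Lib.Helper69
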