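import Mathlib
import Cfsg.Agent.Lib.Helper69.MetaSub

set_option autoImplicit false

namespace Cfsg.Agent.Lib.Helper69

open scoped commutatorElement

namespace MC

section ab

variable {p : ℕ} [Fact p.Prime] {G : Type*} [Group G] [Finite G] (M : MC p G)

/-- generators of a subgroup with invariants `(u, w)` -/
theorem exists_gens (H : Subgroup G) (u w : ℕ)
    (hu : ∀ k : ℕ, M.a ^ k ∈ H ↔ p ^ u ∣ k)
    (hw : ∀ j : ℕ, (∃ e : ℕ, M.a ^ e * M.b ^ j ∈ H) ↔ p ^ w ∣ j) :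
    ∃ e : ℕ, M.a ^ e * M.b ^ p ^ w ∈ H ∧
      ∀ h ∈ H, ∃ z m : ℕ, h = (M.a ^ p ^ u) ^ z * (M.a ^ e * M.b ^ p ^ w) ^ m := by
  obtain ⟨e, he⟩ := (hw (p ^ w)).mpr dvd_rfl
  refine ⟨e, he, ?_⟩
  intro h hh
  obtain ⟨i, j, rfl⟩ := M.gen h
  obtain ⟨m, rfl⟩ := (hw j).mp ⟨i, hh⟩
  have hy := M.pow_formula e (p ^ w) m
  have ht : M.a ^ i * M.b ^ (p ^ w * m) * ((M.a ^ e * M.b ^ p ^ w) ^ m)⁻¹ ∈ H :=
    H.mul_mem hh (H.inv_mem (H.pow_mem he m))
  have ht2 : M.a ^ i * M.b ^ (p ^ w * m) * ((M.a ^ e * M.b ^ p ^ w) ^ m)⁻¹ =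
      M.a ^ ((i : ℤ) - ((e * gs (M.r ^ p ^ w) m : ℕ) : ℤ)) := by
    rw [hy, zpow_sub, zpow_natCast, zpow_natCast]
    group
  obtain ⟨i', hi'⟩ := zpow_eq_pow_of_finite M.a ((i : ℤ) - ((e * gs (M.r ^ p ^ w) m : ℕ) : ℤ))
  rw [ht2, hi'] at ht
  obtain ⟨z, rfl⟩ := (hu i').mp ht
  refine ⟨z, m, ?_⟩
  rw [← pow_mul, ← hi', ← ht2]
  group

/-- a subgroup with invariants `(u, w)` is abelian iff `n ≤ u + w` -/
theorem abelian_iff_inv (hp2 : p ≠ 2) {n : ℕ}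
    (hn : Nat.card ↥(commutator G) = p ^ n) (H : Subgroup G) (u w : ℕ)
    (hu : ∀ k : ℕ, M.a ^ k ∈ H ↔ p ^ u ∣ k)
    (hw : ∀ j : ℕ, (∃ e : ℕ, M.a ^ e * M.b ^ j ∈ H) ↔ p ^ w ∣ j) :
    IsMulCommutative ↥H ↔ n ≤ u + w := by
  have hpp := (Fact.out : p.Prime)
  obtain ⟨e, he, hgen⟩ := M.exists_gens H u w hu hw
  have hx : M.a ^ p ^ u ∈ H := (hu _).mpr dvd_rfl
  have hcomm : ⁅M.a ^ p ^ u * M.b ^ 0, M.a ^ e * M.b ^ p ^ w⁆ = 1 ↔ n ≤ u + w := by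
    rw [M.comm_eq_one_iff hn, gs_zero]
    have h1 : (e : ℤ) * ((0 : ℕ) : ℤ) - ((p ^ u : ℕ) : ℤ) * (gs M.r (p ^ w) : ℤ) =
        -(((p ^ u : ℕ) : ℤ) * (gs M.r (p ^ w) : ℤ)) := by
      push_cast
      ring
    rw [h1, dvd_neg, int_pow_dvd_mul_gs_iff hpp hp2 M.hr1 M.hr]
    have h2 : ((p ^ u : ℕ) : ℤ) * ((p ^ w : ℕ) : ℤ) = ((p ^ (u + w) : ℕ) : ℤ) := by
      rw [pow_add]
      push_cast
      ring
    rw [h2]
    have h3 : ((p : ℤ) ^ n ∣ ((p ^ (u + w) : ℕ) : ℤ)) ↔ p ^ n ∣ p ^ (u + w) := by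
      rw [← Int.natCast_dvd_natCast]
      push_cast
      rfl
    rw [h3, Nat.pow_dvd_pow_iff_le_right hpp.one_lt]
  rw [← hcomm, commutatorElement_eq_one_iff_commute, pow_zero, mul_one]
  constructor
  · intro hab
    have h1 := mul_comm' (⟨M.a ^ p ^ u, hx⟩ : ↥H) ⟨M.a ^ e * M.b ^ p ^ w, he⟩
    exact congrArg Subtype.val h1
  · intro hc
    refine ⟨⟨fun g h => ?_⟩⟩
    obtain ⟨z, m, hg⟩ := hgen g.1 g.2
    obtain ⟨z', m', hh⟩ := hgen h.1 h.2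
    apply Subtype.ext
    rw [Subgroup.coe_mul, Subgroup.coe_mul, hg, hh]
    have c1 : Commute ((M.a ^ p ^ u) ^ z * (M.a ^ e * M.b ^ p ^ w) ^ m)
        ((M.a ^ p ^ u) ^ z' * (M.a ^ e * M.b ^ p ^ w) ^ m') := by
      apply Commute.mul_left
      · apply Commute.mul_right
        · exact (Commute.refl _).pow_pow _ _
        · exact hc.pow_pow _ _
      · apply Commute.mul_right
        · exact hc.symm.pow_pow _ _
        · exact (Commute.refl _).pow_pow _ _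
    exact c1

include M in
/-- a subgroup is abelian iff its order is at most `|G : G'|` -/
theorem abelian_iff_card (hp2 : p ≠ 2) (hG : IsPGroup p G) (H : Subgroup G) :
    IsMulCommutative ↥H ↔ Nat.card ↥H ≤ (commutator G).index := by
  have hpp := (Fact.out : p.Prime)
  obtain ⟨n, hn⟩ := IsPGroup.iff_card.mp (hG.to_subgroup (commutator G))
  obtain ⟨u, w, hu, hw⟩ := M.exists_inv hG H
  rw [M.abelian_iff_inv hp2 hn H u w hu hw]
  have h1 := M.card_of_inv hG H u w hu hw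
  have h2 := Subgroup.card_mul_index (commutator G)
  rw [hn] at h2
  have hHpos : 0 < Nat.card ↥H := Nat.card_pos
  rw [← pow_add] at h1
  constructor
  · intro hle
    obtain ⟨d, hd⟩ := Nat.exists_eq_add_of_le hle
    have h3 : p ^ n * (Nat.card ↥H * p ^ d) = p ^ n * (commutator G).index := by
      rw [h2, ← h1, hd, pow_add]
      ring
    have h4 := Nat.eq_of_mul_eq_mul_left (pow_pos hpp.pos n) h3
    rw [← h4]
    exact Nat.le_mul_of_pos_right _ (pow_pos hpp.pos d)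
  · intro hle
    by_contra hlt
    push Not at hlt
    have h3 : p ^ (u + w) < p ^ n := Nat.pow_lt_pow_right hpp.one_lt hlt
    have h4 : Nat.card ↥H * p ^ (u + w) < Nat.card ↥H * p ^ n :=
      Nat.mul_lt_mul_of_pos_left h3 hHpos
    have h5 : Nat.card ↥H * p ^ n ≤ (commutator G).index * p ^ n :=
      Nat.mul_le_mul_right _ hle
    rw [h1, ← h2, mul_comm (p ^ n)] at h4
    omega

end ab

end MC

end Cfsg.Agent.Lib.Helper69
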