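import Mathlib
import Cfsg.Agent.Lib.Helper69.MetaAb

set_option autoImplicit false

namespace Cfsg.Agent.Lib.Helper69

open scoped commutatorElement

/-- subgroups of metacyclic groups are metacyclic -/
theorem isMetacyclic_subgroup {G : Type*} [Group G] (hmc : Cfsg.IsMetacyclic G)
    (R : Subgroup G) : Cfsg.IsMetacyclic ↥R := by
  obtain ⟨N, hN, hNc, hQc⟩ := hmc
  let f : ↥R →* G ⧸ N := (QuotientGroup.mk' N).comp R.subtype
  refine ⟨f.ker, MonoidHom.normal_ker f, ?_, ?_⟩
  · have hmem : ∀ x : ↥f.ker, ((x : ↥R) : G) ∈ N := by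
      intro x
      have h1 := x.2
      rw [MonoidHom.mem_ker] at h1
      exact (QuotientGroup.eq_one_iff _).mp h1
    let g : ↥f.ker →* ↥N :=
      { toFun := fun x => ⟨((x : ↥R) : G), hmem x⟩
        map_one' := rfl
        map_mul' := fun x y => rfl }
    apply isCyclic_of_injective g
    intro x y hxy
    have h2 : ((x : ↥R) : G) = ((y : ↥R) : G) := congrArg (fun t : ↥N => (t : G)) hxy
    apply Subtype.ext
    apply Subtype.ext
    exact h2
  · exact isCyclic_of_injective (QuotientGroup.kerLift f) (QuotientGroup.kerLift_injective f)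

theorem isMulCommutative_map_subtype_iff {G : Type*} [Group G] (R : Subgroup G)
    (K : Subgroup ↥R) : IsMulCommutative ↥(K.map R.subtype) ↔ IsMulCommutative ↥K := by
  constructor
  · intro h
    refine ⟨⟨fun x y => ?_⟩⟩
    have hx : ((x : ↥R) : G) ∈ K.map R.subtype := ⟨x.1, x.2, rfl⟩
    have hy : ((y : ↥R) : G) ∈ K.map R.subtype := ⟨y.1, y.2, rfl⟩
    have h1 := mul_comm' (⟨_, hx⟩ : ↥(K.map R.subtype)) ⟨_, hy⟩
    have h2 : ((x : ↥R) : G) * ((y : ↥R) : G) = ((y : ↥R) : G) * ((x : ↥R) : G) :=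
      congrArg Subtype.val h1
    apply Subtype.ext
    apply Subtype.ext
    exact h2
  · intro h
    refine ⟨⟨fun x y => ?_⟩⟩
    obtain ⟨x', hx', hxx⟩ := x.2
    obtain ⟨y', hy', hyy⟩ := y.2
    have h1 := mul_comm' (⟨x', hx'⟩ : ↥K) ⟨y', hy'⟩
    have h2 : x' * y' = y' * x' := congrArg Subtype.val h1
    apply Subtype.ext
    rw [Subgroup.coe_mul, Subgroup.coe_mul, ← hxx, ← hyy]
    exact congrArg Subtype.val h2

theorem isMulCommutative_top_iff {G : Type*} [Group G] :
    IsMulCommutative ↥(⊤ : Subgroup G) ↔ IsMulCommutative G := by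
  constructor
  · intro h
    exact ⟨⟨fun a b => by
      have := mul_comm' (⟨a, Subgroup.mem_top a⟩ : ↥(⊤ : Subgroup G)) ⟨b, Subgroup.mem_top b⟩
      exact congrArg Subtype.val this⟩⟩
  · intro h
    exact ⟨⟨fun a b => Subtype.ext (mul_comm' a.1 b.1)⟩⟩

section

variable {p : ℕ} [Fact p.Prime] {G : Type*} [Group G] [Finite G]

/-- `|R : R'| = |G : G'|` for non-abelian subgroups `R` of a metacyclic `p`-group, `p` odd -/
theorem index_commutator_subgroup (hp2 : p ≠ 2) (hG : IsPGroup p G)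
    (hmc : Cfsg.IsMetacyclic G) (R : Subgroup G) (hR : ¬ IsMulCommutative ↥R) :
    (commutator ↥R).index = (commutator G).index := by
  have hpp := (Fact.out : p.Prime)
  obtain ⟨M⟩ := exists_MC hG hmc
  have hGR : IsPGroup p ↥R := hG.to_subgroup R
  obtain ⟨MR⟩ := exists_MC hGR (isMetacyclic_subgroup hmc R)
  have keyG := fun K : Subgroup G => M.abelian_iff_card hp2 hG K
  have keyR := fun K : Subgroup ↥R => MR.abelian_iff_card hp2 hGR K
  obtain ⟨mG, hmG⟩ := hG.index (commutator G)
  obtain ⟨mR, hmR⟩ := hGR.index (commutator ↥R)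
  obtain ⟨k, hk⟩ := IsPGroup.iff_card.mp hGR
  have hRR : ¬ Nat.card ↥R ≤ (commutator ↥R).index := by
    intro h
    apply hR
    rw [← isMulCommutative_top_iff, keyR, Subgroup.card_top]
    exact h
  rw [hmR, hk] at hRR
  have hmRk : mR < k := by
    by_contra h
    exact hRR (Nat.pow_le_pow_right hpp.pos (by omega))
  rw [hmG, hmR]
  congr 1
  by_contra hne
  rcases Nat.lt_or_gt_of_ne hne with hlt | hgt
  · have hdvd : p ^ (mR + 1) ∣ Nat.card ↥R := by
      rw [hk]
      exact pow_dvd_pow p hmRk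
    obtain ⟨K, hK⟩ := Sylow.exists_subgroup_card_pow_prime p hdvd
    have hKna : ¬ IsMulCommutative ↥K := by
      rw [keyR, hK, hmR]
      intro h
      have := (Nat.pow_le_pow_iff_right hpp.one_lt).mp h
      omega
    apply hKna
    rw [← isMulCommutative_map_subtype_iff, keyG,
      Subgroup.card_map_of_injective R.subtype_injective, hK, hmG]
    exact Nat.pow_le_pow_right hpp.pos hlt
  · have hdvd : p ^ mR ∣ Nat.card ↥R := by
      rw [← hmR]
      exact Subgroup.index_dvd_card _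
    obtain ⟨K, hK⟩ := Sylow.exists_subgroup_card_pow_prime p hdvd
    have hKa : IsMulCommutative ↥K := by
      rw [keyR, hK, hmR]
    rw [← isMulCommutative_map_subtype_iff, keyG,
      Subgroup.card_map_of_injective R.subtype_injective, hK, hmG] at hKa
    have := (Nat.pow_le_pow_iff_right hpp.one_lt).mp hKa
    omega

/-- `|R| * |Z(R)| = |R : R'|^2` -/
theorem card_mul_card_center_eq (hp2 : p ≠ 2) (hG : IsPGroup p G)
    (hmc : Cfsg.IsMetacyclic G) (R : Subgroup G) :
    Nat.card ↥R * Nat.card ↥(Subgroup.center ↥R) = (commutator ↥R).index ^ 2 := by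
  have hpp := (Fact.out : p.Prime)
  have hGR : IsPGroup p ↥R := hG.to_subgroup R
  obtain ⟨MR⟩ := exists_MC hGR (isMetacyclic_subgroup hmc R)
  obtain ⟨n, hn⟩ := IsPGroup.iff_card.mp (hGR.to_subgroup (commutator ↥R))
  have h1 := MR.card_center_mul hp2 hGR hn
  have h2 := Subgroup.card_mul_index (commutator ↥R)
  rw [hn] at h2
  have hpos : 0 < p ^ n * p ^ n := Nat.mul_pos (pow_pos hpp.pos n) (pow_pos hpp.pos n)
  apply Nat.eq_of_mul_eq_mul_right hpos
  calc Nat.card ↥R * Nat.card ↥(Subgroup.center ↥R) * (p ^ n * p ^ n)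
      = Nat.card ↥R * (Nat.card ↥(Subgroup.center ↥R) * (p ^ n * p ^ n)) := by ring
    _ = Nat.card ↥R * Nat.card ↥R := by rw [h1]
    _ = (p ^ n * (commutator ↥R).index) * (p ^ n * (commutator ↥R).index) := by rw [h2]
    _ = (commutator ↥R).index ^ 2 * (p ^ n * p ^ n) := by ring

end

end Cfsg.Agent.Lib.Helper69
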