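import Mathlib
import Cfsg.Agent.Lib.Helper69.MetaSubgroup

set_option autoImplicit false

namespace Cfsg.Agent.Lib.Helper69

open scoped commutatorElement

theorem card_mul_card_le_sup_inf {G : Type*} [Group G] [Finite G] (H K : Subgroup G) :
    Nat.card ↥H * Nat.card ↥K ≤ Nat.card ↥(H ⊔ K) * Nat.card ↥(H ⊓ K) := by
  have key : ∀ X : Subgroup G, X ≤ H ⊔ K →
      Nat.card ↥X * X.relIndex (H ⊔ K) = Nat.card ↥(H ⊔ K) := by
    intro X hX
    have := Subgroup.relIndex_mul_relIndex (H := ⊥) (K := X) (L := H ⊔ K) bot_le hX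
    rwa [Subgroup.relIndex_bot_left, Subgroup.relIndex_bot_left] at this
  have h0 := key (H ⊓ K) (inf_le_left.trans le_sup_left)
  have h1 := key H le_sup_left
  have h2 := key K le_sup_right
  have h3 := Subgroup.relIndex_inf_le (H := H) (K := K) (L := H ⊔ K)
  have hLpos : 0 < Nat.card ↥(H ⊔ K) := Nat.card_pos
  have hr0 : 0 < (H ⊓ K).relIndex (H ⊔ K) := by
    rcases Nat.eq_zero_or_pos ((H ⊓ K).relIndex (H ⊔ K)) with h | h
    · rw [h, mul_zero] at h0
      omega
    · exact h
  apply Nat.le_of_mul_le_mul_right _ hr0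
  calc Nat.card ↥H * Nat.card ↥K * (H ⊓ K).relIndex (H ⊔ K)
      ≤ Nat.card ↥H * Nat.card ↥K * (H.relIndex (H ⊔ K) * K.relIndex (H ⊔ K)) :=
        Nat.mul_le_mul_left _ h3
    _ = (Nat.card ↥H * H.relIndex (H ⊔ K)) * (Nat.card ↥K * K.relIndex (H ⊔ K)) := by ring
    _ = Nat.card ↥(H ⊔ K) * (Nat.card ↥(H ⊓ K) * (H ⊓ K).relIndex (H ⊔ K)) := by
        rw [h1, h2, h0]
    _ = Nat.card ↥(H ⊔ K) * Nat.card ↥(H ⊓ K) * (H ⊓ K).relIndex (H ⊔ K) := by ring

theorem card_lt_card_of_lt {G : Type*} [Group G] [Finite G] {H K : Subgroup G} (h : H < K) :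
    Nat.card ↥H < Nat.card ↥K := by
  by_contra hge
  push Not at hge
  exact h.ne (Subgroup.eq_of_le_of_card_ge h.le hge)

section

variable {p : ℕ} [Fact p.Prime] {G : Type*} [Group G] [Finite G]

theorem index_commutator_subgroup_le (hp2 : p ≠ 2) (hG : IsPGroup p G)
    (hmc : Cfsg.IsMetacyclic G) (R : Subgroup G) :
    (commutator ↥R).index ≤ (commutator G).index := by
  by_cases hR : IsMulCommutative ↥R
  · rw [(commutator_eq_bot_iff _).mpr hR, Subgroup.index_bot]
    obtain ⟨M⟩ := exists_MC hG hmc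
    exact (M.abelian_iff_card hp2 hG R).mp hR
  · exact (index_commutator_subgroup hp2 hG hmc R hR).le

theorem card_mul_card_center_top (hp2 : p ≠ 2) (hG : IsPGroup p G)
    (hmc : Cfsg.IsMetacyclic G) :
    Nat.card G * Nat.card ↥(Subgroup.center G) = (commutator G).index ^ 2 := by
  have hpp := (Fact.out : p.Prime)
  obtain ⟨M⟩ := exists_MC hG hmc
  obtain ⟨n, hn⟩ := IsPGroup.iff_card.mp (hG.to_subgroup (commutator G))
  have h1 := M.card_center_mul hp2 hG hn
  have h2 := Subgroup.card_mul_index (commutator G)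
  rw [hn] at h2
  have hpos : 0 < p ^ n * p ^ n := Nat.mul_pos (pow_pos hpp.pos n) (pow_pos hpp.pos n)
  apply Nat.eq_of_mul_eq_mul_right hpos
  calc Nat.card G * Nat.card ↥(Subgroup.center G) * (p ^ n * p ^ n)
      = Nat.card G * (Nat.card ↥(Subgroup.center G) * (p ^ n * p ^ n)) := by ring
    _ = Nat.card G * Nat.card G := by rw [h1]
    _ = (p ^ n * (commutator G).index) * (p ^ n * (commutator G).index) := by rw [h2]
    _ = (commutator G).index ^ 2 * (p ^ n * p ^ n) := by ring

/-- the Chermak–Delgado measure is at most `|G| |Z(G)|` -/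
theorem measure_le (hp2 : p ≠ 2) (hG : IsPGroup p G) (hmc : Cfsg.IsMetacyclic G)
    (R : Subgroup G) :
    Nat.card ↥R * Nat.card ↥(Subgroup.centralizer (R : Set G)) ≤
      Nat.card G * Nat.card ↥(Subgroup.center G) := by
  have h1 := card_mul_card_le_sup_inf R (Subgroup.centralizer (R : Set G))
  have h2 : Nat.card ↥(R ⊓ Subgroup.centralizer (R : Set G)) ≤
      Nat.card ↥(Subgroup.center ↥(R ⊔ Subgroup.centralizer (R : Set G))) := by
    have hmem : ∀ x : ↥(R ⊓ Subgroup.centralizer (R : Set G)),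
        (x : G) ∈ R ⊔ Subgroup.centralizer (R : Set G) :=
      fun x => (le_sup_left : R ≤ R ⊔ Subgroup.centralizer (R : Set G))
        (Subgroup.mem_inf.mp x.2).1
    have hcen : ∀ x : ↥(R ⊓ Subgroup.centralizer (R : Set G)),
        (⟨(x : G), hmem x⟩ : ↥(R ⊔ Subgroup.centralizer (R : Set G))) ∈
          Subgroup.center ↥(R ⊔ Subgroup.centralizer (R : Set G)) := by
      intro x
      obtain ⟨hxR, hxC⟩ := Subgroup.mem_inf.mp x.2
      rw [Subgroup.mem_center_iff]
      intro t
      have hle : R ⊔ Subgroup.centralizer (R : Set G) ≤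
          Subgroup.centralizer ({(x : G)} : Set G) := by
        apply sup_le
        · intro y hy
          rw [Subgroup.mem_centralizer_iff]
          intro z hz
          rw [Set.mem_singleton_iff] at hz
          subst hz
          exact ((Subgroup.mem_centralizer_iff.mp hxC) y hy).symm
        · intro y hy
          rw [Subgroup.mem_centralizer_iff]
          intro z hz
          rw [Set.mem_singleton_iff] at hz
          subst hz
          exact (Subgroup.mem_centralizer_iff.mp hy) _ hxR
      have h3 := (Subgroup.mem_centralizer_iff.mp (hle t.2)) (x : G) rfl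
      apply Subtype.ext
      exact h3.symm
    apply Nat.card_le_card_of_injective
      (fun x : ↥(R ⊓ Subgroup.centralizer (R : Set G)) =>
        (⟨⟨(x : G), hmem x⟩, hcen x⟩ :
          ↥(Subgroup.center ↥(R ⊔ Subgroup.centralizer (R : Set G)))))
    intro x y hxy
    apply Subtype.ext
    exact congrArg (fun t : ↥(Subgroup.center ↥(R ⊔ Subgroup.centralizer (R : Set G))) =>
      ((t : ↥(R ⊔ Subgroup.centralizer (R : Set G))) : G)) hxy
  have h3 := card_mul_card_center_eq hp2 hG hmc (R ⊔ Subgroup.centralizer (R : Set G))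
  have h4 := index_commutator_subgroup_le hp2 hG hmc (R ⊔ Subgroup.centralizer (R : Set G))
  have h5 := card_mul_card_center_top hp2 hG hmc
  calc Nat.card ↥R * Nat.card ↥(Subgroup.centralizer (R : Set G))
      ≤ Nat.card ↥(R ⊔ Subgroup.centralizer (R : Set G)) *
          Nat.card ↥(R ⊓ Subgroup.centralizer (R : Set G)) := h1
    _ ≤ Nat.card ↥(R ⊔ Subgroup.centralizer (R : Set G)) *
          Nat.card ↥(Subgroup.center ↥(R ⊔ Subgroup.centralizer (R : Set G))) :=
        Nat.mul_le_mul_left _ h2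
    _ = (commutator ↥(R ⊔ Subgroup.centralizer (R : Set G))).index ^ 2 := h3
    _ ≤ (commutator G).index ^ 2 := Nat.pow_le_pow_left h4 2
    _ = Nat.card G * Nat.card ↥(Subgroup.center G) := h5.symm

theorem centralizer_zpowers_sup_center (g : G) :
    Subgroup.centralizer ((Subgroup.zpowers g ⊔ Subgroup.center G : Subgroup G) : Set G) =
      Subgroup.centralizer ({g} : Set G) := by
  apply le_antisymm
  · apply Subgroup.centralizer_le
    intro x hx
    rw [Set.mem_singleton_iff] at hx
    subst hx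
    exact (le_sup_left : Subgroup.zpowers x ≤ Subgroup.zpowers x ⊔ Subgroup.center G)
      (Subgroup.mem_zpowers x)
  · rw [Subgroup.le_centralizer_iff]
    apply sup_le
    · rw [Subgroup.zpowers_le, Subgroup.mem_centralizer_iff]
      intro h hh
      exact ((Subgroup.mem_centralizer_iff.mp hh) g rfl).symm
    · exact Subgroup.center_le_centralizer _

/-- the measure of `⟨g⟩ Z(G)` is `|G| |Z(G)|` -/
theorem measure_cyclic (hp2 : p ≠ 2) (hG : IsPGroup p G) (hmc : Cfsg.IsMetacyclic G) (g : G) :
    Nat.card ↥(Subgroup.zpowers g ⊔ Subgroup.center G) *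
      Nat.card ↥(Subgroup.centralizer
        ((Subgroup.zpowers g ⊔ Subgroup.center G : Subgroup G) : Set G)) =
      Nat.card G * Nat.card ↥(Subgroup.center G) := by
  have hpp := (Fact.out : p.Prime)
  rw [centralizer_zpowers_sup_center]
  obtain ⟨M⟩ := exists_MC hG hmc
  obtain ⟨n, hn⟩ := IsPGroup.iff_card.mp (hG.to_subgroup (commutator G))
  obtain ⟨mg, hmg⟩ := hG g
  obtain ⟨u, -, hu⟩ := exists_pow_mem_iff hpp (Subgroup.center G) g hmg
  have h1 := card_inf_zpowers_mul hpp (Subgroup.center G) g hmg hu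
  have h2 := card_sup_mul_card_inf (Subgroup.zpowers g) (Subgroup.center G)
  rw [Nat.card_zpowers, inf_comm, ← h1] at h2
  have hpos : 0 < Nat.card ↥(Subgroup.center G ⊓ Subgroup.zpowers g) := Nat.card_pos
  have h2' : Nat.card ↥(Subgroup.zpowers g ⊔ Subgroup.center G) =
      p ^ u * Nat.card ↥(Subgroup.center G) := by
    apply Nat.eq_of_mul_eq_mul_right hpos
    rw [h2]
    ring
  obtain ⟨d, hd⟩ := hG.index (Subgroup.centralizer ({g} : Set G))
  have h3 := Subgroup.card_mul_index (Subgroup.centralizer ({g} : Set G))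
  rw [hd] at h3
  have hud : u = d := by
    obtain ⟨i, j, rfl⟩ := M.gen g
    have hdn : d ≤ n := by
      have := (M.index_centralizer_le_iff hp2 hG hn i j 0 (Nat.zero_le n)).mp
        ⟨by simp, by simp⟩
      rw [hd, Nat.sub_zero] at this
      exact (Nat.pow_le_pow_iff_right hpp.one_lt).mp this
    have hR1 : 1 ≤ M.r ^ j := Nat.one_le_pow _ _ M.hr1
    have hR : p ∣ M.r ^ j - 1 := dvd_pow_sub_one M.hr1 M.hr j
    apply le_antisymm
    · have e1 : n - (n - d) = d := by omega
      obtain ⟨hi, hj⟩ := (M.index_centralizer_le_iff hp2 hG hn i j (n - d)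
        (Nat.sub_le n d)).mpr (by rw [e1, hd])
      have hmem : (M.a ^ i * M.b ^ j) ^ p ^ d ∈ Subgroup.center G := by
        rw [M.pow_formula, M.mem_center_iff hp2 hG hn]
        have e2 : p ^ n = p ^ (n - d) * p ^ d := by
          rw [← pow_add]
          congr 1
          omega
        rw [e2]
        exact ⟨Nat.mul_dvd_mul hi ((pow_dvd_gs_iff hpp hp2 hR1 hR (p ^ d) d).mpr dvd_rfl),
          Nat.mul_dvd_mul hj dvd_rfl⟩
      exact (Nat.pow_dvd_pow_iff_le_right hpp.one_lt).mp ((hu _).mp hmem)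
    · by_contra hlt
      push Not at hlt
      have hun : u ≤ n := by omega
      have hmem : (M.a ^ i * M.b ^ j) ^ p ^ u ∈ Subgroup.center G := (hu _).mpr dvd_rfl
      rw [M.pow_formula, M.mem_center_iff hp2 hG hn] at hmem
      obtain ⟨hi, hj⟩ := hmem
      rw [pow_dvd_mul_gs_iff hpp hp2 hR1 hR] at hi
      have hi' := pow_dvd_of_mul_pow hpp hun hi
      have hj' := pow_dvd_of_mul_pow hpp hun hj
      have h4 := (M.index_centralizer_le_iff hp2 hG hn i j (n - u) (Nat.sub_le n u)).mp
        ⟨hi', hj'⟩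
      have e1 : n - (n - u) = u := by omega
      rw [e1, hd] at h4
      have := (Nat.pow_le_pow_iff_right hpp.one_lt).mp h4
      omega
  rw [h2', hud, ← h3]
  ring

/-- joins of subgroups of full measure have full measure -/
theorem measure_sup (hp2 : p ≠ 2) (hG : IsPGroup p G) (hmc : Cfsg.IsMetacyclic G)
    (H K : Subgroup G)
    (hH : Nat.card ↥H * Nat.card ↥(Subgroup.centralizer (H : Set G)) =
      Nat.card G * Nat.card ↥(Subgroup.center G))
    (hK : Nat.card ↥K * Nat.card ↥(Subgroup.centralizer (K : Set G)) =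
      Nat.card G * Nat.card ↥(Subgroup.center G)) :
    Nat.card ↥(H ⊔ K) * Nat.card ↥(Subgroup.centralizer ((H ⊔ K : Subgroup G) : Set G)) =
      Nat.card G * Nat.card ↥(Subgroup.center G) := by
  apply le_antisymm (measure_le hp2 hG hmc _)
  have h1 := card_mul_card_le_sup_inf H K
  have h2 := card_mul_card_le_sup_inf (Subgroup.centralizer (H : Set G))
    (Subgroup.centralizer (K : Set G))
  have h3 : Subgroup.centralizer (H : Set G) ⊔ Subgroup.centralizer (K : Set G) ≤
      Subgroup.centralizer ((H ⊓ K : Subgroup G) : Set G) :=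
    sup_le (Subgroup.centralizer_le (SetLike.coe_subset_coe.mpr inf_le_left))
      (Subgroup.centralizer_le (SetLike.coe_subset_coe.mpr inf_le_right))
  have h4 : Subgroup.centralizer (H : Set G) ⊓ Subgroup.centralizer (K : Set G) ≤
      Subgroup.centralizer ((H ⊔ K : Subgroup G) : Set G) := by
    rw [Subgroup.le_centralizer_iff]
    apply sup_le
    · rw [Subgroup.le_centralizer_iff]
      exact inf_le_left
    · rw [Subgroup.le_centralizer_iff]
      exact inf_le_right
  have h5 := measure_le hp2 hG hmc (H ⊓ K)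
  have h3' := Subgroup.card_le_of_le h3
  have h4' := Subgroup.card_le_of_le h4
  have hmpos : 0 < Nat.card G * Nat.card ↥(Subgroup.center G) :=
    Nat.mul_pos Nat.card_pos Nat.card_pos
  apply Nat.le_of_mul_le_mul_right _ hmpos
  calc Nat.card G * Nat.card ↥(Subgroup.center G) *
        (Nat.card G * Nat.card ↥(Subgroup.center G))
      = (Nat.card ↥H * Nat.card ↥(Subgroup.centralizer (H : Set G))) *
          (Nat.card ↥K * Nat.card ↥(Subgroup.centralizer (K : Set G))) := by rw [hH, hK]
    _ = (Nat.card ↥H * Nat.card ↥K) * (Nat.card ↥(Subgroup.centralizer (H : Set G)) *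
          Nat.card ↥(Subgroup.centralizer (K : Set G))) := by ring
    _ ≤ (Nat.card ↥(H ⊔ K) * Nat.card ↥(H ⊓ K)) *
          (Nat.card ↥(Subgroup.centralizer (H : Set G) ⊔ Subgroup.centralizer (K : Set G)) *
            Nat.card ↥(Subgroup.centralizer (H : Set G) ⊓ Subgroup.centralizer (K : Set G))) :=
        Nat.mul_le_mul h1 h2
    _ ≤ (Nat.card ↥(H ⊔ K) * Nat.card ↥(H ⊓ K)) *
          (Nat.card ↥(Subgroup.centralizer ((H ⊓ K : Subgroup G) : Set G)) *
            Nat.card ↥(Subgroup.centralizer ((H ⊔ K : Subgroup G) : Set G))) :=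
        Nat.mul_le_mul_left _ (Nat.mul_le_mul h3' h4')
    _ = (Nat.card ↥(H ⊔ K) * Nat.card ↥(Subgroup.centralizer ((H ⊔ K : Subgroup G) : Set G))) *
          (Nat.card ↥(H ⊓ K) *
            Nat.card ↥(Subgroup.centralizer ((H ⊓ K : Subgroup G) : Set G))) := by ring
    _ ≤ (Nat.card ↥(H ⊔ K) * Nat.card ↥(Subgroup.centralizer ((H ⊔ K : Subgroup G) : Set G))) *
          (Nat.card G * Nat.card ↥(Subgroup.center G)) := Nat.mul_le_mul_left _ h5

/-- every subgroup containing the centre has full measure -/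
theorem measure_eq_of_center_le (hp2 : p ≠ 2) (hG : IsPGroup p G)
    (hmc : Cfsg.IsMetacyclic G) (R : Subgroup G) (hZ : Subgroup.center G ≤ R) :
    Nat.card ↥R * Nat.card ↥(Subgroup.centralizer (R : Set G)) =
      Nat.card G * Nat.card ↥(Subgroup.center G) := by
  have hPZ : Subgroup.center G ≤ R ∧
      Nat.card ↥(Subgroup.center G) *
        Nat.card ↥(Subgroup.centralizer ((Subgroup.center G : Subgroup G) : Set G)) =
      Nat.card G * Nat.card ↥(Subgroup.center G) := by
    refine ⟨hZ, ?_⟩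
    have h1 : Subgroup.centralizer ((Subgroup.center G : Subgroup G) : Set G) = ⊤ :=
      Subgroup.centralizer_eq_top_iff_subset.mpr (fun x hx => hx)
    rw [h1, Subgroup.card_top, mul_comm]
  obtain ⟨H, -, hHmax⟩ := Finite.exists_le_maximal
    (p := fun H : Subgroup G => H ≤ R ∧
      Nat.card ↥H * Nat.card ↥(Subgroup.centralizer (H : Set G)) =
        Nat.card G * Nat.card ↥(Subgroup.center G)) hPZ
  by_cases hHR : H = R
  · rw [← hHR]
    exact hHmax.prop.2
  · exfalso
    obtain ⟨g, hgR, hgH⟩ := SetLike.exists_of_lt (lt_of_le_of_ne hHmax.prop.1 hHR)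
    have hP' : H ⊔ (Subgroup.zpowers g ⊔ Subgroup.center G) ≤ R ∧
        Nat.card ↥(H ⊔ (Subgroup.zpowers g ⊔ Subgroup.center G)) *
          Nat.card ↥(Subgroup.centralizer
            ((H ⊔ (Subgroup.zpowers g ⊔ Subgroup.center G) : Subgroup G) : Set G)) =
        Nat.card G * Nat.card ↥(Subgroup.center G) :=
      ⟨sup_le hHmax.prop.1 (sup_le (Subgroup.zpowers_le.mpr hgR) hZ),
        measure_sup hp2 hG hmc _ _ hHmax.prop.2 (measure_cyclic hp2 hG hmc g)⟩
    have hle := hHmax.le_of_ge hP' le_sup_left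
    apply hgH
    apply hle
    exact (le_sup_right : Subgroup.zpowers g ⊔ Subgroup.center G ≤
      H ⊔ (Subgroup.zpowers g ⊔ Subgroup.center G))
      ((le_sup_left : Subgroup.zpowers g ≤ Subgroup.zpowers g ⊔ Subgroup.center G)
        (Subgroup.mem_zpowers g))

/-- subgroups not containing the centre have smaller measure -/
theorem measure_lt_of_not_center_le (hp2 : p ≠ 2) (hG : IsPGroup p G)
    (hmc : Cfsg.IsMetacyclic G) (R : Subgroup G) (hZ : ¬ Subgroup.center G ≤ R) :
    Nat.card ↥R * Nat.card ↥(Subgroup.centralizer (R : Set G)) <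
      Nat.card G * Nat.card ↥(Subgroup.center G) := by
  have h1 := measure_eq_of_center_le hp2 hG hmc (R ⊔ Subgroup.center G) le_sup_right
  have hC : Subgroup.centralizer (R : Set G) ≤
      Subgroup.centralizer ((R ⊔ Subgroup.center G : Subgroup G) : Set G) := by
    rw [Subgroup.le_centralizer_iff]
    exact sup_le (Subgroup.le_centralizer_iff.mpr le_rfl) (Subgroup.center_le_centralizer _)
  have hlt : R < R ⊔ Subgroup.center G := by
    refine lt_of_le_of_ne le_sup_left ?_
    intro h
    apply hZ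
    rw [h]
    exact le_sup_right
  have h2 := card_lt_card_of_lt hlt
  have h3 := Subgroup.card_le_of_le hC
  have hpos : 0 < Nat.card ↥(Subgroup.centralizer (R : Set G)) := Nat.card_pos
  calc Nat.card ↥R * Nat.card ↥(Subgroup.centralizer (R : Set G))
      < Nat.card ↥(R ⊔ Subgroup.center G) * Nat.card ↥(Subgroup.centralizer (R : Set G)) :=
        Nat.mul_lt_mul_of_pos_right h2 hpos
    _ ≤ Nat.card ↥(R ⊔ Subgroup.center G) *
          Nat.card ↥(Subgroup.centralizer ((R ⊔ Subgroup.center G : Subgroup G) : Set G)) :=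
        Nat.mul_le_mul_left _ h3
    _ = Nat.card G * Nat.card ↥(Subgroup.center G) := h1

end

end Cfsg.Agent.Lib.Helper69
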