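import Mathlib
import Cfsg.Agent.Lib.Helper69.PClassCount

set_option autoImplicit false

namespace Cfsg.Agent.Lib.Helper69

section PiClassCount

universe u

/-- classes of `σ`-elements -/
abbrev PiCl (σ : Finset ℕ) (G : Type u) [Group G] : Type u :=
  {c : ConjClasses G // ∀ x ∈ c.carrier, ∀ r : ℕ, r.Prime → r ∣ orderOf x → r ∈ σ}

variable {G : Type u} [Group G]

theorem mem_carrier_mk_iff (x y : G) :
    y ∈ (ConjClasses.mk x).carrier ↔ ∃ c : G, c * x * c⁻¹ = y := by
  rw [ConjClasses.mem_carrier_iff_mk_eq, ConjClasses.mk_eq_mk_iff_isConj, isConj_comm, isConj_iff]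

theorem piCl_mk_prop (σ : Finset ℕ) (x : G) (hx : ∀ r : ℕ, r.Prime → r ∣ orderOf x → r ∈ σ) :
    ∀ y ∈ (ConjClasses.mk x).carrier, ∀ r : ℕ, r.Prime → r ∣ orderOf y → r ∈ σ := by
  intro y hy r hr hdvd
  obtain ⟨c, rfl⟩ := (mem_carrier_mk_iff x y).mp hy
  rw [orderOf_conj_eq] at hdvd
  exact hx r hr hdvd

/-- decomposition of an element into its `r`-part and `r'`-part -/
theorem exists_r_decomp [Finite G] (r : ℕ) (hr : r.Prime) (x : G) :
    ∃ y z : G, x = y * z ∧ Commute y z ∧ (∃ k : ℕ, orderOf y = r ^ k) ∧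
      (orderOf z ∣ orderOf x) ∧ ¬ r ∣ orderOf z := by
  have hn0 : orderOf x ≠ 0 := (orderOf_pos x).ne'
  obtain ⟨a, m, hnm, hcop⟩ : ∃ a m : ℕ, r ^ a * m = orderOf x ∧ Nat.Coprime r m :=
    ⟨_, _, Nat.ordProj_mul_ordCompl_eq_self (orderOf x) r, Nat.coprime_ordCompl hr hn0⟩
  have hg : Nat.gcd (r ^ a) m = 1 := Nat.Coprime.pow_left a hcop
  have hbez := Nat.gcd_eq_gcd_ab (r ^ a) m
  rw [hg] at hbez
  have hxn : x ^ (r ^ a * m) = 1 := by rw [hnm]; exact pow_orderOf_eq_one x
  refine ⟨(x ^ m) ^ (Nat.gcdB (r ^ a) m), (x ^ (r ^ a)) ^ (Nat.gcdA (r ^ a) m), ?_, ?_, ?_, ?_, ?_⟩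
  · rw [← zpow_natCast, ← zpow_natCast, ← zpow_mul, ← zpow_mul, ← zpow_add]
    have : (m : ℤ) * Nat.gcdB (r ^ a) m + ((r ^ a : ℕ) : ℤ) * Nat.gcdA (r ^ a) m = 1 := by
      rw [add_comm]
      exact hbez.symm
    rw [this, zpow_one]
  · exact (Commute.pow_pow_self x m (r ^ a)).zpow_zpow _ _
  · have h1 : ((x ^ m) ^ (Nat.gcdB (r ^ a) m)) ^ (r ^ a) = 1 := by
      rw [← zpow_natCast, ← zpow_mul, mul_comm, zpow_mul, zpow_natCast, ← pow_mul, mul_comm m,
        hxn, one_zpow]
    exact (Nat.dvd_prime_pow hr).mp (orderOf_dvd_of_pow_eq_one h1) |>.imp fun k hk => hk.2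
  · apply orderOf_dvd_of_pow_eq_one
    rw [← zpow_natCast, ← zpow_mul, mul_comm, zpow_mul, zpow_natCast, ← pow_mul, ← hnm,
      mul_comm (r ^ a) (r ^ a * m), pow_mul, hxn, one_pow, one_zpow]
  · intro hdvd
    have h1 : ((x ^ (r ^ a)) ^ (Nat.gcdA (r ^ a) m)) ^ m = 1 := by
      rw [← zpow_natCast, ← zpow_mul, mul_comm, zpow_mul, zpow_natCast, ← pow_mul, hxn, one_zpow]
    have h2 : r ∣ m := hdvd.trans (orderOf_dvd_of_pow_eq_one h1)
    exact (Nat.Prime.coprime_iff_not_dvd hr).mp hcop h2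

/-- the recursion for counting classes of `σ`-elements -/
theorem card_piCl_insert_le [Finite G] (σ : Finset ℕ) (r : ℕ) (hr : r.Prime) (m : ℕ)
    (hm : ∀ y : G, Nat.card (PiCl σ ↥(Subgroup.centralizer ({y} : Set G))) ≤ m) :
    Nat.card (PiCl (insert r σ) G) ≤ Nat.card (PiCl {r} G) * m := by
  classical
  choose rep hrep using fun c : PiCl {r} G => ConjClasses.exists_rep c.1
  have key : ∀ c : PiCl {r} G, ∀ d : PiCl σ ↥(Subgroup.centralizer ({rep c} : Set G)),
      ∀ z : ↥(Subgroup.centralizer ({rep c} : Set G)), ConjClasses.mk z = d.1 →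
      ∀ y ∈ (ConjClasses.mk (rep c * z.1)).carrier, ∀ s : ℕ, s.Prime → s ∣ orderOf y →
        s ∈ insert r σ := by
    intro c d z hz
    apply piCl_mk_prop
    intro s hs hdvd
    have hcomm : Commute (rep c) z.1 := Subgroup.mem_centralizer_iff.mp z.2 (rep c) rfl
    have h1 : orderOf (rep c * z.1) ∣ orderOf (rep c) * orderOf z.1 :=
      hcomm.orderOf_mul_dvd_mul_orderOf
    rcases (Nat.Prime.dvd_mul hs).mp (hdvd.trans h1) with h | h
    · have h2 := c.2 (rep c) (ConjClasses.mem_carrier_iff_mk_eq.mpr (hrep c)) s hs h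
      rw [Finset.mem_singleton] at h2
      rw [h2]
      exact Finset.mem_insert_self _ _
    · have h2 := d.2 z (ConjClasses.mem_carrier_iff_mk_eq.mpr hz) s hs (by
        rwa [Subgroup.orderOf_coe] at h)
      exact Finset.mem_insert_of_mem h2
  choose zrep hzrep using fun (c : PiCl {r} G)
    (d : PiCl σ ↥(Subgroup.centralizer ({rep c} : Set G))) => ConjClasses.exists_rep d.1
  let f : (Σ c : PiCl {r} G, PiCl σ ↥(Subgroup.centralizer ({rep c} : Set G))) →
      PiCl (insert r σ) G :=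
    fun cd => ⟨ConjClasses.mk (rep cd.1 * (zrep cd.1 cd.2).1),
      key cd.1 cd.2 (zrep cd.1 cd.2) (hzrep cd.1 cd.2)⟩
  have hsurj : Function.Surjective f := by
    rintro ⟨c, hc⟩
    obtain ⟨x, rfl⟩ := ConjClasses.exists_rep c
    obtain ⟨y, z, hxyz, hcomm, ⟨k, hk⟩, hzx, hrz⟩ := exists_r_decomp r hr x
    let c₁ : PiCl {r} G := ⟨ConjClasses.mk y, piCl_mk_prop {r} y (by
      intro s hs hdvd
      rw [hk] at hdvd
      rw [Finset.mem_singleton]
      exact (Nat.prime_dvd_prime_iff_eq hs hr).mp (hs.dvd_of_dvd_pow hdvd))⟩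
    have h1 : ConjClasses.mk (rep c₁) = ConjClasses.mk y := hrep c₁
    rw [ConjClasses.mk_eq_mk_iff_isConj, isConj_comm, isConj_iff] at h1
    obtain ⟨g, hg⟩ := h1
    have hz' : g * z * g⁻¹ ∈ Subgroup.centralizer ({rep c₁} : Set G) := by
      rw [Subgroup.mem_centralizer_iff]
      intro w hw
      rw [Set.mem_singleton_iff] at hw
      rw [hw, ← hg]
      have h2 := hcomm.eq
      calc g * y * g⁻¹ * (g * z * g⁻¹) = g * (y * z) * g⁻¹ := by group
        _ = g * (z * y) * g⁻¹ := by rw [h2]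
        _ = g * z * g⁻¹ * (g * y * g⁻¹) := by group
    let d₁ : PiCl σ ↥(Subgroup.centralizer ({rep c₁} : Set G)) :=
      ⟨ConjClasses.mk ⟨g * z * g⁻¹, hz'⟩, piCl_mk_prop σ _ (by
        intro s hs hdvd
        rw [Subgroup.orderOf_mk, orderOf_conj_eq] at hdvd
        have h2 := hc x ConjClasses.mem_carrier_mk s hs (hdvd.trans hzx)
        rcases Finset.mem_insert.mp h2 with h3 | h3
        · exact absurd (h3 ▸ hdvd) hrz
        · exact h3)⟩
    refine ⟨⟨c₁, d₁⟩, ?_⟩
    apply Subtype.ext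
    show ConjClasses.mk (rep c₁ * (zrep c₁ d₁).1) = ConjClasses.mk x
    have h4 : ConjClasses.mk (zrep c₁ d₁) = ConjClasses.mk
        (⟨g * z * g⁻¹, hz'⟩ : ↥(Subgroup.centralizer ({rep c₁} : Set G))) := hzrep c₁ d₁
    rw [ConjClasses.mk_eq_mk_iff_isConj, isConj_comm, isConj_iff] at h4
    obtain ⟨h, hh⟩ := h4
    have hh' : h.1 * (g * z * g⁻¹) * h.1⁻¹ = (zrep c₁ d₁).1 := congrArg Subtype.val hh
    have hcen : rep c₁ * h.1 = h.1 * rep c₁ := Subgroup.mem_centralizer_iff.mp h.2 (rep c₁) rfl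
    rw [ConjClasses.mk_eq_mk_iff_isConj, isConj_comm, isConj_iff]
    refine ⟨h.1 * g, ?_⟩
    calc h.1 * g * x * (h.1 * g)⁻¹ = h.1 * (g * y * g⁻¹) * (g * z * g⁻¹) * h.1⁻¹ := by
          rw [hxyz]
          group
      _ = h.1 * rep c₁ * (g * z * g⁻¹) * h.1⁻¹ := by rw [hg]
      _ = rep c₁ * h.1 * (g * z * g⁻¹) * h.1⁻¹ := by rw [hcen]
      _ = rep c₁ * (h.1 * (g * z * g⁻¹) * h.1⁻¹) := by group
      _ = rep c₁ * (zrep c₁ d₁).1 := by rw [hh']
  have h1 := Nat.card_le_card_of_surjective f hsurj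
  letI := Fintype.ofFinite (PiCl {r} G)
  rw [Nat.card_sigma] at h1
  calc Nat.card (PiCl (insert r σ) G)
      ≤ ∑ c : PiCl {r} G, Nat.card (PiCl σ ↥(Subgroup.centralizer ({rep c} : Set G))) := h1
    _ ≤ ∑ _c : PiCl {r} G, m := Finset.sum_le_sum (fun c _ => hm (rep c))
    _ = Nat.card (PiCl {r} G) * m := by
      rw [Finset.sum_const, Finset.card_univ, smul_eq_mul, Nat.card_eq_fintype_card]

theorem piElt_singleton_iff [Finite G] {r : ℕ} (hr : r.Prime) (x : G) :
    (∀ s : ℕ, s.Prime → s ∣ orderOf x → s ∈ ({r} : Finset ℕ)) ↔ ∃ k : ℕ, orderOf x = r ^ k := by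
  constructor
  · intro h
    refine ⟨_, Nat.eq_prime_pow_of_unique_prime_dvd (orderOf_pos x).ne' (fun {d} hd hdvd => ?_)⟩
    exact Finset.mem_singleton.mp (h d hd hdvd)
  · rintro ⟨k, hk⟩ s hs hdvd
    rw [hk] at hdvd
    exact Finset.mem_singleton.mpr ((Nat.prime_dvd_prime_iff_eq hs hr).mp (hs.dvd_of_dvd_pow hdvd))

theorem card_piCl_singleton [Finite G] {r : ℕ} (hr : r.Prime) :
    Nat.card (PiCl {r} G) =
      Nat.card {c : ConjClasses G // ∀ x ∈ c.carrier, ∃ k : ℕ, orderOf x = r ^ k} := by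
  apply Nat.card_congr
  apply Equiv.subtypeEquivRight
  intro c
  exact forall₂_congr (fun x _ => piElt_singleton_iff hr x)

theorem card_pclasses_le_sylow [Finite G] {r : ℕ} [Fact r.Prime] (P : Sylow r G) :
    Nat.card {c : ConjClasses G // ∀ x ∈ c.carrier, ∃ k : ℕ, orderOf x = r ^ k} ≤
      Nat.card ↥(P : Subgroup G) := by
  have hN : ∀ g ∈ Subgroup.normalizer ((P : Subgroup G) : Set G), ∀ x ∈ (P : Subgroup G),
      g * x * g⁻¹ ∈ (P : Subgroup G) :=
    fun g hg x hx => (Subgroup.mem_normalizer_iff.mp hg x).mp hx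
  refine (card_pclasses_le_orbits P hN).trans ?_
  letI := conjActionOn _ _ hN
  exact Nat.card_le_card_of_surjective (Quotient.mk _) Quotient.mk_surjective

theorem prod_factorization_le {H : Type u} [Group H] [Finite H] (σ : Finset ℕ)
    (hσ : ∀ s ∈ σ, s.Prime) (K : Subgroup H) :
    σ.prod (fun s => s ^ (Nat.card ↥K).factorization s) ≤
      σ.prod (fun s => s ^ (Nat.card H).factorization s) := by
  apply Finset.prod_le_prod (fun s _ => Nat.zero_le _)
  intro s hs
  apply Nat.pow_le_pow_right (hσ s hs).pos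
  exact (Nat.factorization_le_iff_dvd Nat.card_pos.ne' Nat.card_pos.ne').mpr
    (Subgroup.card_subgroup_dvd_card K) s

/-- the number of classes of `σ`-elements is at most the `σ`-part of the group order -/
theorem card_piCl_le (σ : Finset ℕ) (hσ : ∀ s ∈ σ, s.Prime) :
    ∀ (H : Type u) [Group H] [Finite H],
      Nat.card (PiCl σ H) ≤ σ.prod (fun s => s ^ (Nat.card H).factorization s) := by
  classical
  induction σ using Finset.induction_on with
  | empty =>
    intro H _ _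
    rw [Finset.prod_empty, Finite.card_le_one_iff_subsingleton]
    constructor
    intro a b
    have key : ∀ c : PiCl ∅ H, c.1 = ConjClasses.mk 1 := by
      rintro ⟨c, hc⟩
      obtain ⟨x, rfl⟩ := ConjClasses.exists_rep c
      have h1 : orderOf x = 1 := by
        rw [Nat.eq_one_iff_not_exists_prime_dvd]
        intro s hs hdvd
        exact absurd (hc x ConjClasses.mem_carrier_mk s hs hdvd) (Finset.notMem_empty s)
      rw [orderOf_eq_one_iff] at h1
      show ConjClasses.mk x = ConjClasses.mk 1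
      rw [h1]
    exact Subtype.ext ((key a).trans (key b).symm)
  | insert r σ hrσ ih =>
    intro H _ _
    have hr : r.Prime := hσ r (Finset.mem_insert_self _ _)
    have hσ' : ∀ s ∈ σ, s.Prime := fun s hs => hσ s (Finset.mem_insert_of_mem hs)
    rw [Finset.prod_insert hrσ]
    have hm : ∀ y : H, Nat.card (PiCl σ ↥(Subgroup.centralizer ({y} : Set H))) ≤
        σ.prod (fun s => s ^ (Nat.card H).factorization s) := by
      intro y
      exact (ih hσ' _).trans (prod_factorization_le σ hσ' _)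
    refine (card_piCl_insert_le σ r hr _ hm).trans ?_
    apply Nat.mul_le_mul_right
    have := Fact.mk hr
    rw [card_piCl_singleton hr]
    obtain ⟨P⟩ : Nonempty (Sylow r H) := inferInstance
    rw [← Sylow.card_eq_multiplicity P]
    exact card_pclasses_le_sylow P

/-- `k_π(G) ≤ k_r(G) · |G|_{π ∖ r}` -/
theorem card_piCl_le_mul [Finite G] (π : Finset ℕ) (hπ : ∀ s ∈ π, s.Prime) (r : ℕ) (hr : r ∈ π) :
    Nat.card (PiCl π G) ≤
      Nat.card {c : ConjClasses G // ∀ x ∈ c.carrier, ∃ k : ℕ, orderOf x = r ^ k} *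
        (π.erase r).prod (fun s => s ^ (Nat.card G).factorization s) := by
  classical
  have hrp := hπ r hr
  have hπ' : ∀ s ∈ π.erase r, s.Prime := fun s hs => hπ s (Finset.mem_of_mem_erase hs)
  have h1 : Nat.card (PiCl π G) = Nat.card (PiCl (insert r (π.erase r)) G) := by
    rw [Finset.insert_erase hr]
  rw [h1, ← card_piCl_singleton hrp]
  apply card_piCl_insert_le (π.erase r) r hrp
  intro y
  exact (card_piCl_le (π.erase r) hπ' _).trans (prod_factorization_le _ hπ' _)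

theorem finset_inf_normal_index {ι : Type*} (s : Finset ι) (K : ι → Subgroup G)
    (hK : ∀ i ∈ s, (K i).Normal) :
    (s.inf K).Normal ∧ (s.inf K).index ∣ ∏ i ∈ s, (K i).index := by
  classical
  induction s using Finset.induction_on with
  | empty =>
    rw [Finset.inf_empty, Finset.prod_empty, Subgroup.index_top]
    exact ⟨inferInstance, dvd_refl 1⟩
  | insert a s ha ih =>
    have hKa := hK a (Finset.mem_insert_self _ _)
    obtain ⟨h1, h2⟩ := ih (fun i hi => hK i (Finset.mem_insert_of_mem hi))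
    rw [Finset.inf_insert, Finset.prod_insert ha]
    refine ⟨Subgroup.normal_inf_normal _ _, ?_⟩
    have e1 : (K a ⊓ s.inf K).index = (K a).relIndex (s.inf K) * (s.inf K).index := by
      rw [← Subgroup.inf_relIndex_right, Subgroup.relIndex_mul_index inf_le_right]
    rw [e1]
    exact mul_dvd_mul (Subgroup.relIndex_dvd_index_of_normal _ _) h2

/-- if `K` is a normal complement of an abelian subgroup then `G/K` is abelian -/
theorem commutator_mem_of_complement (K P : Subgroup G) [K.Normal]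
    (hcompl : Subgroup.IsComplement' K P) (hab : IsMulCommutative ↥P) (x y : G) :
    x * y * x⁻¹ * y⁻¹ ∈ K := by
  obtain ⟨⟨k₁, u₁⟩, h1⟩ := hcompl.2 x
  obtain ⟨⟨k₂, u₂⟩, h2⟩ := hcompl.2 y
  have h1' : k₁.1 * u₁.1 = x := h1
  have h2' : k₂.1 * u₂.1 = y := h2
  rw [← QuotientGroup.eq_one_iff, ← h1', ← h2']
  have e1 : ((k₁.1 : G) : G ⧸ K) = 1 := (QuotientGroup.eq_one_iff _).mpr k₁.2
  have e2 : ((k₂.1 : G) : G ⧸ K) = 1 := (QuotientGroup.eq_one_iff _).mpr k₂.2
  have hcomm : u₁.1 * u₂.1 = u₂.1 * u₁.1 := congrArg Subtype.val (mul_comm' u₁ u₂)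
  simp only [QuotientGroup.mk_mul, QuotientGroup.mk_inv, e1, e2, one_mul]
  rw [← QuotientGroup.mk_mul, hcomm, QuotientGroup.mk_mul]
  group

end PiClassCount

end Cfsg.Agent.Lib.Helper69
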