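import Cfsg.Agent.Lib.Helper69.TwoClassCount
import Cfsg.Agent.Lib.Helper69.PiClassCount

set_option autoImplicit false

namespace Cfsg.Agent.Lib.Helper69

section OddClassCount

universe u

/-- Burnside counting with an index: if a subgroup `K` has index at least `m` and all elements
outside `K` fix at most `|X|/p` points, then the number of orbits is at most
`(p + m - 1)|X|/(p m)`. -/
theorem orbit_bound_index {H X : Type*} [Group H] [MulAction H X] [Finite H] [Finite X]
    (K : Subgroup H) (p m : ℕ) (hp : 1 ≤ p) (hm : m ≤ K.index)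
    (hfix : ∀ h : H, h ∉ K → p * Nat.card (MulAction.fixedBy X h) ≤ Nat.card X) :
    p * m * Nat.card (Quotient (MulAction.orbitRel H X)) + Nat.card X ≤ (p + m) * Nat.card X := by
  classical
  letI := Fintype.ofFinite H
  letI := Fintype.ofFinite X
  letI : Fintype (Quotient (MulAction.orbitRel H X)) := Fintype.ofFinite _
  have hB := MulAction.sum_card_fixedBy_eq_card_orbits_mul_card_group H X
  have hsplit := Finset.sum_filter_add_sum_filter_not (Finset.univ : Finset H) (fun h => h ∈ K)
    (fun h => Fintype.card (MulAction.fixedBy X h))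
  have h1 : ∑ h ∈ Finset.univ.filter (fun h => h ∈ K), Fintype.card (MulAction.fixedBy X h)
      ≤ (Finset.univ.filter (fun h : H => h ∈ K)).card * Fintype.card X := by
    have := Finset.sum_le_card_nsmul (Finset.univ.filter (fun h : H => h ∈ K))
      (fun h => Fintype.card (MulAction.fixedBy X h)) (Fintype.card X)
      (fun h _ => Fintype.card_subtype_le _)
    simpa using this
  have h2 : p * ∑ h ∈ Finset.univ.filter (fun h => ¬ h ∈ K), Fintype.card (MulAction.fixedBy X h)
      ≤ (Finset.univ.filter (fun h : H => ¬ h ∈ K)).card * Fintype.card X := by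
    rw [Finset.mul_sum]
    have := Finset.sum_le_card_nsmul (Finset.univ.filter (fun h : H => ¬ h ∈ K))
      (fun h => p * Fintype.card (MulAction.fixedBy X h)) (Fintype.card X)
      (fun h hh => by
        have h3 := hfix h (Finset.mem_filter.mp hh).2
        rwa [Nat.card_eq_fintype_card, Nat.card_eq_fintype_card] at h3)
    simpa using this
  have hcard := Finset.card_filter_add_card_filter_not (s := (Finset.univ : Finset H))
    (fun h => h ∈ K)
  have hKcard : (Finset.univ.filter (fun h : H => h ∈ K)).card = Nat.card ↥K := by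
    rw [← Fintype.card_subtype]
    exact Nat.card_eq_fintype_card.symm
  have hidx := Subgroup.card_mul_index K
  have hHcard : (Finset.univ : Finset H).card = Nat.card H := by
    rw [Finset.card_univ, Nat.card_eq_fintype_card]
  rw [Nat.card_eq_fintype_card, Nat.card_eq_fintype_card]
  set a := (Finset.univ.filter (fun h : H => h ∈ K)).card with ha
  set b := (Finset.univ.filter (fun h : H => ¬ h ∈ K)).card with hb
  set s1 := ∑ h ∈ Finset.univ.filter (fun h => h ∈ K), Fintype.card (MulAction.fixedBy X h)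
  set s2 := ∑ h ∈ Finset.univ.filter (fun h => ¬ h ∈ K), Fintype.card (MulAction.fixedBy X h)
  set x := Fintype.card X
  set o := Fintype.card (Quotient (MulAction.orbitRel H X))
  set n := Fintype.card H
  have hn : a + b = n := by
    rw [hcard, Finset.card_univ]
  have hma : m * a ≤ n := by
    have h6 : a * m ≤ a * K.index := Nat.mul_le_mul_left a hm
    rw [hKcard, hidx, ← hHcard, Finset.card_univ, ← hKcard] at h6
    rw [mul_comm]
    exact h6
  have hn0 : 0 < n := Fintype.card_pos
  have h7 : s1 + s2 = o * n := by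
    rw [hsplit]
    exact hB
  obtain ⟨q, rfl⟩ : ∃ q, p = q + 1 := ⟨p - 1, by omega⟩
  have h8 : (q + 1) * s1 ≤ (q + 1) * (a * x) := Nat.mul_le_mul_left _ h1
  have h9 : ((q + 1) * m * o + x) * n ≤ ((q + 1 + m) * x) * n := by
    have e1 : (q + 1) * m * o * n = m * ((q + 1) * s1) + m * ((q + 1) * s2) := by
      have : (q + 1) * m * o * n = (q + 1) * m * (o * n) := by ring
      rw [this, ← h7]
      ring
    have e2 : m * ((q + 1) * s1) ≤ m * ((q + 1) * (a * x)) := Nat.mul_le_mul_left _ h8
    have e3 : m * ((q + 1) * s2) ≤ m * (b * x) := Nat.mul_le_mul_left _ h2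
    have e4 : q * (m * a) * x ≤ q * n * x :=
      Nat.mul_le_mul_right _ (Nat.mul_le_mul_left _ hma)
    have e5 : m * ((q + 1) * (a * x)) + m * (b * x) + x * n =
        q * (m * a) * x + m * (a + b) * x + x * n := by ring
    have e6 : ((q + 1) * m * o + x) * n = (q + 1) * m * o * n + x * n := by ring
    have e7 : ((q + 1 + m) * x) * n = q * n * x + m * n * x + x * n := by ring
    rw [e6, e7, e1]
    rw [hn] at e5
    omega
  exact Nat.le_of_mul_le_mul_right h9 hn0

variable {G : Type u} [Group G]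

/-- the number of classes of `p`-elements is at most the number of orbits of a subgroup `H`
normalizing a Sylow `p`-subgroup `P` on `P` -/
theorem card_pcl_le_orbits [Finite G] {p : ℕ} [Fact p.Prime] (P : Sylow p G) (H : Subgroup G)
    (hN : ∀ g ∈ H, ∀ x ∈ (P : Subgroup G), g * x * g⁻¹ ∈ (P : Subgroup G)) :
    Nat.card (PCl p G) ≤
      Nat.card (Quotient (@MulAction.orbitRel ↥H ↥(P : Subgroup G) _ (conjActionOn _ _ hN))) := by
  letI := conjActionOn _ _ hN
  let f : Quotient (MulAction.orbitRel ↥H ↥(P : Subgroup G)) → PCl p G :=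
    Quotient.lift (clsMap P)
      (by
        intro a b hab
        have hab' : a ∈ MulAction.orbit ↥H b := hab
        rw [MulAction.mem_orbit_iff] at hab'
        obtain ⟨g, hg⟩ := hab'
        exact clsMap_eq_of_conj P b a g.1 (congrArg Subtype.val hg))
  apply Nat.card_le_card_of_surjective f
  intro t
  obtain ⟨x, hx⟩ := clsMap_surjective P t
  exact ⟨Quotient.mk _ x, hx⟩

/-- a non-centralizing element of `H` fixes at most `|P|/p` points -/
theorem fixedBy_bound' [Finite G] {p : ℕ} [Fact p.Prime] (P : Sylow p G) (H : Subgroup G)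
    (hN : ∀ g ∈ H, ∀ x ∈ (P : Subgroup G), g * x * g⁻¹ ∈ (P : Subgroup G))
    (h : ↥H) (hh : h.1 ∉ Subgroup.centralizer ((P : Subgroup G) : Set G)) :
    p * Nat.card (@MulAction.fixedBy ↥H ↥(P : Subgroup G) _ (conjActionOn _ _ hN) h) ≤
      Nat.card ↥(P : Subgroup G) := by
  letI := conjActionOn _ _ hN
  have hp := (Fact.out : p.Prime)
  set L : Subgroup ↥(P : Subgroup G) :=
    (Subgroup.centralizer {h.1}).subgroupOf (P : Subgroup G) with hL
  have hcard : Nat.card (MulAction.fixedBy ↥(P : Subgroup G) h) = Nat.card ↥L := by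
    apply Nat.card_congr
    apply Equiv.subtypeEquivRight
    intro x
    rw [MulAction.mem_fixedBy, hL, Subgroup.mem_subgroupOf, Subgroup.mem_centralizer_iff]
    constructor
    · intro hx y hy
      rw [Set.mem_singleton_iff] at hy
      subst hy
      have h1 : h.1 * x.1 * h.1⁻¹ = x.1 := congrArg Subtype.val hx
      rw [mul_inv_eq_iff_eq_mul] at h1
      exact h1
    · intro hx
      apply Subtype.ext
      show h.1 * x.1 * h.1⁻¹ = x.1
      rw [mul_inv_eq_iff_eq_mul]
      exact hx h.1 rfl
  have hLtop : L ≠ ⊤ := by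
    intro htop
    apply hh
    rw [Subgroup.mem_centralizer_iff]
    intro x hx
    have hxL : (⟨x, hx⟩ : ↥(P : Subgroup G)) ∈ L := htop ▸ Subgroup.mem_top _
    rw [hL, Subgroup.mem_subgroupOf, Subgroup.mem_centralizer_iff] at hxL
    exact (hxL h.1 rfl).symm
  obtain ⟨j, hj⟩ := P.isPGroup'.index L
  have hj0 : j ≠ 0 := by
    rintro rfl
    rw [pow_zero] at hj
    exact hLtop (Subgroup.index_eq_one.mp hj)
  have hdvd : p ∣ L.index := by
    rw [hj]
    exact dvd_pow_self p hj0
  have hmul := Subgroup.card_mul_index L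
  rw [hcard, ← hmul, mul_comm]
  exact Nat.mul_le_mul_left _
    (Nat.le_of_dvd (Nat.pos_of_ne_zero Subgroup.index_ne_zero_of_finite) hdvd)

/-- the key count: if a subgroup `H` of `N_G(R)` acts on the Sylow `r`-subgroup `R` (`r` odd)
with `|H : C_H(R)| ≥ 3` and `≠ r`, then `k_r(G) ≤ |R|/2` -/
theorem two_mul_card_pcl_le_of_relIndex [Finite G] {r : ℕ} [Fact r.Prime] (hr2 : r ≠ 2)
    (R : Sylow r G) (H : Subgroup G)
    (hH : H ≤ Subgroup.normalizer ((R : Subgroup G) : Set G))
    (hm3 : 3 ≤ (Subgroup.centralizer ((R : Subgroup G) : Set G)).relIndex H)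
    (hmr : (Subgroup.centralizer ((R : Subgroup G) : Set G)).relIndex H ≠ r) :
    2 * Nat.card (PCl r G) ≤ Nat.card ↥(R : Subgroup G) := by
  have hr := (Fact.out : r.Prime)
  have hN : ∀ g ∈ H, ∀ x ∈ (R : Subgroup G), g * x * g⁻¹ ∈ (R : Subgroup G) :=
    fun g hg x hx => (Subgroup.mem_normalizer_iff.mp (hH hg) x).mp hx
  have h1 := card_pcl_le_orbits R H hN
  letI := conjActionOn _ _ hN
  set m := (Subgroup.centralizer ((R : Subgroup G) : Set G)).relIndex H with hm
  have h2 := orbit_bound_index (H := ↥H) (X := ↥(R : Subgroup G))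
    ((Subgroup.centralizer ((R : Subgroup G) : Set G)).subgroupOf H) r m hr.one_lt.le le_rfl
    (by
      intro h hh
      exact fixedBy_bound' R H hN h (fun hmem => hh (Subgroup.mem_subgroupOf.mpr hmem)))
  have hr3 : 3 ≤ r := by
    have := hr.two_le
    omega
  have hkey : 2 * (r + m) ≤ r * m + 2 := by
    rcases Nat.lt_or_ge r 4 with h | h
    · have : r = 3 := by omega
      subst this
      have : 4 ≤ m := by omega
      omega
    · nlinarith
  set o := Nat.card (Quotient (MulAction.orbitRel ↥H ↥(R : Subgroup G)))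
  set x := Nat.card ↥(R : Subgroup G)
  have h3 : (2 * o) * (r * m) ≤ x * (r * m) := by
    have e1 : 2 * (r * m * o + x) ≤ 2 * ((r + m) * x) := Nat.mul_le_mul_left 2 h2
    have e2 : 2 * (r + m) * x ≤ (r * m + 2) * x := Nat.mul_le_mul_right x hkey
    nlinarith
  have hpos : 0 < r * m := by positivity
  have h4 : 2 * o ≤ x := Nat.le_of_mul_le_mul_right h3 hpos
  omega

/-- a Sylow `r`-subgroup (`r` odd) is abelian if there are more than `|R|/2` classes of
`r`-elements -/
theorem sylow_comm_of_pcl [Finite G] {r : ℕ} [Fact r.Prime] (hr2 : r ≠ 2) (R : Sylow r G)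
    (hk : Nat.card ↥(R : Subgroup G) < 2 * Nat.card (PCl r G)) :
    IsMulCommutative ↥(R : Subgroup G) := by
  have hr := (Fact.out : r.Prime)
  by_contra hnab
  set C : Subgroup G := Subgroup.centralizer ((R : Subgroup G) : Set G) with hC
  have hnle : ¬ (R : Subgroup G) ≤ C := fun h =>
    hnab (Subgroup.le_centralizer_iff_isMulCommutative.mp h)
  obtain ⟨n, hn⟩ := IsPGroup.iff_card.mp R.isPGroup'
  have hdvd : C.relIndex R ∣ r ^ n := hn ▸ Subgroup.relIndex_dvd_card C R
  obtain ⟨j, _, hj⟩ := (Nat.dvd_prime_pow hr).mp hdvd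
  have hj2 : 2 ≤ j := by
    by_contra hlt
    have hj01 : j = 0 ∨ j = 1 := by omega
    rcases hj01 with rfl | rfl
    · rw [pow_zero] at hj
      exact hnle (Subgroup.relIndex_eq_one.mp hj)
    · rw [pow_one] at hj
      have hle : C.subgroupOf R ≤ Subgroup.center ↥(R : Subgroup G) := by
        intro z hz
        rw [Subgroup.mem_subgroupOf, hC, Subgroup.mem_centralizer_iff] at hz
        rw [Subgroup.mem_center_iff]
        intro y
        exact Subtype.ext (hz y.1 y.2)
      have hdvd2 : (Subgroup.center ↥(R : Subgroup G)).index ∣ r :=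
        (Subgroup.index_dvd_of_le hle).trans (dvd_of_eq hj)
      rcases (Nat.dvd_prime hr).mp hdvd2 with h1 | h1
      · apply hnab
        have htop := Subgroup.index_eq_one.mp h1
        refine ⟨⟨fun a b => ?_⟩⟩
        have hb : b ∈ Subgroup.center ↥(R : Subgroup G) := htop ▸ Subgroup.mem_top b
        exact (Subgroup.mem_center_iff.mp hb a)
      · haveI : IsCyclic (↥(R : Subgroup G) ⧸ Subgroup.center ↥(R : Subgroup G)) :=
          isCyclic_of_prime_card (p := r) h1
        apply hnab
        exact (QuotientGroup.mk' (Subgroup.center ↥(R : Subgroup G))).isMulCommutative_of_isCyclic_of_ker_le_center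
          (by rw [QuotientGroup.ker_mk'])
  have hr3 : 3 ≤ r := by
    have := hr.two_le
    omega
  have h3 : 3 ≤ C.relIndex R := by
    rw [hj]
    calc 3 ≤ r := hr3
      _ ≤ r ^ j := Nat.le_self_pow (by omega) r
  have hne : C.relIndex R ≠ r := by
    rw [hj]
    intro h
    have := Nat.pow_right_injective hr.two_le (h.trans (pow_one r).symm)
    omega
  have := two_mul_card_pcl_le_of_relIndex hr2 R R Subgroup.le_normalizer h3 hne
  omega

theorem mem_of_pow_mem_of_coprime (S : Subgroup G) (x : G) (a b : ℕ) (hab : Nat.Coprime a b)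
    (ha : x ^ a ∈ S) (hb : x ^ b ∈ S) : x ∈ S := by
  have hbez := Nat.gcd_eq_gcd_ab a b
  rw [hab] at hbez
  have h1 : x = (x ^ a) ^ (Nat.gcdA a b) * (x ^ b) ^ (Nat.gcdB a b) := by
    rw [← zpow_natCast, ← zpow_natCast, ← zpow_mul, ← zpow_mul, ← zpow_add, ← hbez]
    simp
  rw [h1]
  exact S.mul_mem (S.zpow_mem ha _) (S.zpow_mem hb _)

/-- if there are more than `|R|/2` classes of `r`-elements (`r` odd), every odd-order element
of `N_G(R)` centralizes `R` -/
theorem odd_normalizer_le_centralizer [Finite G] {r : ℕ} [Fact r.Prime] (hr2 : r ≠ 2)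
    (R : Sylow r G) (hk : Nat.card ↥(R : Subgroup G) < 2 * Nat.card (PCl r G)) (g : G)
    (hg : g ∈ Subgroup.normalizer ((R : Subgroup G) : Set G)) (hodd : Odd (orderOf g)) :
    g ∈ Subgroup.centralizer ((R : Subgroup G) : Set G) := by
  have hr := (Fact.out : r.Prime)
  have hab := sylow_comm_of_pcl hr2 R hk
  have hRC : (R : Subgroup G) ≤ Subgroup.centralizer ((R : Subgroup G) : Set G) :=
    Subgroup.le_centralizer_iff_isMulCommutative.mpr hab
  by_contra hgC
  set C : Subgroup G := Subgroup.centralizer ((R : Subgroup G) : Set G) with hC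
  set N : Subgroup G := Subgroup.normalizer ((R : Subgroup G) : Set G) with hN
  set e := (orderOf g).factorization r with he
  set m' := orderOf g / r ^ e with hm'
  have hmul : r ^ e * m' = orderOf g := Nat.ordProj_mul_ordCompl_eq_self (orderOf g) r
  have hcop : Nat.Coprime r m' := Nat.coprime_ordCompl hr (orderOf_pos g).ne'
  set v : G := g ^ (r ^ e) with hv
  have hvN : v ∈ N := N.pow_mem hg _
  have huR : g ^ m' ∈ (R : Subgroup G) := by
    apply mem_sylow_of_pelement_normalizer R e _ (N.pow_mem hg _)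
    rw [← pow_mul, mul_comm, hmul, pow_orderOf_eq_one]
  have hvC : v ∉ C := by
    intro h
    exact hgC (mem_of_pow_mem_of_coprime C g (r ^ e) m' (Nat.Coprime.pow_left e hcop) h
      (hRC huR))
  have hvm : v ^ m' = 1 := by rw [hv, ← pow_mul, hmul, pow_orderOf_eq_one]
  have hov : orderOf v ∣ m' := orderOf_dvd_of_pow_eq_one hvm
  set H : Subgroup G := Subgroup.zpowers v with hH
  have hHN : H ≤ N := by rw [hH, Subgroup.zpowers_le]; exact hvN
  have hdvd : C.relIndex H ∣ m' := by
    have h1 : C.relIndex H ∣ Nat.card ↥H := Subgroup.relIndex_dvd_card C H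
    rw [hH, Nat.card_zpowers] at h1
    exact h1.trans hov
  have hm'odd : Odd m' := by
    have : m' ∣ orderOf g := ⟨r ^ e, by rw [mul_comm]; exact hmul.symm⟩
    exact Odd.of_dvd_nat hodd this
  have hmodd : Odd (C.relIndex H) := Odd.of_dvd_nat hm'odd hdvd
  have hm1 : C.relIndex H ≠ 1 := by
    intro h
    exact hvC (Subgroup.relIndex_eq_one.mp h (Subgroup.mem_zpowers v))
  have hm3 : 3 ≤ C.relIndex H := by
    obtain ⟨t, ht⟩ := hmodd
    omega
  have hmr : C.relIndex H ≠ r := by
    intro h
    have : r ∣ m' := h ▸ hdvd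
    exact (Nat.Prime.coprime_iff_not_dvd hr).mp hcop this
  have := two_mul_card_pcl_le_of_relIndex hr2 R H hHN hm3 hmr
  omega

/-- the normal `r`-complement of a normal subgroup `K` of odd order, under the conclusions of
the counting lemmas -/
theorem exists_normal_r_complement_in [Finite G] {r : ℕ} [Fact r.Prime] (K : Subgroup G)
    [K.Normal] (hKodd : Odd (Nat.card ↥K)) (hKr : ¬ r ∣ K.index)
    (hab : ∀ R : Sylow r G, IsMulCommutative ↥(R : Subgroup G))
    (hNC : ∀ R : Sylow r G, ∀ g ∈ Subgroup.normalizer ((R : Subgroup G) : Set G),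
      Odd (orderOf g) → g ∈ Subgroup.centralizer ((R : Subgroup G) : Set G)) :
    ∃ M : Subgroup G, M.Normal ∧ M ≤ K ∧ ¬ r ∣ Nat.card ↥M ∧
      (∃ b : ℕ, M.index = K.index * r ^ b) ∧ ∀ x ∈ K, ∀ y ∈ K, x * y * x⁻¹ * y⁻¹ ∈ M := by
  have hr := (Fact.out : r.Prime)
  obtain ⟨R'⟩ : Nonempty (Sylow r ↥K) := inferInstance
  set R₀ : Subgroup G := (R' : Subgroup ↥K).map K.subtype with hR₀
  have hcardR₀ : Nat.card ↥R₀ = Nat.card ↥(R' : Subgroup ↥K) :=
    Subgroup.card_map_of_injective K.subtype_injective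
  have hfac : (Nat.card ↥K).factorization r = (Nat.card G).factorization r := by
    rw [← K.card_mul_index, Nat.factorization_mul Nat.card_pos.ne' Subgroup.index_ne_zero_of_finite,
      Finsupp.add_apply, Nat.factorization_eq_zero_of_not_dvd hKr, add_zero]
  have hcard : Nat.card ↥R₀ = r ^ (Nat.card G).factorization r := by
    rw [hcardR₀, Sylow.card_eq_multiplicity, hfac]
  set R : Sylow r G := Sylow.ofCard R₀ hcard with hR
  have hRcoe : (R : Subgroup G) = R₀ := Sylow.coe_ofCard R₀ hcard
  have hmemR₀ : ∀ x : ↥K, x.1 ∈ R₀ ↔ x ∈ (R' : Subgroup ↥K) := by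
    intro x
    rw [hR₀, Subgroup.mem_map]
    constructor
    · rintro ⟨y, hy, hyx⟩
      have : y = x := Subtype.ext hyx
      rwa [← this]
    · intro hx
      exact ⟨x, hx, rfl⟩
  have hR₀K : R₀ ≤ K := by
    rw [hR₀]
    exact Subgroup.map_subtype_le _
  have hKelt_odd : ∀ x : ↥K, Odd (orderOf x.1) := by
    intro x
    rw [Subgroup.orderOf_coe x]
    exact Odd.of_dvd_nat hKodd (orderOf_dvd_natCard x)
  have hP : Subgroup.normalizer ((R' : Subgroup ↥K) : Set ↥K) ≤
      Subgroup.centralizer ((R' : Subgroup ↥K) : Set ↥K) := by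
    intro x hx
    have hxN : x.1 ∈ Subgroup.normalizer ((R : Subgroup G) : Set G) := by
      rw [hRcoe, Subgroup.mem_normalizer_iff]
      intro h
      constructor
      · intro hh
        have hhK : h ∈ K := hR₀K hh
        have h1 := (Subgroup.mem_normalizer_iff.mp hx ⟨h, hhK⟩).mp ((hmemR₀ ⟨h, hhK⟩).mp hh)
        exact (hmemR₀ _).mpr h1
      · intro hh
        have hhK : h ∈ K := by
          have h1 : x.1 * h * x.1⁻¹ ∈ K := hR₀K hh
          have : h = x.1⁻¹ * (x.1 * h * x.1⁻¹) * x.1 := by group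
          rw [this]
          exact K.mul_mem (K.mul_mem (K.inv_mem x.2) h1) x.2
        have h2 : x * ⟨h, hhK⟩ * x⁻¹ ∈ (R' : Subgroup ↥K) :=
          (hmemR₀ (x * ⟨h, hhK⟩ * x⁻¹)).mp hh
        exact (hmemR₀ ⟨h, hhK⟩).mpr ((Subgroup.mem_normalizer_iff.mp hx ⟨h, hhK⟩).mpr h2)
    have hxC := hNC R x.1 hxN (hKelt_odd x)
    rw [hRcoe, Subgroup.mem_centralizer_iff] at hxC
    rw [Subgroup.mem_centralizer_iff]
    intro z hz
    exact Subtype.ext (hxC z.1 ((hmemR₀ z).mpr hz))
  set M' : Subgroup ↥K := (MonoidHom.transferSylow R' hP).ker with hM'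
  have hcompl : M'.IsComplement' (R' : Subgroup ↥K) :=
    MonoidHom.ker_transferSylow_isComplement' R' hP
  haveI hM'n : M'.Normal := MonoidHom.normal_ker _
  have hM'r : ¬ r ∣ Nat.card ↥M' := MonoidHom.not_dvd_card_ker_transferSylow R' hP
  have hmemM' : ∀ x : ↥K, x ∈ M' ↔ (orderOf x.1).Coprime r := by
    intro x
    constructor
    · intro hx
      have h2 : orderOf x ∣ Nat.card ↥M' := by
        have := orderOf_dvd_natCard (⟨x, hx⟩ : ↥M')
        rwa [Subgroup.orderOf_mk] at this
      rw [Subgroup.orderOf_coe x]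
      exact Nat.Coprime.coprime_dvd_left h2 ((Nat.Prime.coprime_iff_not_dvd hr).mpr hM'r).symm
    · intro hx
      rw [hM', MonoidHom.mem_ker]
      have h1 : orderOf (MonoidHom.transferSylow R' hP x) ∣ orderOf x := orderOf_map_dvd _ x
      have h2 : orderOf x = orderOf x.1 := (Subgroup.orderOf_coe x).symm
      obtain ⟨k, hk⟩ := IsPGroup.iff_orderOf.mp R'.isPGroup' (MonoidHom.transferSylow R' hP x)
      have h3 : orderOf (MonoidHom.transferSylow R' hP x) = 1 := by
        apply Nat.Coprime.eq_one_of_dvd _ h1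
        rw [hk, h2]
        exact Nat.Coprime.pow_left k hx.symm
      exact orderOf_eq_one_iff.mp h3
  set M : Subgroup G := M'.map K.subtype with hM
  have hmemM : ∀ x : G, x ∈ M ↔ x ∈ K ∧ (orderOf x).Coprime r := by
    intro x
    rw [hM, Subgroup.mem_map]
    constructor
    · rintro ⟨y, hy, rfl⟩
      exact ⟨y.2, (hmemM' y).mp hy⟩
    · rintro ⟨hxK, hx⟩
      exact ⟨⟨x, hxK⟩, (hmemM' ⟨x, hxK⟩).mpr hx, rfl⟩
  have hMn : M.Normal := by
    constructor
    intro x hx g
    rw [hmemM] at hx ⊢
    refine ⟨(inferInstance : K.Normal).conj_mem x hx.1 g, ?_⟩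
    rw [orderOf_conj_eq]
    exact hx.2
  have hcardM : Nat.card ↥M = Nat.card ↥M' :=
    Subgroup.card_map_of_injective K.subtype_injective
  refine ⟨M, hMn, fun x hx => ((hmemM x).mp hx).1, by rw [hcardM]; exact hM'r, ?_, ?_⟩
  · refine ⟨(Nat.card ↥K).factorization r, ?_⟩
    have h1 := hcompl.card_mul_card
    have h2 := M.card_mul_index
    have h3 := K.card_mul_index
    rw [hcardM] at h2
    rw [Sylow.card_eq_multiplicity] at h1
    have hpos : 0 < Nat.card ↥M' := Nat.card_pos
    apply Nat.eq_of_mul_eq_mul_left hpos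
    calc Nat.card ↥M' * M.index = Nat.card G := h2
      _ = Nat.card ↥K * K.index := h3.symm
      _ = (Nat.card ↥M' * r ^ (Nat.card ↥K).factorization r) * K.index := by rw [h1]
      _ = Nat.card ↥M' * (K.index * r ^ (Nat.card ↥K).factorization r) := by ring
  · intro x hx y hy
    have habR' : IsMulCommutative ↥(R' : Subgroup ↥K) := by
      haveI := hab R
      refine ⟨⟨fun a b => Subtype.ext (Subtype.ext ?_)⟩⟩
      have ha : a.1.1 ∈ (R : Subgroup G) := by rw [hRcoe]; exact (hmemR₀ a.1).mpr a.2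
      have hb : b.1.1 ∈ (R : Subgroup G) := by rw [hRcoe]; exact (hmemR₀ b.1).mpr b.2
      have h5 : a.1.1 * b.1.1 = b.1.1 * a.1.1 :=
        congrArg Subtype.val (mul_comm' (⟨a.1.1, ha⟩ : ↥(R : Subgroup G)) ⟨b.1.1, hb⟩)
      exact h5
    have h1 := commutator_mem_of_complement M' (R' : Subgroup ↥K) hcompl habR' ⟨x, hx⟩ ⟨y, hy⟩
    rw [hM, Subgroup.mem_map]
    exact ⟨_, h1, rfl⟩

end OddClassCount

end Cfsg.Agent.Lib.Helper69
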