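import Mathlib
import Cfsg.Agent.Lib.Helper69.MaxCentD

set_option autoImplicit false
open Cfsg
open scoped commutatorElement Pointwise

/-! A normal subgroup `N` of a finite group `G` such that the centralizer in `G` of every element
of `N` outside `Z(N)` is a maximal subgroup: basic lemmas and the case where all the subgroups
`C_N(x)` are normal (helper69). -/

namespace Cfsg.Agent.Lib.Helper69.RMC

open Cfsg.Agent.Lib.Helper69.MaxCent

variable {G : Type*} [Group G]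

/-- the relative hypothesis -/
def RMC (N : Subgroup G) : Prop :=
  ∀ x : G, x ∈ N → x ∉ Subgroup.centralizer (N : Set G) → IsCoatom (Cn x)

/-- `x` is of normal type: `C_N(x)` is normal in `G` -/
def NT (N : Subgroup G) (x : G) : Prop := (N ⊓ Cn x).Normal

theorem mem_centralizer_of_le_Cn {N : Subgroup G} {x : G} (h : N ≤ Cn x) :
    x ∈ Subgroup.centralizer (N : Set G) := by
  rw [Subgroup.mem_centralizer_iff]
  intro n hn
  exact mem_Cn.mp (h hn)

/-- Dedekind: a normal subgroup of `G` inside `N` lies in the maximal subgroup `C(x)` or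
supplements `C_N(x)` in `N` -/
theorem dedekind {N L : Subgroup G} [L.Normal] {x : G} (hco : IsCoatom (Cn x)) (hLN : L ≤ N)
    (hL : ¬ L ≤ Cn x) {n : G} (hn : n ∈ N) : ∃ l ∈ L, ∃ c ∈ N ⊓ Cn x, n = l * c := by
  have htop : L ⊔ Cn x = ⊤ :=
    hco.2 _ (lt_of_le_of_ne le_sup_right (fun he => hL (le_sup_left.trans he.ge)))
  have hn' : n ∈ L ⊔ Cn x := htop ▸ Subgroup.mem_top n
  obtain ⟨l, hl, c, hc, rfl⟩ := Subgroup.mem_sup_of_normal_left.mp hn'
  refine ⟨l, hl, c, ⟨?_, hc⟩, rfl⟩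
  have e : c = l⁻¹ * (l * c) := by group
  rw [e]
  exact N.mul_mem (N.inv_mem (hLN hl)) hn

theorem decomp {N : Subgroup G} [N.Normal] {x : G} (hco : IsCoatom (Cn x)) (hN : ¬ N ≤ Cn x)
    (g : G) : ∃ n ∈ N, ∃ m ∈ Cn x, g = n * m := by
  have htop : N ⊔ Cn x = ⊤ :=
    hco.2 _ (lt_of_le_of_ne le_sup_right (fun he => hN (le_sup_left.trans he.ge)))
  have hg : g ∈ N ⊔ Cn x := htop ▸ Subgroup.mem_top g
  obtain ⟨n, hn, m, hm, rfl⟩ := Subgroup.mem_sup_of_normal_left.mp hg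
  exact ⟨n, hn, m, hm, rfl⟩

theorem Cn_le_normalizer (N : Subgroup G) [hN : N.Normal] (x : G) :
    Cn x ≤ Subgroup.normalizer ((N ⊓ Cn x : Subgroup G) : Set G) := by
  intro m hm
  rw [Subgroup.mem_normalizer_iff]
  intro k
  constructor
  · intro hk
    obtain ⟨hkN, hk⟩ := Subgroup.mem_inf.mp hk
    exact Subgroup.mem_inf.mpr
      ⟨hN.conj_mem k hkN m, (Cn x).mul_mem ((Cn x).mul_mem hm hk) ((Cn x).inv_mem hm)⟩
  · intro hk
    obtain ⟨hkN, hk⟩ := Subgroup.mem_inf.mp hk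
    have e : k = m⁻¹ * (m * k * m⁻¹) * m := by group
    have h1 : m⁻¹ * (m * k * m⁻¹) * m ∈ N := by
      have := hN.conj_mem _ hkN m⁻¹
      simpa using this
    have h2 : m⁻¹ * (m * k * m⁻¹) * m ∈ Cn x :=
      (Cn x).mul_mem ((Cn x).mul_mem ((Cn x).inv_mem hm) hk) hm
    rw [e]
    exact Subgroup.mem_inf.mpr ⟨h1, h2⟩

/-- for `x` not of normal type, the normalizer of `C_N(x)` is `C(x)` -/
theorem mem_Cn_of_normalizes {N : Subgroup G} [N.Normal] {x : G} (hco : IsCoatom (Cn x))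
    (hxs : ¬ NT N x) {g : G}
    (hg : g ∈ Subgroup.normalizer ((N ⊓ Cn x : Subgroup G) : Set G)) : g ∈ Cn x := by
  rcases hco.le_iff.mp (Cn_le_normalizer N x) with h1 | h1
  · exact absurd (Subgroup.normalizer_eq_top_iff.mp h1) hxs
  · exact h1 ▸ hg

theorem mem_normalizer_of {N : Subgroup G} [hN : N.Normal] {x g : G}
    (h1 : ∀ c ∈ N, c ∈ Cn x → g * c * g⁻¹ ∈ Cn x)
    (h2 : ∀ c ∈ N, c ∈ Cn x → g⁻¹ * c * g ∈ Cn x) :
    g ∈ Subgroup.normalizer ((N ⊓ Cn x : Subgroup G) : Set G) := by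
  rw [Subgroup.mem_normalizer_iff]
  intro k
  constructor
  · intro hk
    obtain ⟨hkN, hk⟩ := Subgroup.mem_inf.mp hk
    exact Subgroup.mem_inf.mpr ⟨hN.conj_mem k hkN g, h1 k hkN hk⟩
  · intro hk
    obtain ⟨hkN, hk⟩ := Subgroup.mem_inf.mp hk
    have e : k = g⁻¹ * (g * k * g⁻¹) * g := by group
    have h3 : g⁻¹ * (g * k * g⁻¹) * g ∈ N := by
      have := hN.conj_mem _ hkN g⁻¹
      simpa using this
    rw [e]
    exact Subgroup.mem_inf.mpr ⟨h3, h2 _ hkN hk⟩

/-- the elements commuting with all conjugates of `a` -/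
def Tc (a : G) : Subgroup G where
  carrier := {t | ∀ g : G, t * (g * a * g⁻¹) = g * a * g⁻¹ * t}
  one_mem' := fun g => by simp
  mul_mem' := fun {s t} hs ht g => by
    calc s * t * (g * a * g⁻¹) = s * (t * (g * a * g⁻¹)) := mul_assoc _ _ _
      _ = s * (g * a * g⁻¹ * t) := by rw [ht g]
      _ = s * (g * a * g⁻¹) * t := (mul_assoc _ _ _).symm
      _ = g * a * g⁻¹ * s * t := by rw [hs g]
      _ = g * a * g⁻¹ * (s * t) := mul_assoc _ _ _
  inv_mem' := fun {t} ht g => by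
    have := ht g
    calc t⁻¹ * (g * a * g⁻¹) = t⁻¹ * (g * a * g⁻¹ * t) * t⁻¹ := by group
      _ = t⁻¹ * (t * (g * a * g⁻¹)) * t⁻¹ := by rw [this]
      _ = g * a * g⁻¹ * t⁻¹ := by group

theorem mem_Tc {a t : G} : t ∈ Tc a ↔ ∀ g : G, t * (g * a * g⁻¹) = g * a * g⁻¹ * t := Iff.rfl

instance Tc_normal (a : G) : (Tc a).Normal := ⟨fun t ht k => by
  rw [mem_Tc]
  intro g
  have := mem_Tc.mp ht (k⁻¹ * g)
  calc k * t * k⁻¹ * (g * a * g⁻¹) = k * (t * ((k⁻¹ * g) * a * (k⁻¹ * g)⁻¹)) * k⁻¹ := by group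
    _ = k * (((k⁻¹ * g) * a * (k⁻¹ * g)⁻¹) * t) * k⁻¹ := by rw [this]
    _ = g * a * g⁻¹ * (k * t * k⁻¹) := by group⟩

section Part1

variable {N : Subgroup G} [hN : N.Normal]

/-- in the normal-type case every element of `N` commutes with its conjugates -/
theorem comm_conj
    (hall : ∀ x ∈ N, x ∉ Subgroup.centralizer (N : Set G) → NT N x) {a : G} (ha : a ∈ N) (g : G) :
    a * (g * a * g⁻¹) = g * a * g⁻¹ * a := by
  by_cases haZ : a ∈ Subgroup.centralizer (N : Set G)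
  · exact (Subgroup.mem_centralizer_iff.mp haZ _ (hN.conj_mem a ha g)).symm
  · have h1 : (N ⊓ Cn a).Normal := hall a ha haZ
    have h2 := h1.conj_mem a (Subgroup.mem_inf.mpr ⟨ha, self_mem_Cn a⟩) g
    exact (mem_Cn.mp (Subgroup.mem_inf.mp h2).2).symm

theorem comm_mem_Cn (h : RMC N)
    (hall : ∀ x ∈ N, x ∉ Subgroup.centralizer (N : Set G) → NT N x)
    {x : G} (hxN : x ∈ N) (hx : x ∉ Subgroup.centralizer (N : Set G)) {a b : G} (ha : a ∈ N)
    (hb : b ∈ N) : ⁅a, b⁆ ∈ Cn x := by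
  have hD : (N ⊓ Cn x).Normal := hall x hxN hx
  by_cases haC : a ∈ Cn x
  · have h1 : b * a⁻¹ * b⁻¹ ∈ N ⊓ Cn x :=
      hD.conj_mem _ ((N ⊓ Cn x).inv_mem (Subgroup.mem_inf.mpr ⟨ha, haC⟩)) b
    have e : ⁅a, b⁆ = a * (b * a⁻¹ * b⁻¹) := by rw [commutatorElement_def]; group
    rw [e]
    exact (Cn x).mul_mem haC (Subgroup.mem_inf.mp h1).2
  · have haT : a ∈ Tc a := mem_Tc.mpr (fun g => comm_conj hall ha g)
    obtain ⟨l, hl, c, hc, rfl⟩ := dedekind (L := N ⊓ Tc a) (h x hxN hx) inf_le_left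
      (fun hle => haC (hle (Subgroup.mem_inf.mpr ⟨ha, haT⟩))) hb
    have hla : l * a = a * l := by
      have := mem_Tc.mp (Subgroup.mem_inf.mp hl).2 1
      simpa using this
    have h1 : a * c * a⁻¹ * c⁻¹ ∈ N ⊓ Cn x :=
      (N ⊓ Cn x).mul_mem (hD.conj_mem c hc a) ((N ⊓ Cn x).inv_mem hc)
    have h2 := hD.conj_mem _ h1 l
    have e : ⁅a, l * c⁆ = l * (a * c * a⁻¹ * c⁻¹) * l⁻¹ := by
      rw [commutatorElement_def]
      calc a * (l * c) * a⁻¹ * (l * c)⁻¹ = (a * l) * c * a⁻¹ * c⁻¹ * l⁻¹ := by group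
        _ = (l * a) * c * a⁻¹ * c⁻¹ * l⁻¹ := by rw [hla]
        _ = l * (a * c * a⁻¹ * c⁻¹) * l⁻¹ := by group
    rw [e]
    exact (Subgroup.mem_inf.mp h2).2

theorem comm_central (h : RMC N)
    (hall : ∀ x ∈ N, x ∉ Subgroup.centralizer (N : Set G) → NT N x) {a b : G} (ha : a ∈ N)
    (hb : b ∈ N) : ⁅a, b⁆ ∈ Subgroup.centralizer (N : Set G) := by
  rw [Subgroup.mem_centralizer_iff]
  intro n hn
  by_cases hnZ : n ∈ Subgroup.centralizer (N : Set G)
  · have hc : ⁅a, b⁆ ∈ N := by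
      rw [commutatorElement_def]
      exact N.mul_mem (N.mul_mem (N.mul_mem ha hb) (N.inv_mem ha)) (N.inv_mem hb)
    exact (Subgroup.mem_centralizer_iff.mp hnZ _ hc).symm
  · exact (mem_Cn.mp (comm_mem_Cn h hall hn hnZ ha hb)).symm

end Part1

theorem conj_pow_eq {n x : G} (h1 : n * ⁅n, x⁆ = ⁅n, x⁆ * n) (k : ℕ) :
    n ^ k * x * (n ^ k)⁻¹ = ⁅n, x⁆ ^ k * x := by
  have hconj : n * x * n⁻¹ = ⁅n, x⁆ * x := by
    rw [commutatorElement_def]; group
  induction k with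
  | zero => simp
  | succ k ih =>
    have e : n ^ (k + 1) * x * (n ^ (k + 1))⁻¹ = n * (n ^ k * x * (n ^ k)⁻¹) * n⁻¹ := by
      rw [pow_succ']; group
    rw [e, ih]
    have e2 : n * (⁅n, x⁆ ^ k * x) * n⁻¹ = (n * ⁅n, x⁆ ^ k * n⁻¹) * (n * x * n⁻¹) := by group
    have hcn : n * ⁅n, x⁆ ^ k = ⁅n, x⁆ ^ k * n :=
      (Commute.pow_right (show Commute n ⁅n, x⁆ from h1) k).eq
    rw [e2, hcn, mul_inv_cancel_right, hconj, ← mul_assoc, ← pow_succ]

theorem conj_pow_eq' {n x : G} (h2 : ⁅n, x⁆ * x = x * ⁅n, x⁆) (k : ℕ) :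
    n * x ^ k * n⁻¹ = ⁅n, x⁆ ^ k * x ^ k := by
  have hconj : n * x * n⁻¹ = ⁅n, x⁆ * x := by
    rw [commutatorElement_def]; group
  rw [← conj_pow, hconj, Commute.mul_pow (show Commute ⁅n, x⁆ x from h2)]

/-- in the class-two situation every element of `N` outside `Z(N)` has prime order modulo
`Z(N)` -/
theorem exists_prime_pow [Finite G] {N : Subgroup G} (h : RMC N)
    (hcc : ∀ a ∈ N, ∀ b ∈ N, ⁅a, b⁆ ∈ Subgroup.centralizer (N : Set G)) {x : G} (hxN : x ∈ N)
    (hx : x ∉ Subgroup.centralizer (N : Set G)) :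
    ∃ r : ℕ, r.Prime ∧ x ^ r ∈ Subgroup.centralizer (N : Set G) := by
  classical
  have hex : ∃ k : ℕ, 0 < k ∧ x ^ k ∈ Subgroup.centralizer (N : Set G) :=
    ⟨orderOf x, orderOf_pos x, by rw [pow_orderOf_eq_one]; exact Subgroup.one_mem _⟩
  obtain ⟨ho0, hoZ⟩ := Nat.find_spec hex
  have hmin : ∀ m : ℕ, m < Nat.find hex →
      ¬ (0 < m ∧ x ^ m ∈ Subgroup.centralizer (N : Set G)) := fun m hm => Nat.find_min hex hm
  set o := Nat.find hex with ho
  have ho1 : o ≠ 1 := by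
    intro e
    rw [e, pow_one] at hoZ
    exact hx hoZ
  have hr : o.minFac.Prime := Nat.minFac_prime ho1
  obtain ⟨m, hm⟩ := Nat.minFac_dvd o
  have hm0 : 0 < m := by
    rcases Nat.eq_zero_or_pos m with h0 | h0
    · rw [h0, mul_zero] at hm
      omega
    · exact h0
  have hmo : m < o := by
    have h2 := hr.two_le
    nlinarith
  have hyN : x ^ m ∈ N := N.pow_mem hxN m
  have hyZ : x ^ m ∉ Subgroup.centralizer (N : Set G) := fun hc => hmin m hmo ⟨hm0, hc⟩
  have hyr : (x ^ m) ^ o.minFac ∈ Subgroup.centralizer (N : Set G) := by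
    rw [← pow_mul, mul_comm, ← hm]
    exact hoZ
  have hC : Cn (x ^ m) = Cn x :=
    ((h x hxN hx).le_iff_eq (h _ hyN hyZ).1).mp (Cn_le_Cn_pow x m)
  refine ⟨o.minFac, hr, ?_⟩
  rw [Subgroup.mem_centralizer_iff]
  intro n hn
  -- the commutator with `y = x ^ m`
  have hcZ := Subgroup.mem_centralizer_iff.mp (hcc n hn _ hyN)
  have h1 : n * ⁅n, x ^ m⁆ = ⁅n, x ^ m⁆ * n := hcZ n hn
  have h2 : ⁅n, x ^ m⁆ * x ^ m = x ^ m * ⁅n, x ^ m⁆ := (hcZ _ hyN).symm
  have e1 := conj_pow_eq' h2 o.minFac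
  have e2 : n * (x ^ m) ^ o.minFac * n⁻¹ = (x ^ m) ^ o.minFac := by
    rw [Subgroup.mem_centralizer_iff.mp hyr n hn, mul_inv_cancel_right]
  have hc1 : ⁅n, x ^ m⁆ ^ o.minFac = 1 := by
    rw [e2] at e1
    have : 1 * (x ^ m) ^ o.minFac = ⁅n, x ^ m⁆ ^ o.minFac * (x ^ m) ^ o.minFac := by
      rw [one_mul]; exact e1
    exact (mul_right_cancel this).symm
  have e3 := conj_pow_eq (x := x ^ m) h1 o.minFac
  rw [hc1, one_mul] at e3
  have hnr : n ^ o.minFac ∈ Cn x := by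
    rw [← hC, mem_Cn]
    calc n ^ o.minFac * x ^ m = (n ^ o.minFac * x ^ m * (n ^ o.minFac)⁻¹) * n ^ o.minFac := by group
      _ = x ^ m * n ^ o.minFac := by rw [e3]
  -- the commutator with `x`
  have hcZ' := Subgroup.mem_centralizer_iff.mp (hcc n hn x hxN)
  have h1' : n * ⁅n, x⁆ = ⁅n, x⁆ * n := hcZ' n hn
  have h2' : ⁅n, x⁆ * x = x * ⁅n, x⁆ := (hcZ' x hxN).symm
  have e4 := conj_pow_eq (x := x) h1' o.minFac
  have e5 : n ^ o.minFac * x * (n ^ o.minFac)⁻¹ = x := by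
    rw [mem_Cn.mp hnr, mul_inv_cancel_right]
  have hc2 : ⁅n, x⁆ ^ o.minFac = 1 := by
    rw [e5] at e4
    have : 1 * x = ⁅n, x⁆ ^ o.minFac * x := by rw [one_mul]; exact e4
    exact (mul_right_cancel this).symm
  have e6 := conj_pow_eq' h2' o.minFac
  rw [hc2, one_mul] at e6
  calc n * x ^ o.minFac = (n * x ^ o.minFac * n⁻¹) * n := by group
    _ = x ^ o.minFac * n := by rw [e6]

/-- a commutative finite group all of whose non-identity elements have prime order has prime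
exponent -/
theorem exists_prime_exponent {Q : Type*} [Group Q] [Finite Q] (hc : ∀ a b : Q, a * b = b * a)
    (hpr : ∀ a : Q, a ≠ 1 → ∃ p : ℕ, p.Prime ∧ a ^ p = 1) :
    ∃ p : ℕ, p.Prime ∧ ∀ a : Q, a ^ p = 1 := by
  by_cases hne : ∃ x₀ : Q, x₀ ≠ 1
  · obtain ⟨x₀, hx₀⟩ := hne
    obtain ⟨p, hp, hxp⟩ := hpr x₀ hx₀
    refine ⟨p, hp, ?_⟩
    intro y
    by_cases hy : y = 1
    · rw [hy, one_pow]
    obtain ⟨q, hq, hyq⟩ := hpr y hy
    by_cases hpq : q = p
    · rw [← hpq]; exact hyq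
    exfalso
    have o1 : orderOf x₀ = p :=
      ((Nat.dvd_prime hp).mp (orderOf_dvd_of_pow_eq_one hxp)).resolve_left
        (fun h0 => hx₀ (orderOf_eq_one_iff.mp h0))
    have o2 : orderOf y = q :=
      ((Nat.dvd_prime hq).mp (orderOf_dvd_of_pow_eq_one hyq)).resolve_left
        (fun h0 => hy (orderOf_eq_one_iff.mp h0))
    have hcop : Nat.Coprime (orderOf x₀) (orderOf y) := by
      rw [o1, o2]
      exact (Nat.coprime_primes hp hq).mpr (fun e => hpq e.symm)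
    have o3 := Commute.orderOf_mul_eq_mul_orderOf_of_coprime (show Commute x₀ y from hc _ _) hcop
    rw [o1, o2] at o3
    have hxy : x₀ * y ≠ 1 := by
      intro h1
      rw [h1, orderOf_one] at o3
      have := hp.two_le
      have := hq.two_le
      nlinarith
    obtain ⟨r, hr, hxyr⟩ := hpr _ hxy
    have hd := orderOf_dvd_of_pow_eq_one hxyr
    rw [o3] at hd
    have e1 := (Nat.prime_dvd_prime_iff_eq hp hr).mp (dvd_trans (dvd_mul_right p q) hd)
    have e2 := (Nat.prime_dvd_prime_iff_eq hq hr).mp (dvd_trans (dvd_mul_left q p) hd)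
    exact hpq (e2.trans e1.symm)
  · push Not at hne
    exact ⟨2, Nat.prime_two, fun a => by rw [hne a, one_pow]⟩

theorem mem_center_sub_iff {N : Subgroup G} (a : ↥N) :
    a ∈ Subgroup.center ↥N ↔ (a : G) ∈ Subgroup.centralizer (N : Set G) := by
  rw [Subgroup.mem_center_iff, Subgroup.mem_centralizer_iff]
  constructor
  · intro h n hn
    exact congrArg Subtype.val (h ⟨n, hn⟩)
  · intro h n
    exact Subtype.ext (h n.1 n.2)

/-- **Part 1**: if all `C_N(x)` are normal, then `N / Z(N)` is elementary abelian -/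
theorem part1 [Finite G] {N : Subgroup G} [N.Normal] (h : RMC N)
    (hall : ∀ x ∈ N, x ∉ Subgroup.centralizer (N : Set G) → NT N x) :
    ∃ p : ℕ, p.Prime ∧ IsElementaryAbelian p (⊤ : Subgroup (↥N ⧸ Subgroup.center ↥N)) := by
  have hcc : ∀ a ∈ N, ∀ b ∈ N, ⁅a, b⁆ ∈ Subgroup.centralizer (N : Set G) :=
    fun a ha b hb => comm_central h hall ha hb
  have hQc : ∀ a b : ↥N ⧸ Subgroup.center ↥N, a * b = b * a := by
    intro a b
    induction a using QuotientGroup.induction_on with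
    | H a =>
      induction b using QuotientGroup.induction_on with
      | H b =>
        rw [← QuotientGroup.mk_mul, ← QuotientGroup.mk_mul, QuotientGroup.eq, mem_center_sub_iff]
        have e : (((a * b)⁻¹ * (b * a) : ↥N) : G) = ⁅(b : G)⁻¹, (a : G)⁻¹⁆ := by
          rw [commutatorElement_def]
          push_cast
          group
        rw [e]
        exact hcc _ (N.inv_mem b.2) _ (N.inv_mem a.2)
  have hpr : ∀ q : ↥N ⧸ Subgroup.center ↥N, q ≠ 1 → ∃ p : ℕ, p.Prime ∧ q ^ p = 1 := by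
    intro q hq
    induction q using QuotientGroup.induction_on with
    | H a =>
      have ha : (a : G) ∉ Subgroup.centralizer (N : Set G) := by
        intro hc
        exact hq ((QuotientGroup.eq_one_iff a).mpr ((mem_center_sub_iff a).mpr hc))
      obtain ⟨r, hr, hxr⟩ := exists_prime_pow h hcc a.2 ha
      refine ⟨r, hr, ?_⟩
      rw [← QuotientGroup.mk_pow, QuotientGroup.eq_one_iff, mem_center_sub_iff]
      exact hxr
  obtain ⟨p, hp, hexp⟩ := exists_prime_exponent hQc hpr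
  exact ⟨p, hp, ⟨⟨fun a b => Subtype.ext (hQc a b)⟩⟩, fun a _ => hexp a⟩

/-- if some `C_N(x₀)` is not normal, then `Z(N)` is central in `G` -/
theorem center_of_stype {N : Subgroup G} [hN : N.Normal] (h : RMC N) {x₀ : G} (hx₀N : x₀ ∈ N)
    (hx₀ : x₀ ∉ Subgroup.centralizer (N : Set G)) (hs : ¬ NT N x₀) :
    ∀ z : G, z ∈ N → z ∈ Subgroup.centralizer (N : Set G) → z ∈ Subgroup.center G := by
  intro z hzN hz
  have hzc : ∀ n ∈ N, n * z = z * n := Subgroup.mem_centralizer_iff.mp hz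
  have hw : x₀ * z ∉ Subgroup.centralizer (N : Set G) := by
    intro hc
    apply hx₀
    have := Subgroup.mul_mem _ hc (Subgroup.inv_mem _ hz)
    simpa using this
  have key : ∀ k ∈ N, (k ∈ Cn x₀ ↔ k ∈ Cn (x₀ * z)) := by
    intro k hk
    rw [mem_Cn, mem_Cn]
    have hkz := hzc k hk
    constructor
    · intro h1
      calc k * (x₀ * z) = (k * x₀) * z := (mul_assoc _ _ _).symm
        _ = (x₀ * k) * z := by rw [h1]
        _ = x₀ * (k * z) := mul_assoc _ _ _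
        _ = x₀ * (z * k) := by rw [hkz]
        _ = x₀ * z * k := (mul_assoc _ _ _).symm
    · intro h1
      have e : k * x₀ * z = x₀ * k * z := by
        calc k * x₀ * z = k * (x₀ * z) := mul_assoc _ _ _
          _ = x₀ * z * k := h1
          _ = x₀ * (z * k) := mul_assoc _ _ _
          _ = x₀ * (k * z) := by rw [hkz]
          _ = x₀ * k * z := (mul_assoc _ _ _).symm
      exact mul_right_cancel e
  have hle : Cn (x₀ * z) ≤ Cn x₀ := by
    intro m hm
    apply mem_Cn_of_normalizes (h x₀ hx₀N hx₀) hs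
    apply mem_normalizer_of
    · intro c hcN hc
      have hc' : c ∈ Cn (x₀ * z) := (key c hcN).mp hc
      have h3 : m * c * m⁻¹ ∈ Cn (x₀ * z) :=
        (Cn _).mul_mem ((Cn _).mul_mem hm hc') ((Cn _).inv_mem hm)
      exact (key _ (hN.conj_mem c hcN m)).mpr h3
    · intro c hcN hc
      have hc' : c ∈ Cn (x₀ * z) := (key c hcN).mp hc
      have h3 : m⁻¹ * c * m ∈ Cn (x₀ * z) :=
        (Cn _).mul_mem ((Cn _).mul_mem ((Cn _).inv_mem hm) hc') hm
      have h4 : m⁻¹ * c * m ∈ N := by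
        have := hN.conj_mem c hcN m⁻¹
        simpa using this
      exact (key _ h4).mpr h3
  have heq : Cn x₀ = Cn (x₀ * z) :=
    ((h _ (N.mul_mem hx₀N hzN) hw).le_iff_eq (h x₀ hx₀N hx₀).1).mp hle
  rw [Subgroup.mem_center_iff]
  intro g
  obtain ⟨n, hn, m, hm, rfl⟩ := decomp (h x₀ hx₀N hx₀)
    (fun hle => hx₀ (mem_centralizer_of_le_Cn hle)) g
  have hm' : m ∈ Cn (x₀ * z) := heq ▸ hm
  rw [mem_Cn] at hm hm'
  have hmz : m * z = z * m := by
    have e : x₀ * (m * z) = x₀ * (z * m) := by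
      calc x₀ * (m * z) = (x₀ * m) * z := (mul_assoc _ _ _).symm
        _ = (m * x₀) * z := by rw [hm]
        _ = m * (x₀ * z) := mul_assoc _ _ _
        _ = x₀ * z * m := hm'
        _ = x₀ * (z * m) := mul_assoc _ _ _
    exact mul_left_cancel e
  calc n * m * z = n * (m * z) := mul_assoc _ _ _
    _ = n * (z * m) := by rw [hmz]
    _ = (n * z) * m := (mul_assoc _ _ _).symm
    _ = (z * n) * m := by rw [hzc n hn]
    _ = z * (n * m) := mul_assoc _ _ _

end Cfsg.Agent.Lib.Helper69.RMC
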