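import Mathlib
import Cfsg.Agent.Lib.Helper69.RelMaxCentA

set_option autoImplicit false
open Cfsg
open scoped commutatorElement Pointwise

/-! A normal subgroup `N` whose non-central elements have maximal centralizers in `G`, in the
situation where `Z(N) ≤ Z(G)`: relative versions of the basic lemmas and the Sylow property of
non-normal `C_N(x)` (helper69). -/

namespace Cfsg.Agent.Lib.Helper69.RMC

open Cfsg.Agent.Lib.Helper69.MaxCent

variable {G : Type*} [Group G]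

/-- the hypothesis, relative to the centre of `G` -/
def RM (N : Subgroup G) : Prop :=
  ∀ x : G, x ∈ N → x ∉ Subgroup.center G → IsCoatom (Cn x)

/-- the centre of `N` is central in `G` -/
def ZC (N : Subgroup G) : Prop :=
  ∀ z : G, z ∈ N → z ∈ Subgroup.centralizer (N : Set G) → z ∈ Subgroup.center G

theorem Cn_ne_top {y : G} (hy : y ∉ Subgroup.center G) : Cn y ≠ ⊤ := by
  intro h0
  apply hy
  rw [Subgroup.mem_center_iff]
  intro g
  exact mem_Cn.mp (h0 ▸ Subgroup.mem_top g)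

theorem Cn_eq_of_le' {x y : G} (hx : IsCoatom (Cn x)) (hy : y ∉ Subgroup.center G)
    (hle : Cn x ≤ Cn y) : Cn x = Cn y :=
  ((hx.le_iff_eq (Cn_ne_top hy)).mp hle).symm

theorem rpow_mem_center_of {N : Subgroup G} (h : RM N) {u v : G} (huN : u ∈ N) (hvN : v ∈ N)
    (hu : u ∉ Subgroup.center G)
    (hv : v ∉ Subgroup.center G) (huv : u * v = v * u) (hne : Cn u ≠ Cn v) (n : ℕ)
    (hn : u ^ n ∈ Subgroup.center G) : v ^ n ∈ Subgroup.center G := by
  by_contra hvn
  have h1 : Cn v = Cn (v ^ n) := Cn_eq_of_le' (h v hvN hv) hvn (Cn_le_Cn_pow v n)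
  have hw : u * v ∉ Subgroup.center G := by
    intro hw
    apply hne
    have hle : Cn u ≤ Cn v := by
      intro k hk
      rw [mem_Cn] at hk ⊢
      have hkw := Subgroup.mem_center_iff.mp hw k
      have e : u * (k * v) = u * (v * k) := by
        calc u * (k * v) = (u * k) * v := (mul_assoc _ _ _).symm
          _ = (k * u) * v := by rw [hk]
          _ = k * (u * v) := mul_assoc _ _ _
          _ = u * v * k := hkw
          _ = u * (v * k) := mul_assoc _ _ _
      exact mul_left_cancel e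
    exact Cn_eq_of_le' (h u huN hu) hv hle
  have hwn : (u * v) ^ n = u ^ n * v ^ n := Commute.mul_pow (show Commute u v from huv) n
  have h2 : Cn (u * v) ≤ Cn (v ^ n) := by
    intro k hk
    rw [mem_Cn] at hk ⊢
    have h3 : k * (u * v) ^ n = (u * v) ^ n * k := (Commute.pow_right (show Commute k _ from hk) n).eq
    rw [hwn] at h3
    have hc := Subgroup.mem_center_iff.mp hn k
    have e : u ^ n * (k * v ^ n) = u ^ n * (v ^ n * k) := by
      calc u ^ n * (k * v ^ n) = (u ^ n * k) * v ^ n := (mul_assoc _ _ _).symm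
        _ = (k * u ^ n) * v ^ n := by rw [hc]
        _ = k * (u ^ n * v ^ n) := mul_assoc _ _ _
        _ = u ^ n * v ^ n * k := h3
        _ = u ^ n * (v ^ n * k) := mul_assoc _ _ _
    exact mul_left_cancel e
  have h4 : Cn (u * v) = Cn v := by
    rw [h1]
    exact Cn_eq_of_le' (h _ (N.mul_mem huN hvN) hw) hvn h2
  apply hne
  have hle : Cn v ≤ Cn u := by
    intro k hk
    have hk' : k ∈ Cn (u * v) := h4 ▸ hk
    rw [mem_Cn] at hk hk' ⊢
    have e : k * u * v = u * k * v := by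
      calc k * u * v = k * (u * v) := mul_assoc _ _ _
        _ = u * v * k := hk'
        _ = u * (v * k) := mul_assoc _ _ _
        _ = u * (k * v) := by rw [hk]
        _ = u * k * v := (mul_assoc _ _ _).symm
    exact mul_right_cancel e
  exact (Cn_eq_of_le' (h v hvN hv) hu hle).symm

/-- **Lemma P**, relative version -/
theorem rlemmaP [Finite G] {N : Subgroup G} (h : RM N) {u v : G} (huN : u ∈ N) (hvN : v ∈ N)
    (hu : u ∉ Subgroup.center G) (hv : v ∉ Subgroup.center G) (huv : u * v = v * u)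
    (hne : Cn u ≠ Cn v) :
    ∃ r : ℕ, r.Prime ∧ u ^ r ∈ Subgroup.center G ∧ v ^ r ∈ Subgroup.center G := by
  set a := orderOf (u : G ⧸ Subgroup.center G) with ha
  have ha1 : a ≠ 1 := orderOf_mk_ne_one hu
  have ha0 : 0 < a := orderOf_pos _
  have hr : a.minFac.Prime := Nat.minFac_prime ha1
  obtain ⟨m, hm⟩ := Nat.minFac_dvd a
  have hm0 : 0 < m := by
    rcases Nat.eq_zero_or_pos m with h0 | h0
    · rw [h0, mul_zero] at hm
      omega
    · exact h0
  have hm1 : m = 1 := by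
    by_contra hm1
    have hu' : u ^ m ∉ Subgroup.center G := by
      intro hc
      rw [pow_mem_center_iff, ← ha] at hc
      have := Nat.le_of_dvd hm0 hc
      have h2 := hr.two_le
      nlinarith
    have hcomm : u ^ m * v = v * u ^ m := ((Commute.pow_left (show Commute u v from huv) m).eq)
    have hC : Cn (u ^ m) = Cn u := (Cn_eq_of_le' (h u huN hu) hu' (Cn_le_Cn_pow u m)).symm
    have hne' : Cn (u ^ m) ≠ Cn v := hC ▸ hne
    have h1 : (u ^ m) ^ a.minFac ∈ Subgroup.center G := by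
      rw [← pow_mul, pow_mem_center_iff, ← ha, mul_comm, ← hm]
    have h2 := rpow_mem_center_of h (N.pow_mem huN m) hvN hu' hv hcomm hne' _ h1
    have h3 := rpow_mem_center_of h hvN huN hv hu huv.symm hne.symm _ h2
    rw [pow_mem_center_iff, ← ha] at h3
    have h4 := Nat.le_of_dvd hr.pos h3
    have h5 : 2 ≤ m := by omega
    have h6 := hr.two_le
    nlinarith
  rw [hm1, mul_one] at hm
  have h1 : u ^ a.minFac ∈ Subgroup.center G := by
    rw [pow_mem_center_iff, ← ha, ← hm]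
  exact ⟨a.minFac, hr, h1, rpow_mem_center_of h huN hvN hu hv huv hne _ h1⟩

theorem Cn_eq_of_mem_Zc' {x y : G} (hco : IsCoatom (Cn x)) (hy : y ∈ Zc x)
    (hyZ : y ∉ Subgroup.center G) : Cn y = Cn x := by
  refine (Cn_eq_of_le' hco hyZ ?_).symm
  intro m hm
  rw [mem_Cn]
  exact Subgroup.mem_centralizer_iff.mp hy m hm

/-- if `C_N(u)` is not contained in the centre of `C(u)`, it has prime exponent modulo the
centre -/
theorem rexp [Finite G] {N : Subgroup G} (h : RM N) {u y₀ : G} (huN : u ∈ N)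
    (hu : u ∉ Subgroup.center G) (hy₀N : y₀ ∈ N) (hy₀ : y₀ ∈ Cn u) (hy₀A : y₀ ∉ Zc u) :
    ∃ p : ℕ, p.Prime ∧ ∀ m ∈ N, m ∈ Cn u → m ^ p ∈ Subgroup.center G := by
  have hy₀Z : y₀ ∉ Subgroup.center G := fun hc => hy₀A (center_le_Zc u hc)
  have hne : Cn u ≠ Cn y₀ := (Cn_ne_of_not_mem_Zc hy₀A).symm
  obtain ⟨p, hp, hup, hyp⟩ := rlemmaP h huN hy₀N hu hy₀Z (mem_Cn.mp hy₀).symm hne
  refine ⟨p, hp, ?_⟩
  intro m hmN hm
  by_cases hmZ : m ∈ Subgroup.center G
  · exact Subgroup.pow_mem _ hmZ p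
  by_cases hmA : m ∈ Zc u
  · have hCm : Cn m = Cn u := Cn_eq_of_mem_Zc' (h u huN hu) hmA hmZ
    have hcomm : m * y₀ = y₀ * m := (Subgroup.mem_centralizer_iff.mp hmA y₀ hy₀).symm
    obtain ⟨r, hr, hmr, hyr⟩ := rlemmaP h hmN hy₀N hmZ hy₀Z hcomm (hCm ▸ hne)
    have := prime_unique hy₀Z hp hr hyp hyr
    rw [this]
    exact hmr
  · have hne' : Cn u ≠ Cn m := (Cn_ne_of_not_mem_Zc hmA).symm
    obtain ⟨r, hr, hur, hmr⟩ := rlemmaP h huN hmN hu hmZ (mem_Cn.mp hm).symm hne'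
    have := prime_unique hu hp hr hup hur
    rw [this]
    exact hmr

theorem not_le_Cn {N : Subgroup G} (hZ : ZC N) {x : G} (hxN : x ∈ N)
    (hx : x ∉ Subgroup.center G) : ¬ N ≤ Cn x :=
  fun hle => hx (hZ x hxN (mem_centralizer_of_le_Cn hle))

theorem not_normal_of_stype {N : Subgroup G} [N.Normal] {x : G} (hs : ¬ NT N x) :
    ¬ (Cn x).Normal := by
  intro hn
  apply hs
  haveI := hn
  exact (inferInstance : (N ⊓ Cn x).Normal)

theorem inf_Cn_conj {N : Subgroup G} [hN : N.Normal] {u : G} (hn : NT N u) (g : G) :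
    N ⊓ Cn (g * u * g⁻¹) = N ⊓ Cn u := by
  ext k
  rw [Subgroup.mem_inf, Subgroup.mem_inf, mem_Cn_conj]
  constructor
  · rintro ⟨hkN, hk⟩
    have h0 : g⁻¹ * k * g ∈ N := by
      have := hN.conj_mem k hkN g⁻¹
      simpa using this
    have h1 : g⁻¹ * k * g ∈ N ⊓ Cn u := Subgroup.mem_inf.mpr ⟨h0, hk⟩
    have h2 := (show (N ⊓ Cn u).Normal from hn).conj_mem _ h1 g
    have e : g * (g⁻¹ * k * g) * g⁻¹ = k := by group
    rw [e] at h2
    exact Subgroup.mem_inf.mp h2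
  · rintro ⟨hkN, hk⟩
    have h2 := (show (N ⊓ Cn u).Normal from hn).conj_mem _ (Subgroup.mem_inf.mpr ⟨hkN, hk⟩) g⁻¹
    rw [inv_inv] at h2
    exact ⟨hkN, (Subgroup.mem_inf.mp h2).2⟩

theorem NT_conj {N : Subgroup G} [N.Normal] {u : G} (hn : NT N u) (g : G) :
    NT N (g * u * g⁻¹) := by
  unfold NT
  rw [inf_Cn_conj hn g]
  exact hn

theorem stype_conj {N : Subgroup G} [N.Normal] {x : G} (hs : ¬ NT N x) (g : G) :
    ¬ NT N (g * x * g⁻¹) := by
  intro hn
  apply hs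
  have := NT_conj hn g⁻¹
  have e : g⁻¹ * (g * x * g⁻¹) * g⁻¹⁻¹ = x := by group
  rwa [e] at this

/-- relative version of `ti` -/
theorem rti {N : Subgroup G} (h : RM N) {x : G} (hxN : x ∈ N) (hx : x ∉ Subgroup.center G)
    (hn : ¬ (Cn x).Normal) {g a : G}
    (hg : g ∉ Cn x) (ha : a ∈ Zc x) (hga : g * a * g⁻¹ ∈ Zc x) : a ∈ Subgroup.center G := by
  by_contra haZ
  have h1 : Cn a = Cn x := Cn_eq_of_mem_Zc' (h x hxN hx) ha haZ
  have h2 : Cn (g * a * g⁻¹) = Cn x :=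
    Cn_eq_of_mem_Zc' (h x hxN hx) hga (conj_not_mem_center haZ g)
  apply hg
  have h3 : g⁻¹ ∈ Subgroup.normalizer ((Cn x : Subgroup G) : Set G) := by
    rw [Subgroup.mem_normalizer_iff]
    intro k
    rw [inv_inv]
    constructor
    · intro hk
      have hk' : k ∈ Cn (g * a * g⁻¹) := h2 ▸ hk
      rw [mem_Cn_conj] at hk'
      exact h1 ▸ hk'
    · intro hk
      have hk' : g⁻¹ * k * g ∈ Cn a := h1 ▸ hk
      rw [← mem_Cn_conj] at hk'
      exact h2 ▸ hk'
  have h4 := mem_of_normalizes (h x hxN hx) hn h3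
  simpa using (Cn x).inv_mem h4

/-! ### The quotient `N / Z(N)` -/

/-- the image in `N / Z(N)` of a subgroup of `G` -/
def img (N S : Subgroup G) : Subgroup (↥N ⧸ Subgroup.center ↥N) :=
  (S.subgroupOf N).map (QuotientGroup.mk' (Subgroup.center ↥N))

theorem mem_center_sub {N : Subgroup G} (hZ : ZC N) (a : ↥N) :
    a ∈ Subgroup.center ↥N ↔ (a : G) ∈ Subgroup.center G := by
  rw [mem_center_sub_iff]
  exact ⟨hZ _ a.2, fun h => Subgroup.center_le_centralizer _ h⟩

theorem mk_eq_one {N : Subgroup G} (hZ : ZC N) (a : ↥N) :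
    ((a : ↥N ⧸ Subgroup.center ↥N) = 1) ↔ (a : G) ∈ Subgroup.center G := by
  rw [QuotientGroup.eq_one_iff, mem_center_sub hZ]

theorem mk_mem_img {N : Subgroup G} (hZ : ZC N) {S : Subgroup G} (hS : Subgroup.center G ≤ S)
    (a : ↥N) : (a : ↥N ⧸ Subgroup.center ↥N) ∈ img N S ↔ (a : G) ∈ S := by
  have hle : Subgroup.center ↥N ≤ S.subgroupOf N := fun z hz => by
    rw [Subgroup.mem_subgroupOf]
    exact hS ((mem_center_sub hZ z).mp hz)
  unfold img
  rw [mk_mem_map hle, Subgroup.mem_subgroupOf]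

/-- a self-normalizing subgroup of a `p`-group is the whole group -/
theorem selfnorm_le {H : Type*} [Group H] [Finite H] {p : ℕ} [Fact p.Prime] {P R : Subgroup H}
    (hR : IsPGroup p R) (hle : P ≤ R)
    (hsn : ∀ g ∈ R, (∀ a, a ∈ P ↔ g * a * g⁻¹ ∈ P) → g ∈ P) : R ≤ P := by
  by_contra hne
  have hlt : P.subgroupOf R < ⊤ := by
    rw [lt_top_iff_ne_top, Ne, Subgroup.subgroupOf_eq_top]
    exact hne
  haveI : Group.IsNilpotent R := hR.isNilpotent
  have hnc := normalizerCondition_of_isNilpotent (G := R) _ hlt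
  obtain ⟨x, hx, hxP⟩ := SetLike.exists_of_lt hnc
  apply hxP
  rw [Subgroup.mem_subgroupOf]
  apply hsn x.1 x.2
  intro a
  by_cases ha : a ∈ R
  · have := Subgroup.mem_normalizer_iff.mp hx ⟨a, ha⟩
    simpa [Subgroup.mem_subgroupOf] using this
  · constructor
    · intro h1
      exact absurd (hle h1) ha
    · intro h1
      exfalso
      apply ha
      have h2 := hle h1
      have e : a = x.1⁻¹ * (x.1 * a * x.1⁻¹) * x.1 := by group
      rw [e]
      exact R.mul_mem (R.mul_mem (R.inv_mem x.2) h2) x.2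

/-- the image of a non-normal `C_N(x)` is a maximal `p`-subgroup of `N / Z(N)` -/
theorem maxP [Finite G] {N : Subgroup G} [hN : N.Normal] (hZ : ZC N) {x : G}
    (hco : IsCoatom (Cn x)) (hxs : ¬ NT N x)
    {p : ℕ} [Fact p.Prime] {R : Subgroup (↥N ⧸ Subgroup.center ↥N)} (hR : IsPGroup p R)
    (hle : img N (Cn x) ≤ R) : R ≤ img N (Cn x) := by
  apply selfnorm_le hR hle
  intro g _ hg
  induction g using QuotientGroup.induction_on with
  | H n =>
    rw [mk_mem_img hZ (center_le_Cn x)]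
    apply mem_Cn_of_normalizes hco hxs
    have key : ∀ k : ↥N, ((k : G) ∈ Cn x ↔ (n : G) * k * (n : G)⁻¹ ∈ Cn x) := by
      intro k
      have h1 := hg (k : ↥N ⧸ Subgroup.center ↥N)
      have e : (n : ↥N ⧸ Subgroup.center ↥N) * k * (n : ↥N ⧸ Subgroup.center ↥N)⁻¹ =
          ((n * k * n⁻¹ : ↥N) : ↥N ⧸ Subgroup.center ↥N) := rfl
      rw [e, mk_mem_img hZ (center_le_Cn x), mk_mem_img hZ (center_le_Cn x)] at h1
      exact h1
    rw [Subgroup.mem_normalizer_iff]
    intro k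
    by_cases hk : k ∈ N
    · constructor
      · intro h1
        exact Subgroup.mem_inf.mpr
          ⟨hN.conj_mem k hk n, (key ⟨k, hk⟩).mp (Subgroup.mem_inf.mp h1).2⟩
      · intro h1
        exact Subgroup.mem_inf.mpr ⟨hk, (key ⟨k, hk⟩).mpr (Subgroup.mem_inf.mp h1).2⟩
    · constructor
      · intro h1
        exact absurd (Subgroup.mem_inf.mp h1).1 hk
      · intro h1
        exfalso
        apply hk
        have h2 := (Subgroup.mem_inf.mp h1).1
        have e : k = (n : G)⁻¹ * ((n : G) * k * (n : G)⁻¹) * (n : G) := by group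
        rw [e]
        exact N.mul_mem (N.mul_mem (N.inv_mem n.2) h2) n.2

theorem isPGroup_img {N : Subgroup G} (hZ : ZC N) {x : G} {p : ℕ}
    (hexp : ∀ m ∈ N, m ∈ Cn x → m ^ p ∈ Subgroup.center G) :
    IsPGroup p (img N (Cn x)) := by
  rintro ⟨y, hy⟩
  obtain ⟨m, hm, rfl⟩ := Subgroup.mem_map.mp hy
  refine ⟨1, ?_⟩
  rw [pow_one]
  apply Subtype.ext
  show ((m ^ p : ↥N) : ↥N ⧸ Subgroup.center ↥N) = 1
  rw [mk_eq_one hZ, Subgroup.coe_pow]
  exact hexp m m.2 (Subgroup.mem_subgroupOf.mp hm)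

/-- the image of a non-normal `C_N(x)` of exponent `p` modulo the centre is a Sylow
`p`-subgroup of `N / Z(N)` -/
theorem sylow_s [Finite G] {N : Subgroup G} [N.Normal] (hZ : ZC N) {x : G}
    (hco : IsCoatom (Cn x)) (hxs : ¬ NT N x) {p : ℕ} [Fact p.Prime]
    (hexp : ∀ m ∈ N, m ∈ Cn x → m ^ p ∈ Subgroup.center G) :
    ∃ P : Sylow p (↥N ⧸ Subgroup.center ↥N),
      (P : Subgroup (↥N ⧸ Subgroup.center ↥N)) = img N (Cn x) := by
  obtain ⟨P, hP⟩ := (isPGroup_img hZ hexp).exists_le_sylow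
  exact ⟨P, le_antisymm (maxP hZ hco hxs P.isPGroup' hP) hP⟩

/-- non-normal `C_N(x)`, `C_N(y)` of the same exponent modulo the centre are conjugate in `N` -/
theorem conj_s [Finite G] {N : Subgroup G} [hN : N.Normal] (h : RM N) (hZ : ZC N) {x y : G}
    (hxN : x ∈ N) (hx : x ∉ Subgroup.center G) (hxs : ¬ NT N x)
    (hyN : y ∈ N) (hy : y ∉ Subgroup.center G) (hys : ¬ NT N y) {p : ℕ} (hp : p.Prime)
    (hxe : ∀ m ∈ N, m ∈ Cn x → m ^ p ∈ Subgroup.center G)
    (hye : ∀ m ∈ N, m ∈ Cn y → m ^ p ∈ Subgroup.center G) :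
    ∃ g ∈ N, Cn y = Cn (g * x * g⁻¹) := by
  haveI : Fact p.Prime := ⟨hp⟩
  obtain ⟨P, hP⟩ := sylow_s hZ (h x hxN hx) hxs hxe
  obtain ⟨Py, hPy⟩ := sylow_s hZ (h y hyN hy) hys hye
  obtain ⟨t, ht⟩ := MulAction.exists_smul_eq (↥N ⧸ Subgroup.center ↥N) P Py
  obtain ⟨g, rfl⟩ := QuotientGroup.mk_surjective t
  refine ⟨g, g.2, ?_⟩
  have key : ∀ k : ↥N, ((k : G) ∈ Cn y ↔ (k : G) ∈ Cn ((g : G) * x * (g : G)⁻¹)) := by
    intro k
    have h1 : (k : ↥N ⧸ Subgroup.center ↥N) ∈ (Py : Subgroup (↥N ⧸ Subgroup.center ↥N)) ↔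
        (k : G) ∈ Cn y := by
      rw [hPy]
      exact mk_mem_img hZ (center_le_Cn y) k
    have h2 : (k : ↥N ⧸ Subgroup.center ↥N) ∈ (Py : Subgroup (↥N ⧸ Subgroup.center ↥N)) ↔
        ((g⁻¹ * k * g : ↥N) : ↥N ⧸ Subgroup.center ↥N) ∈
          (P : Subgroup (↥N ⧸ Subgroup.center ↥N)) := by
      rw [← ht, Sylow.coe_subgroup_smul, Subgroup.mem_pointwise_smul_iff_inv_smul_mem]
      rfl
    have h3 : ((g⁻¹ * k * g : ↥N) : ↥N ⧸ Subgroup.center ↥N) ∈
        (P : Subgroup (↥N ⧸ Subgroup.center ↥N)) ↔ (g : G)⁻¹ * k * g ∈ Cn x := by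
      rw [hP]
      exact mk_mem_img hZ (center_le_Cn x) _
    rw [← h1, h2, h3, mem_Cn_conj]
  have hxs' := stype_conj hxs (g : G)
  have hx' := conj_not_mem_center hx (g : G)
  have hx'N : (g : G) * x * (g : G)⁻¹ ∈ N := hN.conj_mem x hxN g
  have hle : Cn y ≤ Cn ((g : G) * x * (g : G)⁻¹) := by
    intro m hm
    apply mem_Cn_of_normalizes (h _ hx'N hx') hxs'
    apply mem_normalizer_of
    · intro c hcN hc
      have hc' := (key ⟨c, hcN⟩).mpr hc
      have h3 : m * c * m⁻¹ ∈ Cn y := (Cn y).mul_mem ((Cn y).mul_mem hm hc') ((Cn y).inv_mem hm)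
      exact (key ⟨_, hN.conj_mem c hcN m⟩).mp h3
    · intro c hcN hc
      have hc' := (key ⟨c, hcN⟩).mpr hc
      have h3 : m⁻¹ * c * m ∈ Cn y := (Cn y).mul_mem ((Cn y).mul_mem ((Cn y).inv_mem hm) hc') hm
      have h4 : m⁻¹ * c * m ∈ N := by
        have := hN.conj_mem c hcN m⁻¹
        simpa using this
      exact (key ⟨_, h4⟩).mp h3
  exact Cn_eq_of_le' (h y hyN hy) hx' hle

end Cfsg.Agent.Lib.Helper69.RMC
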