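import Mathlib
import Cfsg.Agent.Lib.Helper69.RelMaxCentB

set_option autoImplicit false
open Cfsg
open scoped commutatorElement Pointwise

/-! A normal subgroup `N` whose non-central elements have maximal centralizers in `G`: the case
of a non-normal `C_N(u)` contained in the centre of `C(u)` (the Frobenius case) (helper69). -/

namespace Cfsg.Agent.Lib.Helper69.RMC

open Cfsg.Agent.Lib.Helper69.MaxCent

variable {G : Type*} [Group G]

set_option maxHeartbeats 1600000 in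
/-- the Frobenius case -/
theorem caseFrob [Finite G] {N : Subgroup G} [hN : N.Normal] (h : RM N) (hZ : ZC N) {u : G}
    (huN : u ∈ N) (hu : u ∉ Subgroup.center G) (hus : ¬ NT N u)
    (hab : ∀ c ∈ N, c ∈ Cn u → c ∈ Zc u) :
    ∃ (Q K : Subgroup (↥N ⧸ Subgroup.center ↥N)) (p : ℕ), p.Prime ∧ IsFrobeniusComplement Q ∧
      (Nat.card ↥Q).Prime ∧ K.Normal ∧
      (K : Set (↥N ⧸ Subgroup.center ↥N)) = frobeniusKernel Q ∧ IsElementaryAbelian p K := by
  classical
  set Qb := img N (Cn u) with hQb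
  have hmem : ∀ a : ↥N, (a : ↥N ⧸ Subgroup.center ↥N) ∈ Qb ↔ (a : G) ∈ Cn u :=
    fun a => mk_mem_img hZ (center_le_Cn u) a
  have hone : ∀ a : ↥N, (a : ↥N ⧸ Subgroup.center ↥N) = 1 ↔ (a : G) ∈ Subgroup.center G :=
    fun a => mk_eq_one hZ a
  have hnn : ¬ (Cn u).Normal := not_normal_of_stype hus
  have hco := h u huN hu
  have hu1 : ((⟨u, huN⟩ : ↥N) : ↥N ⧸ Subgroup.center ↥N) ≠ 1 := fun h1 => hu ((hone _).mp h1)
  have huM : ((⟨u, huN⟩ : ↥N) : ↥N ⧸ Subgroup.center ↥N) ∈ Qb := (hmem _).mpr (self_mem_Cn u)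
  obtain ⟨g₀, hg₀N, hg₀⟩ : ∃ g ∈ N, g ∉ Cn u := by
    by_contra hcon
    push Not at hcon
    exact not_le_Cn hZ huN hu (fun g hg => hcon g hg)
  have hconjQ : ∀ (k n : ↥N), (k : ↥N ⧸ Subgroup.center ↥N) ∈
      MulAut.conj (n : ↥N ⧸ Subgroup.center ↥N) • Qb ↔ (n : G)⁻¹ * k * n ∈ Cn u := by
    intro k n
    rw [Subgroup.mem_pointwise_smul_iff_inv_smul_mem]
    have e : (MulAut.conj (n : ↥N ⧸ Subgroup.center ↥N))⁻¹ • (k : ↥N ⧸ Subgroup.center ↥N) =
        ((n⁻¹ * k * n : ↥N) : ↥N ⧸ Subgroup.center ↥N) := rfl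
    rw [e, hmem]
    rfl
  -- the Frobenius complement
  have hF : IsFrobeniusComplement Qb := by
    refine ⟨?_, ?_, ?_⟩
    · intro h0
      rw [h0, Subgroup.mem_bot] at huM
      exact hu1 huM
    · intro h0
      have : ((⟨g₀, hg₀N⟩ : ↥N) : ↥N ⧸ Subgroup.center ↥N) ∈ Qb := h0 ▸ Subgroup.mem_top _
      exact hg₀ ((hmem _).mp this)
    · intro q hq
      induction q using QuotientGroup.induction_on with
      | H g =>
        have hg : (g : G) ∉ Cn u := fun hg => hq ((hmem g).mpr hg)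
        rw [eq_bot_iff]
        rintro x ⟨hx1, hx2⟩
        obtain ⟨b, rfl⟩ := QuotientGroup.mk_surjective x
        have hx1' : (b : G) ∈ Cn u := (hmem b).mp hx1
        have hx2' : (g : G)⁻¹ * b * g ∈ Cn u := (hconjQ b g).mp hx2
        have hb2N : (g : G)⁻¹ * b * g ∈ N := N.mul_mem (N.mul_mem (N.inv_mem g.2) b.2) g.2
        have e : (g : G) * ((g : G)⁻¹ * b * g) * (g : G)⁻¹ = b := by group
        have hbZ := rti h huN hu hnn hg (hab _ hb2N hx2') (by rw [e]; exact hab _ b.2 hx1')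
        rw [Subgroup.mem_bot, hone]
        have := (inferInstance : (Subgroup.center G).Normal).conj_mem _ hbZ g
        rwa [e] at this
  obtain ⟨Kb, hKset, hKn, hKc⟩ := Cfsg.Agent.S0035.result _ hF
  have mem_K : ∀ x : ↥N ⧸ Subgroup.center ↥N, x ∈ Kb ↔
      (x = 1 ∨ ∀ q : ↥N ⧸ Subgroup.center ↥N, x ∉ MulAut.conj q • Qb) := by
    intro x
    have : x ∈ (Kb : Set _) ↔ x ∈ frobeniusKernel Qb := by
      rw [hKset]
    exact this
  have hKM : ∀ x : ↥N ⧸ Subgroup.center ↥N, x ∈ Kb → x ∈ Qb → x = 1 := by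
    intro x h1 h2
    have := hKc.disjoint.le_bot (show x ∈ Kb ⊓ _ from ⟨h1, h2⟩)
    exact Subgroup.mem_bot.mp this
  have hcard := hKc.card_mul_card
  have hKtop : Kb ≠ ⊤ := fun h0 => hu1 (hKM _ (h0 ▸ Subgroup.mem_top _) huM)
  have hKbot : Kb ≠ ⊥ := by
    intro h0
    rw [h0, Subgroup.card_bot, one_mul] at hcard
    have := Subgroup.eq_top_of_card_eq _ hcard
    exact hF.2.1 this
  -- the preimage of the kernel
  set K : Subgroup G := (Kb.comap (QuotientGroup.mk' (Subgroup.center ↥N))).map N.subtype with hK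
  have hKmem : ∀ k : G, k ∈ K ↔
      ∃ hk : k ∈ N, ((⟨k, hk⟩ : ↥N) : ↥N ⧸ Subgroup.center ↥N) ∈ Kb := by
    intro k
    constructor
    · rintro ⟨a, ha, rfl⟩
      exact ⟨a.2, ha⟩
    · rintro ⟨hk, h1⟩
      exact ⟨⟨k, hk⟩, h1, rfl⟩
  have hKN : K ≤ N := fun k hk => ((hKmem k).mp hk).1
  have hKnorm : K.Normal := by
    constructor
    intro k hk g
    obtain ⟨hkN, hkK⟩ := (hKmem k).mp hk
    rw [hKmem]
    refine ⟨hN.conj_mem k hkN g, ?_⟩
    rw [mem_K] at hkK ⊢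
    rcases hkK with hk1 | hk2
    · left
      rw [hone] at hk1 ⊢
      exact (inferInstance : (Subgroup.center G).Normal).conj_mem _ hk1 g
    · right
      intro q hq
      obtain ⟨n, rfl⟩ := QuotientGroup.mk_surjective q
      rw [hconjQ] at hq
      have hq' : (n : G)⁻¹ * (g * k * g⁻¹) * n ∈ Cn u := hq
      obtain ⟨n₁, hn₁, m₁, hm₁, e⟩ := decomp hco (not_le_Cn hZ huN hu) (g⁻¹ * (n : G))
      apply hk2 ((⟨n₁, hn₁⟩ : ↥N) : ↥N ⧸ Subgroup.center ↥N)
      rw [hconjQ]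
      show n₁⁻¹ * k * n₁ ∈ Cn u
      have e1 : n₁ = g⁻¹ * (n : G) * m₁⁻¹ := by rw [e]; group
      have e2 : n₁⁻¹ * k * n₁ = m₁ * ((n : G)⁻¹ * (g * k * g⁻¹) * n) * m₁⁻¹ := by
        rw [e1]; group
      rw [e2]
      exact (Cn u).mul_mem ((Cn u).mul_mem hm₁ hq') ((Cn u).inv_mem hm₁)
  -- centralizers of elements of the kernel
  have hCK : ∀ k ∈ K, k ∉ Subgroup.center G → ∀ c ∈ N, c ∈ Cn k → c ∈ K := by
    intro k hk hkZ c hcN hc
    obtain ⟨hkN, hkK⟩ := (hKmem k).mp hk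
    rw [hKmem]
    refine ⟨hcN, ?_⟩
    rw [mem_K]
    by_contra hcon
    push Not at hcon
    obtain ⟨hc1, q, hq⟩ := hcon
    obtain ⟨g, rfl⟩ := QuotientGroup.mk_surjective q
    rw [hconjQ] at hq
    have hq' : (g : G)⁻¹ * c * g ∈ Cn u := hq
    have hmN : (g : G)⁻¹ * c * g ∈ N := N.mul_mem (N.mul_mem (N.inv_mem g.2) hcN) g.2
    have hmZ : (g : G)⁻¹ * c * g ∉ Subgroup.center G := by
      intro hmZ
      apply hc1
      rw [hone]
      have := (inferInstance : (Subgroup.center G).Normal).conj_mem _ hmZ g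
      have e : (g : G) * ((g : G)⁻¹ * c * g) * (g : G)⁻¹ = c := by group
      rwa [e] at this
    have hCm : Cn ((g : G)⁻¹ * c * g) = Cn u := Cn_eq_of_mem_Zc' hco (hab _ hmN hq') hmZ
    have hk1 : (g : G)⁻¹ * k * g ∈ Cn u := by
      rw [← hCm, mem_Cn]
      have hck := mem_Cn.mp hc
      calc (g : G)⁻¹ * k * g * ((g : G)⁻¹ * c * g) = (g : G)⁻¹ * (k * c) * g := by group
        _ = (g : G)⁻¹ * (c * k) * g := by rw [hck]
        _ = (g : G)⁻¹ * c * g * ((g : G)⁻¹ * k * g) := by group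
    have hk2 : ((⟨k, hkN⟩ : ↥N) : ↥N ⧸ Subgroup.center ↥N) ∈
        MulAut.conj (g : ↥N ⧸ Subgroup.center ↥N) • Qb := (hconjQ _ _).mpr hk1
    rcases (mem_K _).mp hkK with hk3 | hk3
    · exact hkZ ((hone _).mp hk3)
    · exact hk3 _ hk2
  have hNK : ¬ N ≤ K := by
    intro hle
    apply hKtop
    rw [eq_top_iff]
    intro x _
    obtain ⟨a, rfl⟩ := QuotientGroup.mk_surjective x
    obtain ⟨_, h1⟩ := (hKmem a).mp (hle a.2)
    exact h1
  have hKC : ∀ k ∈ K, k ∉ Subgroup.center G → K ≤ Cn k := by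
    intro k hk hkZ
    by_contra hle
    apply hNK
    intro n hn
    obtain ⟨l, hl, c, hc, rfl⟩ := dedekind (L := K) (h k (hKN hk) hkZ) hKN hle hn
    exact K.mul_mem hl (hCK k hk hkZ c (Subgroup.mem_inf.mp hc).1 (Subgroup.mem_inf.mp hc).2)
  have hKab : ∀ a ∈ K, ∀ b ∈ K, a * b = b * a := by
    intro a ha b hb
    by_cases haZ : a ∈ Subgroup.center G
    · exact (Subgroup.mem_center_iff.mp haZ b).symm
    · exact (mem_Cn.mp (hKC a ha haZ hb)).symm
  have hKbab : ∀ x ∈ Kb, ∀ y ∈ Kb, x * y = y * x := by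
    intro x hx y hy
    obtain ⟨a, rfl⟩ := QuotientGroup.mk_surjective x
    obtain ⟨b, rfl⟩ := QuotientGroup.mk_surjective y
    have := hKab a ((hKmem a).mpr ⟨a.2, hx⟩) b ((hKmem b).mpr ⟨b.2, hy⟩)
    have e : a * b = b * a := Subtype.ext this
    exact congrArg (QuotientGroup.mk' (Subgroup.center ↥N)) e
  obtain ⟨k₀, hk₀, hk₀Z⟩ : ∃ k₀ : G, k₀ ∈ K ∧ k₀ ∉ Subgroup.center G := by
    obtain ⟨⟨x, hx⟩, hx1⟩ := (Subgroup.ne_bot_iff_exists_ne_one).mp hKbot
    obtain ⟨k, rfl⟩ := QuotientGroup.mk_surjective x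
    exact ⟨k, (hKmem k).mpr ⟨k.2, hx⟩, fun hkZ => hx1 (Subtype.ext ((hone k).mpr hkZ))⟩
  have hKQ : ∀ k ∈ K, k ∈ Cn u → k ∈ Subgroup.center G := by
    intro k hk hkC
    obtain ⟨hkN, hkK⟩ := (hKmem k).mp hk
    exact (hone _).mp (hKM _ hkK ((hmem _).mpr hkC))
  have hKu : ¬ K ≤ Cn u := fun hle => hk₀Z (hKQ k₀ hk₀ (hle hk₀))
  have hdec : ∀ n ∈ N, ∃ l ∈ K, ∃ c ∈ N ⊓ Cn u, n = l * c :=
    fun n hn => dedekind (L := K) hco hKN hKu hn
  -- the complement has prime order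
  have hQb1 : Nat.card Qb ≠ 1 := fun h1 => hF.1 (Subgroup.card_eq_one.mp h1)
  have hq : (Nat.card Qb).minFac.Prime := Nat.minFac_prime hQb1
  have hQprime : (Nat.card Qb).Prime := by
    haveI : Fact (Nat.card Qb).minFac.Prime := ⟨hq⟩
    obtain ⟨⟨x₁, hx₁⟩, ho⟩ := exists_prime_orderOf_dvd_card' (G := Qb) (Nat.card Qb).minFac
      (Nat.minFac_dvd _)
    obtain ⟨w, rfl⟩ := QuotientGroup.mk_surjective x₁
    have ho' : orderOf (w : ↥N ⧸ Subgroup.center ↥N) = (Nat.card Qb).minFac := by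
      rw [← ho]
      exact (Subgroup.orderOf_mk _ _).symm
    have hwC : (w : G) ∈ Cn u := (hmem w).mp hx₁
    have hwZ : (w : G) ∉ Subgroup.center G := by
      intro hc
      rw [(hone w).mpr hc, orderOf_one] at ho'
      exact hq.one_lt.ne ho'
    have hwZc : (w : G) ∈ Zc u := hab w w.2 hwC
    set L : Subgroup G := K ⊔ Subgroup.zpowers (w : G) with hL
    have hwconj : ∀ g : G, g * w * g⁻¹ ∈ L := by
      intro g
      obtain ⟨n, hn, m, hm, rfl⟩ := decomp hco (not_le_Cn hZ huN hu) g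
      obtain ⟨l, hl, c, hc, rfl⟩ := hdec n hn
      have e1 : m * (w : G) * m⁻¹ = w := by
        rw [Subgroup.mem_centralizer_iff.mp hwZc m hm, mul_inv_cancel_right]
      have e2 : c * (w : G) * c⁻¹ = w := by
        rw [Subgroup.mem_centralizer_iff.mp hwZc c (Subgroup.mem_inf.mp hc).2, mul_inv_cancel_right]
      have e3 : l * c * m * (w : G) * (l * c * m)⁻¹ = (l * ((w : G) * l⁻¹ * (w : G)⁻¹)) * w := by
        calc l * c * m * (w : G) * (l * c * m)⁻¹ = l * (c * (m * (w : G) * m⁻¹) * c⁻¹) * l⁻¹ := by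
              group
          _ = l * (w : G) * l⁻¹ := by rw [e1, e2]
          _ = (l * ((w : G) * l⁻¹ * (w : G)⁻¹)) * w := by group
      rw [e3]
      exact L.mul_mem (le_sup_left (a := K) (K.mul_mem hl (hKnorm.conj_mem _ (K.inv_mem hl) w)))
        (le_sup_right (a := K) (Subgroup.mem_zpowers _))
    have hLn : L.Normal := by
      constructor
      intro l hl g
      have hle : L ≤ L.comap (MulAut.conj g).toMonoidHom := by
        apply sup_le
        · intro k hk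
          exact le_sup_left (a := K) (hKnorm.conj_mem k hk g)
        · rw [Subgroup.zpowers_le]
          exact hwconj g
      exact hle hl
    have hLN : L ≤ N := sup_le hKN ((Subgroup.zpowers_le).mpr w.2)
    have hLk : ¬ L ≤ Cn k₀ := by
      intro hle
      have h1 : (w : G) ∈ Cn k₀ := hle (le_sup_right (a := K) (Subgroup.mem_zpowers _))
      exact hwZ (hKQ _ (hCK k₀ hk₀ hk₀Z w w.2 h1) hwC)
    have hNL : N ≤ L := by
      intro n hn
      obtain ⟨l, hl, c, hc, rfl⟩ := dedekind (L := L) (h k₀ (hKN hk₀) hk₀Z) hLN hLk hn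
      exact L.mul_mem hl (le_sup_left (a := K)
        (hCK k₀ hk₀ hk₀Z c (Subgroup.mem_inf.mp hc).1 (Subgroup.mem_inf.mp hc).2))
    have hQz : Qb = Subgroup.zpowers (w : ↥N ⧸ Subgroup.center ↥N) := by
      apply le_antisymm
      · intro x hx
        obtain ⟨a, rfl⟩ := QuotientGroup.mk_surjective x
        have haC : (a : G) ∈ Cn u := (hmem a).mp hx
        have haL : (a : G) ∈ L := hNL a.2
        obtain ⟨k, hk, z, hz, e⟩ := Subgroup.mem_sup_of_normal_left.mp haL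
        obtain ⟨i, rfl⟩ := Subgroup.mem_zpowers_iff.mp hz
        have hkC : k ∈ Cn u := by
          have e' : k = (a : G) * ((w : G) ^ i)⁻¹ := by rw [← e]; group
          rw [e']
          exact (Cn u).mul_mem haC ((Cn u).inv_mem ((Cn u).zpow_mem hwC i))
        have hkZ := hKQ k hk hkC
        have ea : a = (⟨k, hKN hk⟩ : ↥N) * w ^ i := by
          apply Subtype.ext
          rw [Subgroup.coe_mul, Subgroup.coe_zpow]
          exact e.symm
        rw [Subgroup.mem_zpowers_iff]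
        refine ⟨i, ?_⟩
        rw [ea, QuotientGroup.mk_mul, (hone ⟨k, hKN hk⟩).mpr hkZ, one_mul, QuotientGroup.mk_zpow]
      · rw [Subgroup.zpowers_le]
        exact hx₁
    rw [hQz, Nat.card_zpowers, ho']
    exact hq
  -- the exponent of the kernel
  have hKb1 : Nat.card Kb ≠ 1 := fun h1 => hKbot (Subgroup.card_eq_one.mp h1)
  have hp : (Nat.card Kb).minFac.Prime := Nat.minFac_prime hKb1
  set p := (Nat.card Kb).minFac with hpdef
  haveI : Fact p.Prime := ⟨hp⟩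
  obtain ⟨⟨x₁, hx₁⟩, ho⟩ := exists_prime_orderOf_dvd_card' (G := Kb) p (Nat.minFac_dvd _)
  obtain ⟨k₁, rfl⟩ := QuotientGroup.mk_surjective x₁
  have ho' : orderOf (k₁ : ↥N ⧸ Subgroup.center ↥N) = p := by
    rw [← ho]
    exact (Subgroup.orderOf_mk _ _).symm
  have hk₁Z : (k₁ : G) ∉ Subgroup.center G := by
    intro hc
    rw [(hone k₁).mpr hc, orderOf_one] at ho'
    exact hp.one_lt.ne ho'
  have hk₁p : (k₁ : G) ^ p ∈ Subgroup.center G := by
    have h1 : ((k₁ ^ p : ↥N) : ↥N ⧸ Subgroup.center ↥N) = 1 := by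
      rw [QuotientGroup.mk_pow, ← ho']
      exact pow_orderOf_eq_one _
    have h2 := (hone _).mp h1
    rwa [Subgroup.coe_pow] at h2
  have hk₁K : (k₁ : G) ∈ K := (hKmem _).mpr ⟨k₁.2, hx₁⟩
  let L : Subgroup G :=
    { carrier := {k | k ∈ K ∧ k ^ p ∈ Subgroup.center G}
      one_mem' := ⟨K.one_mem, by rw [one_pow]; exact Subgroup.one_mem _⟩
      mul_mem' := fun {a b} ha hb => ⟨K.mul_mem ha.1 hb.1, by
        rw [Commute.mul_pow (show Commute a b from hKab a ha.1 b hb.1)]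
        exact Subgroup.mul_mem _ ha.2 hb.2⟩
      inv_mem' := fun {a} ha => ⟨K.inv_mem ha.1, by
        rw [inv_pow]; exact Subgroup.inv_mem _ ha.2⟩ }
  haveI hLn : L.Normal := by
    constructor
    intro k hk g
    refine ⟨hKnorm.conj_mem k hk.1 g, ?_⟩
    rw [conj_pow]
    exact (inferInstance : (Subgroup.center G).Normal).conj_mem _ hk.2 g
  have hLN : L ≤ N := fun k hk => hKN hk.1
  have hLu : ¬ L ≤ Cn u := fun hle =>
    hk₁Z (hKQ _ hk₁K (hle (show (k₁ : G) ∈ L from ⟨hk₁K, hk₁p⟩)))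
  have hexp : ∀ k ∈ K, k ^ p ∈ Subgroup.center G := by
    intro k hk
    obtain ⟨l, hl, c, hc, rfl⟩ := dedekind (L := L) hco hLN hLu (hKN hk)
    have hcK : c ∈ K := by
      have e : c = l⁻¹ * (l * c) := by group
      rw [e]
      exact K.mul_mem (K.inv_mem hl.1) hk
    have hcZ : c ∈ Subgroup.center G := hKQ c hcK (Subgroup.mem_inf.mp hc).2
    rw [Commute.mul_pow (show Commute l c from (Subgroup.mem_center_iff.mp hcZ l))]
    exact Subgroup.mul_mem _ hl.2 (Subgroup.pow_mem _ hcZ p)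
  have hKbexp : ∀ x ∈ Kb, x ^ p = 1 := by
    intro x hx
    obtain ⟨k, rfl⟩ := QuotientGroup.mk_surjective x
    have h1 := hexp k ((hKmem k).mpr ⟨k.2, hx⟩)
    rw [← QuotientGroup.mk_pow, hone, Subgroup.coe_pow]
    exact h1
  exact ⟨Qb, Kb, p, hp, hF, hQprime, hKn, hKset,
    ⟨⟨fun x y => Subtype.ext (hKbab x.1 x.2 y.1 y.2)⟩⟩, hKbexp⟩

end Cfsg.Agent.Lib.Helper69.RMC
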