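import Mathlib
import Cfsg.Agent.Lib.Helper69.RelMaxCentB

set_option autoImplicit false
open Cfsg
open scoped commutatorElement Pointwise

/-! A normal subgroup `N` whose non-central elements have maximal centralizers in `G`: when no
non-normal `C_N(u)` lies in the centre of `C(u)`, no `C_N(u)` is normal (helper69). -/

namespace Cfsg.Agent.Lib.Helper69.RMC

open Cfsg.Agent.Lib.Helper69.MaxCent

variable {G : Type*} [Group G]

/-- every non-normal `C_N(u)` is not contained in the centre of `C(u)` -/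
def BadH (N : Subgroup G) : Prop :=
  ∀ u : G, u ∈ N → u ∉ Subgroup.center G → ¬ NT N u → ∃ c ∈ N, c ∈ Cn u ∧ c ∉ Zc u

theorem exp_s [Finite G] {N : Subgroup G} (h : RM N) (hb : BadH N) {x : G} (hxN : x ∈ N)
    (hx : x ∉ Subgroup.center G) (hxs : ¬ NT N x) :
    ∃ p : ℕ, p.Prime ∧ ∀ m ∈ N, m ∈ Cn x → m ^ p ∈ Subgroup.center G := by
  obtain ⟨c, hcN, hc, hcA⟩ := hb x hxN hx hxs
  exact rexp h hxN hx hcN hc hcA

theorem img_normal {N : Subgroup G} (hZ : ZC N) {y : G} (hyn : NT N y) :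
    (img N (Cn y)).Normal := by
  constructor
  intro a ha q
  obtain ⟨a', rfl⟩ := QuotientGroup.mk_surjective a
  obtain ⟨n, rfl⟩ := QuotientGroup.mk_surjective q
  have ha' := (mk_mem_img hZ (center_le_Cn y) a').mp ha
  have e : (n : ↥N ⧸ Subgroup.center ↥N) * a' * (n : ↥N ⧸ Subgroup.center ↥N)⁻¹ =
      ((n * a' * n⁻¹ : ↥N) : ↥N ⧸ Subgroup.center ↥N) := rfl
  rw [e, mk_mem_img hZ (center_le_Cn y)]
  exact (Subgroup.mem_inf.mp ((show (N ⊓ Cn y).Normal from hyn).conj_mem _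
    (Subgroup.mem_inf.mpr ⟨a'.2, ha'⟩) n)).2

/-- a normal `C_N(y)` with `y` in a non-normal `C_N(x)` lies in `C_N(x)` -/
theorem s4 [Finite G] {N : Subgroup G} [hN : N.Normal] (h : RM N) (hZ : ZC N) {x y : G}
    (hxN : x ∈ N) (hx : x ∉ Subgroup.center G) (hxs : ¬ NT N x)
    {p : ℕ} (hp : p.Prime) (hexp : ∀ m ∈ N, m ∈ Cn x → m ^ p ∈ Subgroup.center G)
    (hyN : y ∈ N) (hyx : y ∈ Cn x) (hy : y ∉ Subgroup.center G) (hyn : NT N y) :
    ∀ d ∈ N, d ∈ Cn y → d ∈ Cn x := by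
  haveI : Fact p.Prime := ⟨hp⟩
  have hne : Cn x ≠ Cn y := fun he => hxs (by unfold NT; rw [he]; exact hyn)
  have hxy : x * y = y * x := (mem_Cn.mp hyx).symm
  have hxp : x ^ p ∈ Subgroup.center G := hexp x hxN (self_mem_Cn x)
  have hyp : y ^ p ∈ Subgroup.center G := hexp y hyN hyx
  have hDexp : ∀ c ∈ N, c ∈ Cn y → c ^ p ∈ Subgroup.center G := by
    intro c hcN hc
    by_cases hcZ : c ∈ Subgroup.center G
    · exact Subgroup.pow_mem _ hcZ p
    by_cases hC : Cn c = Cn y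
    · have hcx : c * x = x * c := by
        have : x ∈ Cn c := by rw [hC, mem_Cn]; exact hxy
        exact (mem_Cn.mp this).symm
      obtain ⟨r, hr, hcr, hxr⟩ := rlemmaP h hcN hxN hcZ hx hcx (fun he => hne (he.symm.trans hC))
      have := prime_unique hx hp hr hxp hxr
      rw [this]
      exact hcr
    · obtain ⟨r, hr, hcr, hyr⟩ := rlemmaP h hcN hyN hcZ hy (mem_Cn.mp hc) hC
      have := prime_unique hy hp hr hyp hyr
      rw [this]
      exact hcr
  have hPD : IsPGroup p (img N (Cn y)) := isPGroup_img hZ hDexp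
  have hPx : IsPGroup p (img N (Cn x)) := isPGroup_img hZ hexp
  haveI hDn : (img N (Cn y)).Normal := img_normal hZ hyn
  have hR : IsPGroup p (img N (Cn y) ⊔ img N (Cn x) : Subgroup (↥N ⧸ Subgroup.center ↥N)) :=
    IsPGroup.to_sup_of_normal_left hPD hPx
  have hle := maxP hZ (h x hxN hx) hxs hR le_sup_right
  intro d hdN hd
  have h1 : ((⟨d, hdN⟩ : ↥N) : ↥N ⧸ Subgroup.center ↥N) ∈ img N (Cn y) :=
    (mk_mem_img hZ (center_le_Cn y) _).mpr hd
  exact (mk_mem_img hZ (center_le_Cn x) _).mp (hle (le_sup_left (b := img N (Cn x)) h1))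

/-- a non-normal `C_N(x)` contains no non-central element `y` with `C_N(y)` normal -/
theorem f2 [Finite G] {N : Subgroup G} [hN : N.Normal] (h : RM N) (hZ : ZC N) (hb : BadH N)
    {x y : G} (hxN : x ∈ N) (hx : x ∉ Subgroup.center G) (hxs : ¬ NT N x)
    (hyN : y ∈ N) (hyx : y ∈ Cn x) (hy : y ∉ Subgroup.center G) : ¬ NT N y := by
  intro hyn
  obtain ⟨p, hp, hexp⟩ := exp_s h hb hxN hx hxs
  have hD := s4 h hZ hxN hx hxs hp hexp hyN hyx hy hyn
  have hDn : (N ⊓ Cn y).Normal := hyn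
  have key : ∀ n ∈ N, ∀ c ∈ N, c ∈ Cn x → n * c * n⁻¹ ∈ Cn x := by
    intro n hn c hcN hc
    by_cases hcZ : c ∈ Subgroup.center G
    · have e : n * c * n⁻¹ = c := by
        rw [Subgroup.mem_center_iff.mp hcZ n, mul_inv_cancel_right]
      rw [e]
      exact hc
    by_cases hcn : NT N c
    · have hD' := s4 h hZ hxN hx hxs hp hexp hcN hc hcZ hcn
      have h1 := (show (N ⊓ Cn c).Normal from hcn).conj_mem c
        (Subgroup.mem_inf.mpr ⟨hcN, self_mem_Cn c⟩) n
      exact hD' _ (Subgroup.mem_inf.mp h1).1 (Subgroup.mem_inf.mp h1).2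
    · obtain ⟨r, hr, hcexp⟩ := exp_s h hb hcN hcZ hcn
      have hpr : p = r := prime_unique hcZ hp hr (hexp c hcN hc) (hcexp c hcN (self_mem_Cn c))
      subst hpr
      obtain ⟨g, hg, hCc⟩ := conj_s h hZ hxN hx hxs hcN hcZ hcn hp hexp hcexp
      have h1 : g⁻¹ * y * g ∈ N ⊓ Cn y := by
        have := hDn.conj_mem y (Subgroup.mem_inf.mpr ⟨hyN, self_mem_Cn y⟩) g⁻¹
        simpa using this
      have h2 : g⁻¹ * y * g ∈ Cn x := hD _ (Subgroup.mem_inf.mp h1).1 (Subgroup.mem_inf.mp h1).2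
      have h3 : y ∈ Cn c := by
        rw [hCc, mem_Cn_conj]
        exact h2
      have h4 : c ∈ Cn y := mem_Cn.mpr (mem_Cn.mp h3).symm
      have h5 := hDn.conj_mem c (Subgroup.mem_inf.mpr ⟨hcN, h4⟩) n
      exact hD _ (Subgroup.mem_inf.mp h5).1 (Subgroup.mem_inf.mp h5).2
  apply not_le_Cn hZ hxN hx
  intro n hn
  apply mem_Cn_of_normalizes (h x hxN hx) hxs
  apply mem_normalizer_of
  · exact fun c hcN hc => key n hn c hcN hc
  · intro c hcN hc
    have := key n⁻¹ (N.inv_mem hn) c hcN hc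
    rwa [inv_inv] at this

/-- a non-normal `C_N(x)` is not abelian -/
theorem f3 [Finite G] {N : Subgroup G} [hN : N.Normal] (h : RM N) (hZ : ZC N) (hb : BadH N)
    {x : G} (hxN : x ∈ N) (hx : x ∉ Subgroup.center G) (hxs : ¬ NT N x) :
    ∃ a ∈ N, a ∈ Cn x ∧ ∃ b ∈ N, b ∈ Cn x ∧ a * b ≠ b * a := by
  by_contra hcon
  push Not at hcon
  obtain ⟨y₀, hy₀N, hy₀, hy₀A⟩ := hb x hxN hx hxs
  have hy₀Z : y₀ ∉ Subgroup.center G := fun hc => hy₀A (center_le_Zc x hc)
  have hy₀s : ¬ NT N y₀ := f2 h hZ hb hxN hx hxs hy₀N hy₀ hy₀Z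
  obtain ⟨p, hp, hexp⟩ := exp_s h hb hxN hx hxs
  obtain ⟨r, hr, hexp'⟩ := exp_s h hb hy₀N hy₀Z hy₀s
  have hpr : p = r := prime_unique hy₀Z hp hr (hexp y₀ hy₀N hy₀) (hexp' y₀ hy₀N (self_mem_Cn y₀))
  subst hpr
  haveI : Fact p.Prime := ⟨hp⟩
  have hle : img N (Cn x) ≤ img N (Cn y₀) := by
    intro q hq
    obtain ⟨a, rfl⟩ := QuotientGroup.mk_surjective q
    have ha := (mk_mem_img hZ (center_le_Cn x) a).mp hq
    rw [mk_mem_img hZ (center_le_Cn y₀)]
    exact mem_Cn.mpr (hcon a a.2 ha y₀ hy₀N hy₀)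
  have hge := maxP hZ (h x hxN hx) hxs (isPGroup_img hZ hexp') hle
  have key : ∀ k ∈ N, (k ∈ Cn y₀ ↔ k ∈ Cn x) := by
    intro k hk
    constructor
    · intro h1
      exact (mk_mem_img hZ (center_le_Cn x) ⟨k, hk⟩).mp
        (hge ((mk_mem_img hZ (center_le_Cn y₀) ⟨k, hk⟩).mpr h1))
    · intro h1
      exact mem_Cn.mpr (hcon k hk h1 y₀ hy₀N hy₀)
  have hCle : Cn y₀ ≤ Cn x := by
    intro m hm
    apply mem_Cn_of_normalizes (h x hxN hx) hxs
    apply mem_normalizer_of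
    · intro c hcN hc
      have hc' := (key c hcN).mpr hc
      have h3 : m * c * m⁻¹ ∈ Cn y₀ :=
        (Cn y₀).mul_mem ((Cn y₀).mul_mem hm hc') ((Cn y₀).inv_mem hm)
      exact (key _ (hN.conj_mem c hcN m)).mp h3
    · intro c hcN hc
      have hc' := (key c hcN).mpr hc
      have h3 : m⁻¹ * c * m ∈ Cn y₀ :=
        (Cn y₀).mul_mem ((Cn y₀).mul_mem ((Cn y₀).inv_mem hm) hc') hm
      have h4 : m⁻¹ * c * m ∈ N := by
        have := hN.conj_mem c hcN m⁻¹
        simpa using this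
      exact (key _ h4).mp h3
  have heq : Cn y₀ = Cn x := Cn_eq_of_le' (h y₀ hy₀N hy₀Z) hx hCle
  apply hy₀A
  have := self_mem_Zc y₀
  rwa [Zc, heq] at this

/-- an element with normal `C_N(u)` cannot have order `p` modulo the centre, `p` the exponent
of a non-normal `C_N(x)` -/
theorem f4a [Finite G] {N : Subgroup G} [hN : N.Normal] (h : RM N) (hZ : ZC N) (hb : BadH N)
    {x u : G} (hxN : x ∈ N) (hx : x ∉ Subgroup.center G) (hxs : ¬ NT N x)
    {p : ℕ} (hp : p.Prime) (hexp : ∀ m ∈ N, m ∈ Cn x → m ^ p ∈ Subgroup.center G)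
    (huN : u ∈ N) (hu : u ∉ Subgroup.center G) (hun : NT N u)
    (hup : u ^ p ∈ Subgroup.center G) : False := by
  haveI : Fact p.Prime := ⟨hp⟩
  obtain ⟨P, hP⟩ := sylow_s hZ (h x hxN hx) hxs hexp
  set ub : ↥N ⧸ Subgroup.center ↥N := ((⟨u, huN⟩ : ↥N) : ↥N ⧸ Subgroup.center ↥N) with hub
  have hubp : ub ^ p = 1 := by
    rw [hub, ← QuotientGroup.mk_pow, mk_eq_one hZ]
    exact hup
  have hzp : IsPGroup p (Subgroup.zpowers ub) := by
    rintro ⟨y, hy⟩
    obtain ⟨i, rfl⟩ := Subgroup.mem_zpowers_iff.mp hy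
    refine ⟨1, ?_⟩
    apply Subtype.ext
    show (ub ^ i) ^ p ^ 1 = 1
    rw [pow_one, ← zpow_natCast, ← zpow_mul, mul_comm, zpow_mul, zpow_natCast, hubp, one_zpow]
  obtain ⟨S, hS⟩ := hzp.exists_le_sylow
  obtain ⟨t, ht⟩ := MulAction.exists_smul_eq (↥N ⧸ Subgroup.center ↥N) P S
  obtain ⟨g, rfl⟩ := QuotientGroup.mk_surjective t
  have h1 : ub ∈ (S : Subgroup (↥N ⧸ Subgroup.center ↥N)) := hS (Subgroup.mem_zpowers ub)
  rw [← ht, Sylow.coe_subgroup_smul, Subgroup.mem_pointwise_smul_iff_inv_smul_mem, hP] at h1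
  have h2 : ((g⁻¹ * ⟨u, huN⟩ * g : ↥N) : ↥N ⧸ Subgroup.center ↥N) ∈ img N (Cn x) := h1
  rw [mk_mem_img hZ (center_le_Cn x)] at h2
  have h3 : (g : G)⁻¹ * u * (g : G) ∈ Cn x := h2
  have h4 : NT N ((g : G)⁻¹ * u * ((g : G)⁻¹)⁻¹) := NT_conj hun (g : G)⁻¹
  rw [inv_inv] at h4
  have h5 : (g : G)⁻¹ * u * (g : G) ∉ Subgroup.center G := by
    have := conj_not_mem_center hu (g : G)⁻¹
    rwa [inv_inv] at this
  exact f2 h hZ hb hxN hx hxs (N.mul_mem (N.mul_mem (N.inv_mem g.2) huN) g.2) h3 h5 h4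

/-- a non-central element of `N` cannot commute both with an element with normal `C_N` and with
an element with non-normal `C_N` -/
theorem f4b [Finite G] {N : Subgroup G} [hN : N.Normal] (h : RM N) (hZ : ZC N) (hb : BadH N)
    {u e d : G} (huN : u ∈ N) (hu : u ∉ Subgroup.center G) (hun : NT N u)
    (heN : e ∈ N) (he : e ∉ Subgroup.center G) (hes : ¬ NT N e)
    (hdN : d ∈ N) (hd : d ∉ Subgroup.center G) (hdu : d ∈ Cn u) (hde : d ∈ Cn e) : False := by
  have hds : ¬ NT N d := f2 h hZ hb heN he hes hdN hde hd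
  have hne : Cn d ≠ Cn u := fun hC => hds (by unfold NT; rw [hC]; exact hun)
  obtain ⟨r, hr, hdr, hur⟩ := rlemmaP h hdN huN hd hu (mem_Cn.mp hdu) hne
  obtain ⟨p, hp, hexp⟩ := exp_s h hb heN he hes
  have hpr : p = r := prime_unique hd hp hr (hexp d hdN hde) hdr
  subst hpr
  exact f4a h hZ hb heN he hes hp hexp huN hu hun hur

/-! ### The norm argument -/

theorem norm_fixed {A : Type*} [CommGroup A] {p : ℕ} (γ : MulAut A) (hγ : γ ^ p = 1) (w : A) :
    γ (∏ i ∈ Finset.range p, (γ ^ i) w) = ∏ i ∈ Finset.range p, (γ ^ i) w := by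
  rw [map_prod]
  have h1 : ∏ i ∈ Finset.range p, γ ((γ ^ i) w) = ∏ i ∈ Finset.range p, (γ ^ (i + 1)) w := by
    apply Finset.prod_congr rfl
    intro i _
    rw [pow_succ']
    rfl
  rw [h1]
  have h2 := Finset.prod_range_succ' (fun i => (γ ^ i) w) p
  have h3 := Finset.prod_range_succ (fun i => (γ ^ i) w) p
  rw [h3] at h2
  rw [hγ, pow_zero] at h2
  exact (mul_right_cancel h2).symm

/-- two commuting automorphisms of order dividing `p` of an abelian group, such that the fixed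
points of `α` and of all `α ^ k * β` lie in a subgroup `Z`: then `p`-th powers lie in `Z` -/
theorem norm_abs {A : Type*} [CommGroup A] {p : ℕ} (hp : p.Prime) (α β : MulAut A)
    (hα : α ^ p = 1) (hβ : β ^ p = 1) (hc : α * β = β * α) (Z : Subgroup A)
    (hfix : ∀ (k : ℕ) (w : A), (α ^ k * β) w = w → w ∈ Z) (hfixα : ∀ w : A, α w = w → w ∈ Z)
    (v : A) : v ^ p ∈ Z := by
  classical
  have hcomm : ∀ k : ℕ, Commute (α ^ k) β := fun k => Commute.pow_left hc k
  have hγ : ∀ k : ℕ, (α ^ k * β) ^ p = 1 := by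
    intro k
    rw [(hcomm k).mul_pow, ← pow_mul, mul_comm, pow_mul, hα, one_pow, hβ, one_mul]
  have hN1 : ∀ k : ℕ, ∏ i ∈ Finset.range p, ((α ^ k * β) ^ i) v ∈ Z :=
    fun k => hfix k _ (norm_fixed _ (hγ k) v)
  have hN2 : ∀ w : A, ∏ l ∈ Finset.range p, (α ^ l) w ∈ Z :=
    fun w => hfixα _ (norm_fixed α hα w)
  have hL : ∏ k ∈ Finset.range p, ∏ i ∈ Finset.range p, ((α ^ k * β) ^ i) v ∈ Z :=
    Subgroup.prod_mem _ (fun k _ => hN1 k)
  rw [Finset.prod_comm] at hL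
  have h0 : (0 : ℕ) ∈ Finset.range p := Finset.mem_range.mpr hp.pos
  rw [← Finset.mul_prod_erase _ _ h0] at hL
  have hF0 : ∏ k ∈ Finset.range p, ((α ^ k * β) ^ 0) v = v ^ p := by simp
  have hrest : ∏ i ∈ (Finset.range p).erase 0, ∏ k ∈ Finset.range p, ((α ^ k * β) ^ i) v ∈ Z := by
    apply Subgroup.prod_mem
    intro i hi
    obtain ⟨hi0, hip⟩ := Finset.mem_erase.mp hi
    have hip' := Finset.mem_range.mp hip
    have hcop : Nat.Coprime p i := (Nat.Prime.coprime_iff_not_dvd hp).mpr (fun hd => by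
      have := Nat.le_of_dvd (Nat.pos_of_ne_zero hi0) hd
      omega)
    have hmaps : ∀ k ∈ Finset.range p, (k * i) % p ∈ Finset.range p :=
      fun k _ => Finset.mem_range.mpr (Nat.mod_lt _ hp.pos)
    have hinj : Set.InjOn (fun k => (k * i) % p) (Finset.range p : Set ℕ) := by
      intro k₁ hk₁ k₂ hk₂ heq
      have hk₁' := Finset.mem_range.mp (Finset.mem_coe.mp hk₁)
      have hk₂' := Finset.mem_range.mp (Finset.mem_coe.mp hk₂)
      have hmod : k₁ ≡ k₂ [MOD p] := Nat.ModEq.cancel_right_of_coprime hcop heq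
      exact Nat.ModEq.eq_of_lt_of_lt hmod hk₁' hk₂'
    have e : ∏ k ∈ Finset.range p, ((α ^ k * β) ^ i) v =
        ∏ l ∈ Finset.range p, (α ^ l) ((β ^ i) v) := by
      apply Finset.prod_nbij (fun k => (k * i) % p) hmaps hinj
      · exact Finset.surjOn_of_injOn_of_card_le _ (fun k hk => hmaps k hk) hinj le_rfl
      · intro k _
        rw [(hcomm k).mul_pow, ← pow_mul, MulAut.mul_apply, pow_eq_pow_mod (k * i) hα]
    rw [e]
    exact hN2 _
  rw [hF0] at hL
  exact (Subgroup.mul_mem_cancel_right _ hrest).mp hL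

/-- the norm argument for a normal abelian subgroup `A` of `G` and two elements `a`, `b`
commuting modulo the centre, with `p`-th powers in the centre -/
theorem norm_core {A : Subgroup G} [hAn : A.Normal] (hAc : ∀ v w : ↥A, v * w = w * v) {p : ℕ}
    (hp : p.Prime) {a b : G} (hap : a ^ p ∈ Subgroup.center G) (hbp : b ^ p ∈ Subgroup.center G)
    (hab : (a * b)⁻¹ * (b * a) ∈ Subgroup.center G)
    (hfix : ∀ (k : ℕ) (w : G), w ∈ A → (a ^ k * b) * w = w * (a ^ k * b) → w ∈ Subgroup.center G)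
    (hfixa : ∀ w ∈ A, a * w = w * a → w ∈ Subgroup.center G) {v : G} (hv : v ∈ A) :
    v ^ p ∈ Subgroup.center G := by
  have hΦz : ∀ z ∈ Subgroup.center G, (MulAut.conjNormal z : MulAut ↥A) = 1 := by
    intro z hz
    apply MulEquiv.ext
    intro w
    apply Subtype.ext
    rw [MulAut.conjNormal_apply]
    show z * (w : G) * z⁻¹ = (w : G)
    rw [← Subgroup.mem_center_iff.mp hz w, mul_inv_cancel_right]
  have hconj : ∀ (e : G) (w : ↥A), (MulAut.conjNormal e : MulAut ↥A) w = w →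
      e * (w : G) = (w : G) * e := by
    intro e w hw
    have h1 := congrArg Subtype.val hw
    rw [MulAut.conjNormal_apply] at h1
    calc e * (w : G) = (e * (w : G) * e⁻¹) * e := by group
      _ = (w : G) * e := by rw [h1]
  have hαp : (MulAut.conjNormal a : MulAut ↥A) ^ p = 1 := by
    rw [← map_pow]
    exact hΦz _ hap
  have hβp : (MulAut.conjNormal b : MulAut ↥A) ^ p = 1 := by
    rw [← map_pow]
    exact hΦz _ hbp
  have hαβ : (MulAut.conjNormal a : MulAut ↥A) * MulAut.conjNormal b =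
      MulAut.conjNormal b * MulAut.conjNormal a := by
    have e : b * a = a * b * ((a * b)⁻¹ * (b * a)) := by group
    calc (MulAut.conjNormal a : MulAut ↥A) * MulAut.conjNormal b
        = MulAut.conjNormal (a * b) := (map_mul _ _ _).symm
      _ = MulAut.conjNormal (a * b) * MulAut.conjNormal ((a * b)⁻¹ * (b * a)) := by
          rw [hΦz _ hab, mul_one]
      _ = MulAut.conjNormal (a * b * ((a * b)⁻¹ * (b * a))) := (map_mul _ _ _).symm
      _ = MulAut.conjNormal (b * a) := by rw [← e]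
      _ = MulAut.conjNormal b * MulAut.conjNormal a := map_mul _ _ _
  have hfix' : ∀ (k : ℕ) (w : ↥A),
      ((MulAut.conjNormal a : MulAut ↥A) ^ k * MulAut.conjNormal b : MulAut ↥A) w = w →
      w ∈ (Subgroup.center G).subgroupOf A := by
    intro k w hw
    rw [Subgroup.mem_subgroupOf]
    rw [← map_pow, ← map_mul] at hw
    exact hfix k w w.2 (hconj _ w hw)
  have hfixa' : ∀ w : ↥A, (MulAut.conjNormal a : MulAut ↥A) w = w →
      w ∈ (Subgroup.center G).subgroupOf A := by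
    intro w hw
    rw [Subgroup.mem_subgroupOf]
    exact hfixa w w.2 (hconj _ w hw)
  letI : CommGroup ↥A := { (inferInstance : Group ↥A) with mul_comm := hAc }
  have hfin := norm_abs hp (MulAut.conjNormal a : MulAut ↥A) (MulAut.conjNormal b) hαp hβp hαβ
    ((Subgroup.center G).subgroupOf A) hfix' hfixa' ⟨v, hv⟩
  have := Subgroup.mem_subgroupOf.mp hfin
  simpa using this

/-- the centre of `C_N(u)`, as a subgroup of `G` -/
def ZD (N : Subgroup G) (u : G) : Subgroup G :=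
  (N ⊓ Cn u) ⊓ Subgroup.centralizer ((N ⊓ Cn u : Subgroup G) : Set G)

theorem ZD_normal {N : Subgroup G} {u : G} (hun : NT N u) : (ZD N u).Normal := by
  haveI : (N ⊓ Cn u).Normal := hun
  unfold ZD
  infer_instance

theorem ZD_comm {N : Subgroup G} {u : G} (v w : ↥(ZD N u)) : v * w = w * v := by
  apply Subtype.ext
  have hv := (Subgroup.mem_inf.mp v.2).2
  have hw := (Subgroup.mem_inf.mp w.2).1
  exact (Subgroup.mem_centralizer_iff.mp hv w hw).symm

theorem self_mem_ZD {N : Subgroup G} {u : G} (huN : u ∈ N) : u ∈ ZD N u := by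
  refine Subgroup.mem_inf.mpr ⟨Subgroup.mem_inf.mpr ⟨huN, self_mem_Cn u⟩, ?_⟩
  rw [Subgroup.mem_centralizer_iff]
  intro d hd
  exact mem_Cn.mp (Subgroup.mem_inf.mp hd).2

/-- in the bad situation with some non-normal `C_N(x)`, no `C_N(u)` is normal -/
theorem f4 [Finite G] {N : Subgroup G} [hN : N.Normal] (h : RM N) (hZ : ZC N) (hb : BadH N)
    {x u : G} (hxN : x ∈ N) (hx : x ∉ Subgroup.center G) (hxs : ¬ NT N x)
    (huN : u ∈ N) (hu : u ∉ Subgroup.center G) (hun : NT N u) : False := by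
  classical
  obtain ⟨p, hp, hexp⟩ := exp_s h hb hxN hx hxs
  haveI : Fact p.Prime := ⟨hp⟩
  obtain ⟨a₀, ha₀N, ha₀, b₀, hb₀N, hb₀, hab₀⟩ := f3 h hZ hb hxN hx hxs
  -- a central element of the image of `C_N(x)`
  have hP : IsPGroup p (img N (Cn x)) := isPGroup_img hZ hexp
  haveI : Nontrivial (img N (Cn x)) := by
    refine ⟨⟨⟨((⟨x, hxN⟩ : ↥N) : ↥N ⧸ Subgroup.center ↥N),
      (mk_mem_img hZ (center_le_Cn x) _).mpr (self_mem_Cn x)⟩, 1, ?_⟩⟩
    intro h1
    exact hx ((mk_eq_one hZ _).mp (congrArg Subtype.val h1))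
  haveI : Nontrivial (Subgroup.center (img N (Cn x))) := hP.center_nontrivial
  obtain ⟨⟨⟨ab, habP⟩, habc⟩, hab1⟩ := exists_ne (1 : Subgroup.center (img N (Cn x)))
  obtain ⟨a, rfl⟩ := QuotientGroup.mk_surjective ab
  have haC : (a : G) ∈ Cn x := (mk_mem_img hZ (center_le_Cn x) a).mp habP
  have haZ : (a : G) ∉ Subgroup.center G := by
    intro hc
    apply hab1
    apply Subtype.ext
    apply Subtype.ext
    exact (mk_eq_one hZ a).mpr hc
  have hacent : ∀ c ∈ N, c ∈ Cn x → ((a : G) * c)⁻¹ * (c * a) ∈ Subgroup.center G := by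
    intro c hcN hc
    have h1 := Subgroup.mem_center_iff.mp habc
      ⟨((⟨c, hcN⟩ : ↥N) : ↥N ⧸ Subgroup.center ↥N), (mk_mem_img hZ (center_le_Cn x) _).mpr hc⟩
    have h2 : ((⟨c, hcN⟩ : ↥N) : ↥N ⧸ Subgroup.center ↥N) * (a : ↥N ⧸ Subgroup.center ↥N) =
        (a : ↥N ⧸ Subgroup.center ↥N) * ((⟨c, hcN⟩ : ↥N) : ↥N ⧸ Subgroup.center ↥N) :=
      congrArg Subtype.val h1
    rw [← QuotientGroup.mk_mul, ← QuotientGroup.mk_mul] at h2
    have h3 := QuotientGroup.eq.mp h2.symm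
    exact (mem_center_sub hZ _).mp h3
  obtain ⟨b, hbN, hbC, hbk⟩ : ∃ b ∈ N, b ∈ Cn x ∧
      ∀ k : ℕ, (a : G) ^ k * b ∉ Subgroup.center G := by
    by_contra hcon
    push Not at hcon
    obtain ⟨k, hk⟩ := hcon a₀ ha₀N ha₀
    obtain ⟨l, hl⟩ := hcon b₀ hb₀N hb₀
    apply hab₀
    have hb₀a : Commute b₀ (a : G) := by
      have e : b₀ = ((a : G) ^ l)⁻¹ * ((a : G) ^ l * b₀) := by group
      have hz : Commute ((a : G) ^ l * b₀) (a : G) := (Subgroup.mem_center_iff.mp hl (a : G)).symm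
      rw [e]
      exact (((Commute.refl (a : G)).pow_left l).inv_left).mul_left hz
    have e : a₀ = ((a : G) ^ k)⁻¹ * ((a : G) ^ k * a₀) := by group
    have hb₀a₀ : Commute b₀ a₀ := by
      rw [e]
      exact ((hb₀a.pow_right k).inv_right).mul_right (Subgroup.mem_center_iff.mp hk b₀)
    exact hb₀a₀.symm.eq
  haveI := ZD_normal hun
  have hDle : ∀ w ∈ ZD N u, w ∈ N ∧ w ∈ Cn u := fun w hw =>
    Subgroup.mem_inf.mp (Subgroup.mem_inf.mp hw).1
  have has : ¬ NT N (a : G) := f2 h hZ hb hxN hx hxs a.2 haC haZ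
  have hup : u ^ p ∈ Subgroup.center G := by
    refine norm_core (A := ZD N u) ZD_comm hp (hexp a a.2 haC) (hexp b hbN hbC)
      (hacent b hbN hbC) ?_ ?_ (self_mem_ZD huN)
    · intro k w hw hcomm
      by_contra hwZ
      have heN : (a : G) ^ k * b ∈ N := N.mul_mem (N.pow_mem a.2 k) hbN
      have heC : (a : G) ^ k * b ∈ Cn x := (Cn x).mul_mem ((Cn x).pow_mem haC k) hbC
      have hes : ¬ NT N ((a : G) ^ k * b) := f2 h hZ hb hxN hx hxs heN heC (hbk k)
      exact f4b h hZ hb huN hu hun heN (hbk k) hes (hDle w hw).1 hwZ (hDle w hw).2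
        (mem_Cn.mpr hcomm.symm)
    · intro w hw hcomm
      by_contra hwZ
      exact f4b h hZ hb huN hu hun a.2 haZ has (hDle w hw).1 hwZ (hDle w hw).2
        (mem_Cn.mpr hcomm.symm)
  exact f4a h hZ hb hxN hx hxs hp hexp huN hu hun hup

end Cfsg.Agent.Lib.Helper69.RMC
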