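import Mathlib
import Cfsg.Agent.Lib.Helper69.RelMaxCentC
import Cfsg.Agent.Lib.Helper69.RelMaxCentD

set_option autoImplicit false
open Cfsg
open scoped commutatorElement Pointwise

/-! A normal subgroup `N` whose non-central elements have maximal centralizers in `G`: the
counting argument and the main theorem (helper69). -/

namespace Cfsg.Agent.Lib.Helper69.RMC

open Cfsg.Agent.Lib.Helper69.MaxCent

variable {G : Type*} [Group G]

/-- a counting contradiction: a finite group all of whose non-identity elements have prime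
order cannot have few elements of each prime order -/
theorem count_false {Q : Type*} [Group Q] [Finite Q] (hne : ∃ x : Q, x ≠ 1)
    (hprime : ∀ x : Q, x ≠ 1 → (orderOf x).Prime)
    (hfb : ∀ r : ℕ, r.Prime → ∀ s : Finset Q, (∀ x ∈ s, orderOf x = r) → s.Nonempty →
      r ^ 2 * (s.card + 1) ≤ Nat.card Q) : False := by
  classical
  haveI := Fintype.ofFinite Q
  obtain ⟨x₀, hx₀⟩ := hne
  set n := Nat.card Q with hn
  have hnpos : 1 ≤ n := Nat.card_pos
  set T : Finset Q := Finset.univ.erase 1 with hT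
  have hTcard : T.card + 1 = n := by
    rw [hT, Finset.card_erase_add_one (Finset.mem_univ _), Finset.card_univ, hn,
      Nat.card_eq_fintype_card]
  have hprime' : ∀ x ∈ T, (orderOf x).Prime := by
    intro x hx
    exact hprime x (Finset.mem_erase.mp hx).1
  set S := T.image orderOf with hS
  have hSne : S.Nonempty :=
    ⟨orderOf x₀, Finset.mem_image_of_mem _ (Finset.mem_erase.mpr ⟨hx₀, Finset.mem_univ _⟩)⟩
  have hsum : T.card = ∑ r ∈ S, (T.filter (fun a => orderOf a = r)).card :=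
    Finset.card_eq_sum_card_image orderOf T
  have hbound : ∀ r ∈ S, ((T.filter (fun a => orderOf a = r)).card : ℚ) + 1 ≤
      (n : ℚ) * (1 / (r : ℚ) ^ 2) := by
    intro r hr
    obtain ⟨x, hx, rfl⟩ := Finset.mem_image.mp hr
    have hp := hprime' x hx
    have hfb' := hfb _ hp (T.filter (fun a => orderOf a = orderOf x))
      (fun y hy => (Finset.mem_filter.mp hy).2) ⟨x, Finset.mem_filter.mpr ⟨hx, rfl⟩⟩
    have hpos : (0 : ℚ) < ((orderOf x : ℕ) : ℚ) ^ 2 := by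
      have : (0 : ℚ) < ((orderOf x : ℕ) : ℚ) := by exact_mod_cast hp.pos
      positivity
    rw [mul_one_div, le_div_iff₀ hpos]
    have hq : (((orderOf x) ^ 2 * ((T.filter (fun a => orderOf a = orderOf x)).card + 1) : ℕ) : ℚ)
        ≤ (n : ℚ) := by exact_mod_cast hfb'
    push_cast at hq
    linarith
  have hsub : S ⊆ Finset.Icc 2 n := by
    intro r hr
    obtain ⟨x, hx, rfl⟩ := Finset.mem_image.mp hr
    rw [Finset.mem_Icc]
    exact ⟨(hprime' x hx).two_le, Nat.le_of_dvd hnpos (orderOf_dvd_natCard x)⟩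
  have h1 : ∑ r ∈ S, (((T.filter (fun a => orderOf a = r)).card : ℚ) + 1) ≤
      ∑ r ∈ S, (n : ℚ) * (1 / (r : ℚ) ^ 2) := Finset.sum_le_sum hbound
  have h2 : ∑ r ∈ S, (1 : ℚ) / (r : ℚ) ^ 2 ≤ ∑ r ∈ Finset.Icc 2 n, (1 : ℚ) / (r : ℚ) ^ 2 :=
    Finset.sum_le_sum_of_subset_of_nonneg hsub (fun i _ _ => by positivity)
  have h3 := sum_inv_sq_le n hnpos
  rw [Finset.sum_add_distrib, ← Finset.mul_sum] at h1
  have h4 : (∑ r ∈ S, ((T.filter (fun a => orderOf a = r)).card : ℚ)) = (T.card : ℚ) := by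
    rw [hsum]
    push_cast
    rfl
  have h5 : (T.card : ℚ) + 1 = n := by exact_mod_cast hTcard
  have h6 : (1 : ℚ) ≤ S.card := by exact_mod_cast hSne.card_pos
  have hnq : (0 : ℚ) < n := by exact_mod_cast hnpos
  simp only [Finset.sum_const, nsmul_eq_mul, mul_one] at h1
  have h7 : (n : ℚ) * ∑ r ∈ S, (1 : ℚ) / (r : ℚ) ^ 2 ≤ n * (1 - 1 / n) :=
    mul_le_mul_of_nonneg_left (h2.trans h3) hnq.le
  have h8 : (n : ℚ) * (1 - 1 / n) = n - 1 := by field_simp
  linarith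

theorem img_le {N : Subgroup G} (hZ : ZC N) {S T : Subgroup G} (hS : Subgroup.center G ≤ S)
    (hT : Subgroup.center G ≤ T) (hST : ∀ k ∈ N, k ∈ S → k ∈ T) : img N S ≤ img N T := by
  intro q hq
  obtain ⟨k, rfl⟩ := QuotientGroup.mk_surjective q
  rw [mk_mem_img hZ hT]
  exact hST k k.2 ((mk_mem_img hZ hS k).mp hq)

/-- an element of `N` outside the centre has prime order modulo the centre, which is the
exponent of its `C_N` modulo the centre -/
theorem rexp_orderOf [Finite G] {N : Subgroup G} (h : RM N) (hZ : ZC N) (hb : BadH N)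
    (hall : ∀ u ∈ N, u ∉ Subgroup.center G → ¬ NT N u) (v : ↥N)
    (hv : (v : G) ∉ Subgroup.center G) :
    (orderOf (v : ↥N ⧸ Subgroup.center ↥N)).Prime ∧
      ∀ m ∈ N, m ∈ Cn (v : G) → m ^ orderOf (v : ↥N ⧸ Subgroup.center ↥N) ∈ Subgroup.center G := by
  obtain ⟨r, hr, hexp⟩ := exp_s h hb v.2 hv (hall v v.2 hv)
  have h1 : (v : ↥N ⧸ Subgroup.center ↥N) ^ r = 1 := by
    rw [← QuotientGroup.mk_pow, mk_eq_one hZ, Subgroup.coe_pow]
    exact hexp v v.2 (self_mem_Cn _)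
  have h2 : orderOf (v : ↥N ⧸ Subgroup.center ↥N) = r :=
    ((Nat.dvd_prime hr).mp (orderOf_dvd_of_pow_eq_one h1)).resolve_left
      (fun h0 => hv ((mk_eq_one hZ v).mp (orderOf_eq_one_iff.mp h0)))
  rw [h2]
  exact ⟨hr, hexp⟩

theorem rcard_aux [Finite G] {N : Subgroup G} [hN : N.Normal] (h : RM N) (hZ : ZC N)
    (hb : BadH N) {u : G} (huN : u ∈ N) (hu : u ∉ Subgroup.center G) (hus : ¬ NT N u)
    {r : ℕ} (hr : r.Prime) (hexp : ∀ m ∈ N, m ∈ Cn u → m ^ r ∈ Subgroup.center G) :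
    r ^ 2 * Nat.card (img N (Zc u)) ≤ Nat.card (img N (Cn u)) := by
  obtain ⟨a, haN, ha, b, hbN, hb', hab⟩ := f3 h hZ hb huN hu hus
  have hP := isPGroup_img hZ hexp
  have hZK : Subgroup.center G ≤ Cn u ⊓ Cn a := le_inf (center_le_Cn u) (center_le_Cn a)
  have h1 : img N (Zc u) < img N (Cn u ⊓ Cn a) := by
    refine lt_of_le_of_ne (img_le hZ (center_le_Zc u) hZK ?_) ?_
    · intro z _ hz
      refine Subgroup.mem_inf.mpr ⟨Zc_le_Cn u hz, mem_Cn.mpr ?_⟩
      exact (Subgroup.mem_centralizer_iff.mp hz a ha).symm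
    · intro he
      have h2 : ((⟨a, haN⟩ : ↥N) : ↥N ⧸ Subgroup.center ↥N) ∈ img N (Cn u ⊓ Cn a) :=
        (mk_mem_img hZ hZK _).mpr (Subgroup.mem_inf.mpr ⟨ha, self_mem_Cn a⟩)
      rw [← he, mk_mem_img hZ (center_le_Zc u)] at h2
      exact hab (Subgroup.mem_centralizer_iff.mp h2 b hb').symm
  have h2 : img N (Cn u ⊓ Cn a) < img N (Cn u) := by
    refine lt_of_le_of_ne (img_le hZ hZK (center_le_Cn u) ?_) ?_
    · intro z _ hz
      exact (Subgroup.mem_inf.mp hz).1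
    · intro he
      have h3 : ((⟨b, hbN⟩ : ↥N) : ↥N ⧸ Subgroup.center ↥N) ∈ img N (Cn u) :=
        (mk_mem_img hZ (center_le_Cn u) _).mpr hb'
      rw [← he, mk_mem_img hZ hZK] at h3
      exact hab (mem_Cn.mp (Subgroup.mem_inf.mp h3).2).symm
  have e1 := card_mul_le_of_lt hr (hP.to_le h2.le) h1
  have e2 := card_mul_le_of_lt hr hP h2
  calc r ^ 2 * Nat.card (img N (Zc u))
      = r * (r * Nat.card (img N (Zc u))) := by ring
    _ ≤ r * Nat.card (img N (Cn u ⊓ Cn a)) := Nat.mul_le_mul_left r e1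
    _ ≤ _ := e2

set_option maxHeartbeats 800000 in
theorem rfiber_bound [Finite G] {N : Subgroup G} [hN : N.Normal] (h : RM N) (hZ : ZC N)
    (hb : BadH N) (hall : ∀ u ∈ N, u ∉ Subgroup.center G → ¬ NT N u) {r : ℕ} (hr : r.Prime)
    (s : Finset (↥N ⧸ Subgroup.center ↥N)) (hs : ∀ x ∈ s, orderOf x = r) (hne : s.Nonempty) :
    r ^ 2 * (s.card + 1) ≤ Nat.card (↥N ⧸ Subgroup.center ↥N) := by
  classical
  have hnc : ∀ v : ↥N, (v : ↥N ⧸ Subgroup.center ↥N) ∈ s → (v : G) ∉ Subgroup.center G := by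
    intro v hvs hc
    have h1 : (v : ↥N ⧸ Subgroup.center ↥N) = 1 := (mk_eq_one hZ v).mpr hc
    have h2 := hs _ hvs
    rw [h1, orderOf_one] at h2
    exact hr.one_lt.ne h2
  have hexp : ∀ v : ↥N, (v : ↥N ⧸ Subgroup.center ↥N) ∈ s →
      ∀ m ∈ N, m ∈ Cn (v : G) → m ^ r ∈ Subgroup.center G := by
    intro v hvs
    have h1 := (rexp_orderOf h hZ hb hall v (hnc v hvs)).2
    rw [hs _ hvs] at h1
    exact h1
  obtain ⟨x₁, hx₁⟩ := hne
  obtain ⟨u, rfl⟩ := QuotientGroup.mk_surjective x₁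
  have hu := hnc u hx₁
  have hue := hexp u hx₁
  have hus := hall u u.2 hu
  set Ab := img N (Zc (u : G)) with hAb
  set Mb := img N (Cn (u : G)) with hMb
  let f : ((↥N ⧸ Subgroup.center ↥N) ⧸ Mb) × Ab → ↥N ⧸ Subgroup.center ↥N :=
    fun q => q.1.out * (q.2 : ↥N ⧸ Subgroup.center ↥N) * (q.1.out)⁻¹
  have hsurj : ∀ y ∈ insert 1 s, ∃ q, f q = y := by
    intro y hy
    rcases Finset.mem_insert.mp hy with rfl | hy
    · exact ⟨(((1 : ↥N ⧸ Subgroup.center ↥N) : (↥N ⧸ Subgroup.center ↥N) ⧸ Mb), 1), by simp [f]⟩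
    · obtain ⟨v, rfl⟩ := QuotientGroup.mk_surjective y
      have hv := hnc v hy
      have hve := hexp v hy
      have hvs := hall v v.2 hv
      obtain ⟨g, hgN, hCv⟩ := conj_s h hZ u.2 hu hus v.2 hv hvs hr hue hve
      have hg : g⁻¹ * (v : G) * g ∈ Zc (u : G) := by
        rw [Subgroup.mem_centralizer_iff]
        intro m hm
        have h2 : g * m * g⁻¹ ∈ Cn (v : G) := by
          rw [hCv, mem_Cn_conj]
          have e : g⁻¹ * (g * m * g⁻¹) * g = m := by group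
          rw [e]
          exact hm
        have h3 := mem_Cn.mp h2
        calc m * (g⁻¹ * (v : G) * g) = g⁻¹ * (g * m * g⁻¹ * (v : G)) * g := by group
          _ = g⁻¹ * ((v : G) * (g * m * g⁻¹)) * g := by rw [h3]
          _ = g⁻¹ * (v : G) * g * m := by group
      obtain ⟨m, hm⟩ := QuotientGroup.mk_out_eq_mul Mb
        ((⟨g, hgN⟩ : ↥N) : ↥N ⧸ Subgroup.center ↥N)
      obtain ⟨m', hm'mem, hmm'⟩ : ∃ m' : ↥N, (m' : G) ∈ Cn (u : G) ∧
          (m' : ↥N ⧸ Subgroup.center ↥N) = m.1 := by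
        obtain ⟨m', hm'⟩ := QuotientGroup.mk_surjective m.1
        refine ⟨m', (mk_mem_img hZ (center_le_Cn _) m').mp ?_, hm'⟩
        rw [hm']
        exact m.2
      refine ⟨((((⟨g, hgN⟩ : ↥N) : ↥N ⧸ Subgroup.center ↥N) :
          (↥N ⧸ Subgroup.center ↥N) ⧸ Mb),
        ⟨(((⟨g, hgN⟩ : ↥N)⁻¹ * v * (⟨g, hgN⟩ : ↥N) : ↥N) : ↥N ⧸ Subgroup.center ↥N),
          (mk_mem_img hZ (center_le_Zc _) _).mpr hg⟩), ?_⟩
      show ((((⟨g, hgN⟩ : ↥N) : ↥N ⧸ Subgroup.center ↥N) :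
          (↥N ⧸ Subgroup.center ↥N) ⧸ Mb)).out *
        (((⟨g, hgN⟩ : ↥N)⁻¹ * v * (⟨g, hgN⟩ : ↥N) : ↥N) : ↥N ⧸ Subgroup.center ↥N) *
        (((((⟨g, hgN⟩ : ↥N) : ↥N ⧸ Subgroup.center ↥N) :
          (↥N ⧸ Subgroup.center ↥N) ⧸ Mb)).out)⁻¹ = (v : ↥N ⧸ Subgroup.center ↥N)
      rw [hm]
      have hcomm : (m : ↥N ⧸ Subgroup.center ↥N) *
          (((⟨g, hgN⟩ : ↥N)⁻¹ * v * (⟨g, hgN⟩ : ↥N) : ↥N) : ↥N ⧸ Subgroup.center ↥N) =
          (((⟨g, hgN⟩ : ↥N)⁻¹ * v * (⟨g, hgN⟩ : ↥N) : ↥N) : ↥N ⧸ Subgroup.center ↥N) *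
            (m : ↥N ⧸ Subgroup.center ↥N) := by
        rw [← hmm', ← QuotientGroup.mk_mul, ← QuotientGroup.mk_mul]
        congr 1
        apply Subtype.ext
        exact Subgroup.mem_centralizer_iff.mp hg m' hm'mem
      set gb : ↥N ⧸ Subgroup.center ↥N := ((⟨g, hgN⟩ : ↥N) : ↥N ⧸ Subgroup.center ↥N) with hgb
      set cb : ↥N ⧸ Subgroup.center ↥N :=
        (((⟨g, hgN⟩ : ↥N)⁻¹ * v * (⟨g, hgN⟩ : ↥N) : ↥N) : ↥N ⧸ Subgroup.center ↥N) with hcb
      have hcb' : cb = gb⁻¹ * (v : ↥N ⧸ Subgroup.center ↥N) * gb := rfl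
      calc gb * (m : ↥N ⧸ Subgroup.center ↥N) * cb * (gb * (m : ↥N ⧸ Subgroup.center ↥N))⁻¹
          = gb * ((m : ↥N ⧸ Subgroup.center ↥N) * cb) * (m : ↥N ⧸ Subgroup.center ↥N)⁻¹ * gb⁻¹ := by
            group
        _ = gb * (cb * (m : ↥N ⧸ Subgroup.center ↥N)) * (m : ↥N ⧸ Subgroup.center ↥N)⁻¹ * gb⁻¹ := by
            rw [hcomm]
        _ = gb * cb * gb⁻¹ := by group
        _ = (v : ↥N ⧸ Subgroup.center ↥N) := by rw [hcb']; group
  haveI : Fintype (((↥N ⧸ Subgroup.center ↥N) ⧸ Mb) × Ab) := Fintype.ofFinite _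
  have hcard : (insert 1 s).card ≤
      (Finset.univ : Finset (((↥N ⧸ Subgroup.center ↥N) ⧸ Mb) × Ab)).card := by
    refine Finset.card_le_card_of_surjOn f ?_
    intro y hy
    obtain ⟨q, hq⟩ := hsurj y (Finset.mem_coe.mp hy)
    exact ⟨q, Finset.mem_coe.mpr (Finset.mem_univ q), hq⟩
  have h1s : (1 : ↥N ⧸ Subgroup.center ↥N) ∉ s := by
    intro h1
    have h2 := hs _ h1
    rw [orderOf_one] at h2
    exact hr.one_lt.ne h2
  rw [Finset.card_insert_of_notMem h1s, Finset.card_univ, ← Nat.card_eq_fintype_card,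
    Nat.card_prod] at hcard
  have e := rcard_aux h hZ hb u.2 hu hus hr hue
  have hidx := Subgroup.card_eq_card_quotient_mul_card_subgroup Mb
  calc r ^ 2 * (s.card + 1)
      ≤ r ^ 2 * (Nat.card ((↥N ⧸ Subgroup.center ↥N) ⧸ Mb) * Nat.card Ab) :=
        Nat.mul_le_mul_left _ hcard
    _ = Nat.card ((↥N ⧸ Subgroup.center ↥N) ⧸ Mb) * (r ^ 2 * Nat.card Ab) := by ring
    _ ≤ Nat.card ((↥N ⧸ Subgroup.center ↥N) ⧸ Mb) * Nat.card Mb := Nat.mul_le_mul_left _ e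
    _ = Nat.card (↥N ⧸ Subgroup.center ↥N) := hidx.symm

/-- the bad case is impossible -/
theorem bad_false' [Finite G] {N : Subgroup G} [N.Normal] (h : RM N) (hZ : ZC N) (hb : BadH N)
    {x₀ : G} (hx₀N : x₀ ∈ N) (hx₀ : x₀ ∉ Subgroup.center G) (hx₀s : ¬ NT N x₀) : False := by
  have hall : ∀ u ∈ N, u ∉ Subgroup.center G → ¬ NT N u :=
    fun u huN hu hun => f4 h hZ hb hx₀N hx₀ hx₀s huN hu hun
  apply count_false (Q := ↥N ⧸ Subgroup.center ↥N)
  · exact ⟨((⟨x₀, hx₀N⟩ : ↥N) : ↥N ⧸ Subgroup.center ↥N), fun h1 => hx₀ ((mk_eq_one hZ _).mp h1)⟩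
  · intro q hq
    obtain ⟨v, rfl⟩ := QuotientGroup.mk_surjective q
    exact (rexp_orderOf h hZ hb hall v (fun hc => hq ((mk_eq_one hZ v).mpr hc))).1
  · intro r hr s hs hne
    exact rfiber_bound h hZ hb hall hr s hs hne

/-- **Main theorem**: a normal subgroup `N` of a finite group `G` such that the centralizer in
`G` of every element of `N` outside `Z(N)` is maximal -/
theorem main [Finite G] (N : Subgroup G) [N.Normal]
    (h : ∀ x : G, x ∈ N → x ∉ Subgroup.centralizer (N : Set G) →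
      IsCoatom (Subgroup.centralizer ({x} : Set G))) :
    (∃ p : ℕ, p.Prime ∧ IsElementaryAbelian p (⊤ : Subgroup (↥N ⧸ Subgroup.center ↥N))) ∨
    (∃ (Q K : Subgroup (↥N ⧸ Subgroup.center ↥N)) (p : ℕ), p.Prime ∧ IsFrobeniusComplement Q ∧
      (Nat.card ↥Q).Prime ∧ K.Normal ∧
      (K : Set (↥N ⧸ Subgroup.center ↥N)) = frobeniusKernel Q ∧ IsElementaryAbelian p K) := by
  by_cases hall : ∀ x ∈ N, x ∉ Subgroup.centralizer (N : Set G) → NT N x
  · exact Or.inl (part1 h hall)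
  · push Not at hall
    obtain ⟨x₀, hx₀N, hx₀, hx₀s⟩ := hall
    have hZ : ZC N := center_of_stype h hx₀N hx₀ hx₀s
    have h' : RM N := fun x hxN hx => h x hxN (fun hc => hx (hZ x hxN hc))
    have hx₀' : x₀ ∉ Subgroup.center G := fun hc => hx₀ (Subgroup.center_le_centralizer _ hc)
    by_cases hgood : ∃ u ∈ N, u ∉ Subgroup.center G ∧ ¬ NT N u ∧ ∀ c ∈ N, c ∈ Cn u → c ∈ Zc u
    · obtain ⟨u, huN, hu, hus, hab⟩ := hgood
      exact Or.inr (caseFrob h' hZ huN hu hus hab)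
    · exfalso
      have hb : BadH N := by
        intro u huN hu hus
        by_contra hcon
        push Not at hcon
        exact hgood ⟨u, huN, hu, hus, hcon⟩
      exact bad_false' h' hZ hb hx₀N hx₀' hx₀s

end Cfsg.Agent.Lib.Helper69.RMC
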