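import Mathlib

set_option autoImplicit false

namespace Cfsg.Agent.Lib.Helper69.SAF

universe u

/-- transport of the coset action `θ : M →* Perm Q` to a permutation representation on a
field `F` identified with `Q` -/
theorem exists_perm_rep {M : Type u} [Group M] (Q : Subgroup M) [Q.Normal] (L : Subgroup M)
    (θ : M →* Equiv.Perm ↥Q) (hθker : θ.ker = L.normalCore)
    (hθQ : ∀ u v : ↥Q, θ (u : M) v = u * v)
    (hθL : ∀ l ∈ L, ∀ v : ↥Q, ((θ l v : ↥Q) : M) = l * (v : M) * l⁻¹)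
    (p : ℕ) [Fact p.Prime] {V : Type u} [AddCommGroup V]
    [Module (ZMod p) V] (e₀ : ↥Q ≃* Multiplicative V) (ρ : M →* (V ≃ₗ[ZMod p] V))
    (hρ : ∀ (m : M) (x : V), ((e₀.symm (Multiplicative.ofAdd (ρ m x)) : ↥Q) : M) =
      m * ((e₀.symm (Multiplicative.ofAdd x) : ↥Q) : M) * m⁻¹)
    (F : Type) [Field F] (e : V ≃+ F) :
    ∃ Ψ : M →* Equiv.Perm F, Ψ.ker = L.normalCore ∧
      (∀ (u : ↥Q) (x : F), Ψ (u : M) x = e (Multiplicative.toAdd (e₀ u)) + x) ∧
      (∀ l ∈ L, ∀ x : F, Ψ l x = e (ρ l (e.symm x))) := by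
  let ε : ↥Q ≃ F :=
    { toFun := fun u => e (Multiplicative.toAdd (e₀ u))
      invFun := fun x => e₀.symm (Multiplicative.ofAdd (e.symm x))
      left_inv := fun u => by simp
      right_inv := fun x => by simp }
  have hε : ∀ u : ↥Q, ε u = e (Multiplicative.toAdd (e₀ u)) := fun u => rfl
  have hεs : ∀ x : F, ε.symm x = e₀.symm (Multiplicative.ofAdd (e.symm x)) := fun x => rfl
  let Ψ : M →* Equiv.Perm F :=
    (ε.permCongrHom : Equiv.Perm ↥Q ≃* Equiv.Perm F).toMonoidHom.comp θ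
  have hΨ : ∀ (m : M) (x : F), Ψ m x = ε (θ m (ε.symm x)) := fun m x => rfl
  refine ⟨Ψ, ?_, ?_, ?_⟩
  · rw [← hθker]
    ext m
    rw [MonoidHom.mem_ker, MonoidHom.mem_ker]
    change ε.permCongrHom (θ m) = 1 ↔ _
    constructor
    · intro h
      apply ε.permCongrHom.injective
      rw [h, map_one]
    · intro h
      rw [h, map_one]
  · intro u x
    rw [hΨ, hθQ, hε, map_mul, toAdd_mul, map_add]
    congr 1
    rw [hεs]
    simp
  · intro l hl x
    rw [hΨ]
    have hw : θ l (ε.symm x) = e₀.symm (Multiplicative.ofAdd (ρ l (e.symm x))) := by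
      apply Subtype.ext
      rw [hθL l hl, hρ, hεs]
    rw [hw, hε]
    simp

end Cfsg.Agent.Lib.Helper69.SAF
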