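import Cfsg.Agent.Lib.Helper69.FiberCount
import Cfsg.Agent.Lib.Helper69.PClassCount
import Cfsg.Agent.Lib.Helper69.NilCover
import Cfsg.Agent.Lib.Helper55.Syl
import Cfsg.Agent.Lib.Helper75.Frobenius

set_option autoImplicit false

namespace Cfsg.Agent.Lib.Helper69

section TwoClassCount

universe u

variable {G : Type u} [Group G]

/-- an odd-order element normalizing but not centralizing a `2`-group `Q` fixes at most a quarter
of `Q` -/
theorem four_mul_card_fixed_le [Finite G] (Q : Subgroup G) (hQ : IsPGroup 2 Q) (g : G)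
    (hgN : g ∈ Subgroup.normalizer (Q : Set G)) (hgC : g ∉ Subgroup.centralizer (Q : Set G))
    (hodd : (orderOf g).Coprime 2) :
    4 * Nat.card ↥(Q ⊓ Subgroup.centralizer {g}) ≤ Nat.card ↥Q := by
  set F : Subgroup G := Q ⊓ Subgroup.centralizer {g} with hF
  have hFQ : F ≤ Q := inf_le_left
  have hmul : Nat.card ↥F * F.relIndex Q = Nat.card ↥Q := by
    have := Subgroup.relIndex_mul_relIndex (⊥ : Subgroup G) F Q bot_le hFQ
    rwa [Subgroup.relIndex_bot_left, Subgroup.relIndex_bot_left] at this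
  obtain ⟨n, hn⟩ := IsPGroup.iff_card.mp hQ
  have hdvd : F.relIndex Q ∣ 2 ^ n := hn ▸ Subgroup.relIndex_dvd_card F Q
  obtain ⟨j, _, hj⟩ := (Nat.dvd_prime_pow Nat.prime_two).mp hdvd
  -- membership in `F` of conjugates
  have hconjF : ∀ x : G, g * x * g⁻¹ ∈ F ↔ x ∈ F := by
    intro x
    rw [hF, Subgroup.mem_inf, Subgroup.mem_inf, Subgroup.mem_centralizer_singleton_iff,
      Subgroup.mem_centralizer_singleton_iff, ← (Subgroup.mem_normalizer_iff.mp hgN x)]
    constructor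
    · rintro ⟨h1, h2⟩
      refine ⟨h1, ?_⟩
      have h3 : g * x * g⁻¹ * g = g * (g * x * g⁻¹) := h2
      have h4 : g * x = g * (g * x * g⁻¹) := by rw [← h3]; group
      have h5 : x = g * x * g⁻¹ := mul_left_cancel h4
      calc x * g = g * x * g⁻¹ * g := by rw [← h5]
        _ = g * x := by group
    · rintro ⟨h1, h2⟩
      refine ⟨h1, ?_⟩
      have h3 : g * x * g⁻¹ = x := by rw [← h2]; group
      rw [h3, h2]
  have key : ∀ x ∈ Q, x⁻¹ * (g * x * g⁻¹) ∈ F → g * x * g⁻¹ = x := by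
    intro x hx hf
    set f : G := x⁻¹ * (g * x * g⁻¹) with hfdef
    have hfg : f * g = g * f := Subgroup.mem_centralizer_singleton_iff.mp hf.2
    have h1 : x⁻¹ * g * x⁻¹⁻¹ = f * g := by rw [hfdef]; group
    have h2 : (f * g) ^ orderOf g = f ^ orderOf g := by
      rw [(show Commute f g from hfg).mul_pow, pow_orderOf_eq_one, mul_one]
    have h3 : (x⁻¹ * g * x⁻¹⁻¹) ^ orderOf g = 1 := by
      rw [conj_pow, pow_orderOf_eq_one]; group
    have h4 : f ^ orderOf g = 1 := by rw [← h2, ← h1, h3]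
    have h5 : orderOf f ∣ orderOf g := orderOf_dvd_of_pow_eq_one h4
    obtain ⟨k, hk⟩ := IsPGroup.iff_orderOf.mp hQ ⟨f, hf.1⟩
    rw [Subgroup.orderOf_mk] at hk
    have h6 : orderOf f = 1 := by
      apply Nat.Coprime.eq_one_of_dvd _ h5
      rw [hk]
      exact Nat.Coprime.pow_left k hodd.symm
    have h7 : f = 1 := orderOf_eq_one_iff.mp h6
    have h8 : x * f = g * x * g⁻¹ := by rw [hfdef]; group
    rw [← h8, h7, mul_one]
  have hcentr : (∀ x ∈ Q, g * x * g⁻¹ = x) → False := by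
    intro h
    apply hgC
    rw [Subgroup.mem_centralizer_iff]
    intro x hx
    have := h x hx
    calc x * g = g * x * g⁻¹ * g := by rw [this]
      _ = g * x := by group
  have hj2 : 2 ≤ j := by
    by_contra hlt
    have hj01 : j = 0 ∨ j = 1 := by omega
    rcases hj01 with rfl | rfl
    · rw [pow_zero] at hj
      have hQF : Q ≤ F := Subgroup.relIndex_eq_one.mp hj
      apply hcentr
      intro x hx
      apply key x hx
      exact F.mul_mem (F.inv_mem (hQF hx)) ((hconjF x).mpr (hQF hx))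
    · rw [pow_one] at hj
      have hidx : (F.subgroupOf Q).index = 2 := hj
      apply hcentr
      intro x hx
      apply key x hx
      have hgx : g * x * g⁻¹ ∈ Q := (Subgroup.mem_normalizer_iff.mp hgN x).mp hx
      have := Subgroup.mul_mem_iff_of_index_two hidx (a := (⟨x⁻¹, Q.inv_mem hx⟩ : ↥Q))
        (b := (⟨g * x * g⁻¹, hgx⟩ : ↥Q))
      rw [Subgroup.mem_subgroupOf, Subgroup.mem_subgroupOf, Subgroup.mem_subgroupOf] at this
      apply this.mpr
      show x⁻¹ ∈ F ↔ g * x * g⁻¹ ∈ F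
      rw [hconjF x, inv_mem_iff]
  have h4 : 4 ∣ F.relIndex Q := by
    rw [hj]
    exact (show (4 : ℕ) = 2 ^ 2 by norm_num) ▸ pow_dvd_pow 2 hj2
  have hpos : 0 < F.relIndex Q := by
    rw [hj]; positivity
  have := Nat.le_of_dvd hpos h4
  calc 4 * Nat.card ↥F ≤ F.relIndex Q * Nat.card ↥F := Nat.mul_le_mul_right _ this
    _ = Nat.card ↥Q := by rw [mul_comm]; exact hmul

/-- the type of classes of `p`-elements -/
abbrev PCl (p : ℕ) (G : Type u) [Group G] : Type u :=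
  {c : ConjClasses G // ∀ x ∈ c.carrier, ∃ k : ℕ, orderOf x = p ^ k}

/-- the map from a Sylow subgroup to classes of `p`-elements -/
def clsMap [Finite G] {p : ℕ} [Fact p.Prime] (P : Sylow p G) : ↥(P : Subgroup G) → PCl p G :=
  fun x => ⟨ConjClasses.mk x.1, pclass_of_mem_sylow P x.1 x.2⟩

theorem clsMap_eq_of_conj [Finite G] {p : ℕ} [Fact p.Prime] (P : Sylow p G)
    (x y : ↥(P : Subgroup G)) (g : G) (h : g * x.1 * g⁻¹ = y.1) : clsMap P y = clsMap P x := by
  apply Subtype.ext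
  show ConjClasses.mk y.1 = ConjClasses.mk x.1
  rw [ConjClasses.mk_eq_mk_iff_isConj, isConj_comm, isConj_iff]
  exact ⟨g, h⟩

theorem clsMap_surjective [Finite G] {p : ℕ} [Fact p.Prime] (P : Sylow p G) :
    Function.Surjective (clsMap P) := by
  rintro ⟨c, hc⟩
  obtain ⟨y, rfl⟩ := ConjClasses.exists_rep c
  obtain ⟨k, hk⟩ := hc y ConjClasses.mem_carrier_mk
  have hpg : IsPGroup p (Subgroup.zpowers y) := IsPGroup.of_card (n := k) (by
    rw [Nat.card_zpowers, hk])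
  obtain ⟨Q, hQ⟩ := hpg.exists_le_sylow
  obtain ⟨g, hg⟩ := MulAction.exists_smul_eq G Q P
  have hyP : g * y * g⁻¹ ∈ (P : Subgroup G) := by
    rw [← hg, mem_smul_sylow_iff']
    have : g⁻¹ * (g * y * g⁻¹) * g = y := by group
    rw [this]
    exact hQ (Subgroup.mem_zpowers y)
  refine ⟨⟨g * y * g⁻¹, hyP⟩, ?_⟩
  apply Subtype.ext
  show ConjClasses.mk (g * y * g⁻¹) = ConjClasses.mk y
  rw [ConjClasses.mk_eq_mk_iff_isConj, isConj_comm, isConj_iff]
  exact ⟨g, rfl⟩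

/-- if the Frobenius condition fails for `(B, z)`, then there are a Sylow `p`-subgroup `P₀`, a
subgroup `Q` of `P₀` containing the centre of `P₀` and a `p'`-element normalizing but not
centralizing `Q` -/
theorem frob_reduction [Finite G] {p : ℕ} [Fact p.Prime] (B : Subgroup G) (hB : IsPGroup p B)
    (z : G) (hzN : z ∈ Subgroup.normalizer (B : Set G)) (hzo : (orderOf z).Coprime p)
    (hzC : z ∉ Subgroup.centralizer (B : Set G)) :
    ∃ (P₀ : Sylow p G) (Q : Subgroup G) (g : G), Q ≤ (P₀ : Subgroup G) ∧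
      (∀ ζ ∈ (P₀ : Subgroup G), (∀ y ∈ (P₀ : Subgroup G), ζ * y = y * ζ) → ζ ∈ Q) ∧
      g ∈ Subgroup.normalizer (Q : Set G) ∧ g ∉ Subgroup.centralizer (Q : Set G) ∧
      (orderOf g).Coprime p := by
  have hp := (Fact.out : p.Prime)
  set C : Subgroup G := Subgroup.centralizer (B : Set G) with hC
  set N : Subgroup G := Subgroup.normalizer (B : Set G) with hN
  have hCN : C ≤ N := Subgroup.centralizer_le_normalizer _
  have hNC : N ≤ Subgroup.normalizer (C : Set G) :=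
    Cfsg.Agent.Lib.Helper55.normalizer_le_normalizer_centralizer' B
  obtain ⟨D, hD⟩ := Cfsg.Agent.Lib.Helper55.exists_sylIn (p := p) C
  obtain ⟨a, ⟨haN, haD⟩, n, hn, hzan⟩ := hD.frattini hCN hNC z hzN
  have haz : a = z * n⁻¹ := by rw [hzan]; group
  have hpow : ∀ k : ℕ, ∃ c ∈ C, a ^ k = z ^ k * c := by
    intro k
    induction k with
    | zero => exact ⟨1, C.one_mem, by simp⟩
    | succ k ih =>
      obtain ⟨c, hc, e⟩ := ih
      refine ⟨z⁻¹ * c * z⁻¹⁻¹ * n⁻¹, ?_, ?_⟩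
      · refine C.mul_mem ?_ (C.inv_mem hn)
        exact (Subgroup.mem_normalizer_iff.mp (hNC (N.inv_mem hzN)) c).mp hc
      · rw [pow_succ, e, pow_succ, haz]; group
  set a' : G := a ^ (p ^ (orderOf a).factorization p) with ha'
  have ha'C : a' ∉ C := by
    intro h
    obtain ⟨c, hc, e⟩ := hpow (p ^ (orderOf a).factorization p)
    have h1 : z ^ (p ^ (orderOf a).factorization p) ∈ C := by
      have : z ^ (p ^ (orderOf a).factorization p) = a' * c⁻¹ := by rw [ha', e]; group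
      rw [this]; exact C.mul_mem h (C.inv_mem hc)
    obtain ⟨m, hm⟩ := exists_pow_eq_self_of_coprime (x := z)
      (n := p ^ (orderOf a).factorization p) (Nat.Coprime.pow_left _ hzo.symm)
    apply hzC
    rw [← hm]
    exact C.pow_mem h1 m
  have ha'o : (orderOf a').Coprime p := by
    have h1 : a' ^ (orderOf a / p ^ (orderOf a).factorization p) = 1 := by
      rw [ha', ← pow_mul, Nat.ordProj_mul_ordCompl_eq_self, pow_orderOf_eq_one]
    have h2 := orderOf_dvd_of_pow_eq_one h1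
    have h3 : Nat.Coprime p (orderOf a / p ^ (orderOf a).factorization p) :=
      Nat.coprime_ordCompl hp (orderOf_pos a).ne'
    exact (Nat.Coprime.coprime_dvd_right h2 h3).symm
  have hDC : D ≤ C := hD.le
  have hDnB : D ≤ Subgroup.normalizer (B : Set G) := hDC.trans hCN
  have hQp : IsPGroup p (D ⊔ B : Subgroup G) :=
    IsPGroup.to_sup_of_normal_right' hD.isPGroup hB hDnB
  obtain ⟨P₀, hP₀⟩ := hQp.exists_le_sylow
  refine ⟨P₀, D ⊔ B, a', hP₀, ?_, ?_, ?_, ha'o⟩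
  · intro ζ hζ hcen
    have hζC : ζ ∈ C := by
      rw [hC, Subgroup.mem_centralizer_iff]
      intro b hb
      exact (hcen b (hP₀ ((le_sup_right : B ≤ D ⊔ B) hb))).symm
    have h1 : D ⊔ Subgroup.zpowers ζ ≤ D :=
      hD.le_of_le le_sup_left (sup_le hDC ((Subgroup.zpowers_le).mpr hζC))
        (IsPGroup.to_le P₀.isPGroup'
          (sup_le (le_sup_left.trans hP₀) ((Subgroup.zpowers_le).mpr hζ)))
    exact (le_sup_left : D ≤ D ⊔ B) (h1 ((le_sup_right : Subgroup.zpowers ζ ≤ D ⊔ Subgroup.zpowers ζ)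
      (Subgroup.mem_zpowers ζ)))
  · have haN' : a' ∈ N := N.pow_mem haN _
    have haD' : a' ∈ Subgroup.normalizer (D : Set G) :=
      (Subgroup.normalizer (D : Set G)).pow_mem haD _
    apply Cfsg.Agent.Lib.Helper55.mem_normalizer_of_cj_eq
    have e1 : Cfsg.Agent.Lib.Helper55.cj a' D = D :=
      Cfsg.Agent.Lib.Helper55.cj_eq_self_of_mem_normalizer haD'
    have e2 : Cfsg.Agent.Lib.Helper55.cj a' B = B :=
      Cfsg.Agent.Lib.Helper55.cj_eq_self_of_mem_normalizer haN'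
    show (D ⊔ B).map (MulAut.conj a').toMonoidHom = D ⊔ B
    rw [Subgroup.map_sup]
    exact congrArg₂ (· ⊔ ·) e1 e2
  · intro h
    apply ha'C
    exact Subgroup.centralizer_le
      (show (B : Set G) ⊆ ((D ⊔ B : Subgroup G) : Set G) from (le_sup_right : B ≤ D ⊔ B)) h

/-- the number of classes of `p`-elements is at most the class number of a Sylow `p`-subgroup -/
theorem card_pcl_le_conjClasses [Finite G] {p : ℕ} [Fact p.Prime] (P : Sylow p G) :
    Nat.card (PCl p G) ≤ Nat.card (ConjClasses ↥(P : Subgroup G)) := by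
  let f : ConjClasses ↥(P : Subgroup G) → PCl p G :=
    Quotient.lift (s := IsConj.setoid _) (clsMap P) (by
      intro a b hab
      have hab' : IsConj a b := hab
      rw [isConj_iff] at hab'
      obtain ⟨c, hc⟩ := hab'
      exact (clsMap_eq_of_conj P a b c.1 (congrArg Subtype.val hc)).symm)
  apply Nat.card_le_card_of_surjective f
  intro t
  obtain ⟨x, hx⟩ := clsMap_surjective P t
  exact ⟨ConjClasses.mk x, hx⟩

/-- with a normal complement, the class number of a Sylow `p`-subgroup is at most the number of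
classes of `p`-elements -/
theorem card_conjClasses_le_pcl [Finite G] {p : ℕ} [Fact p.Prime] (P : Sylow p G)
    (K : Subgroup G) [K.Normal] (hcompl : K.IsComplement' (P : Subgroup G)) :
    Nat.card (ConjClasses ↥(P : Subgroup G)) ≤ Nat.card (PCl p G) := by
  have hdisj : Disjoint K (P : Subgroup G) := hcompl.disjoint
  let f : ConjClasses ↥(P : Subgroup G) → PCl p G :=
    Quotient.lift (s := IsConj.setoid _) (clsMap P) (by
      intro a b hab
      have hab' : IsConj a b := hab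
      rw [isConj_iff] at hab'
      obtain ⟨c, hc⟩ := hab'
      exact (clsMap_eq_of_conj P a b c.1 (congrArg Subtype.val hc)).symm)
  apply Nat.card_le_card_of_injective f
  intro c d hcd
  obtain ⟨x, rfl⟩ := ConjClasses.exists_rep c
  obtain ⟨y, rfl⟩ := ConjClasses.exists_rep d
  have hxy : clsMap P x = clsMap P y := hcd
  have h1 : ConjClasses.mk x.1 = ConjClasses.mk y.1 := congrArg Subtype.val hxy
  rw [ConjClasses.mk_eq_mk_iff_isConj, isConj_iff] at h1
  obtain ⟨g, hg⟩ := h1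
  obtain ⟨⟨k, u⟩, hku⟩ := hcompl.2 g
  have hku' : k.1 * u.1 = g := hku
  have hx₁ : u.1 * x.1 * u.1⁻¹ ∈ (P : Subgroup G) :=
    mul_mem (mul_mem u.2 x.2) (inv_mem u.2)
  have h2 : y.1 = k.1 * (u.1 * x.1 * u.1⁻¹) * k.1⁻¹ := by
    rw [← hg, ← hku']
    group
  have h3 : (u.1 * x.1 * u.1⁻¹)⁻¹ * y.1 ∈ K := by
    have : (u.1 * x.1 * u.1⁻¹)⁻¹ * y.1 =
        ((u.1 * x.1 * u.1⁻¹)⁻¹ * k.1 * (u.1 * x.1 * u.1⁻¹)⁻¹⁻¹) * k.1⁻¹ := by
      rw [h2]
      group
    rw [this]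
    exact mul_mem ((inferInstance : K.Normal).conj_mem k.1 k.2 _) (inv_mem k.2)
  have h4 : (u.1 * x.1 * u.1⁻¹)⁻¹ * y.1 ∈ (P : Subgroup G) := mul_mem (inv_mem hx₁) y.2
  have h5 : (u.1 * x.1 * u.1⁻¹)⁻¹ * y.1 = 1 := Subgroup.disjoint_def.mp hdisj h3 h4
  have h6 : u.1 * x.1 * u.1⁻¹ = y.1 := inv_mul_eq_one.mp h5
  show ConjClasses.mk x = ConjClasses.mk y
  rw [ConjClasses.mk_eq_mk_iff_isConj, isConj_iff]
  exact ⟨u, Subtype.ext h6⟩

theorem conj_eq_self_iff_comm (g x : G) : g * x * g⁻¹ = x ↔ x * g = g * x := by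
  constructor
  · intro h
    calc x * g = g * x * g⁻¹ * g := by rw [h]
      _ = g * x := by group
  · intro h
    rw [← h]; group

theorem conj_comm_iff_comm (g x : G) : g * x * g⁻¹ * g = g * (g * x * g⁻¹) ↔ x * g = g * x := by
  constructor
  · intro h
    have h4 : g * x = g * (g * x * g⁻¹) := by rw [← h]; group
    have h5 : x = g * x * g⁻¹ := mul_left_cancel h4
    exact (conj_eq_self_iff_comm g x).mp h5.symm
  · intro h
    rw [(conj_eq_self_iff_comm g x).mpr h, h]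

/-- the counting step: a `2'`-element acting non-trivially on a subgroup `Q` of a Sylow
`2`-subgroup `P₀` containing its centre forces `k₂(G) ≤ |P₀| / 2` -/
theorem two_mul_card_pcl_le [Finite G] (P₀ : Sylow 2 G) (Q : Subgroup G) (g : G)
    (hQP : Q ≤ (P₀ : Subgroup G))
    (hZ : ∀ ζ ∈ (P₀ : Subgroup G), (∀ y ∈ (P₀ : Subgroup G), ζ * y = y * ζ) → ζ ∈ Q)
    (hgN : g ∈ Subgroup.normalizer (Q : Set G)) (hgC : g ∉ Subgroup.centralizer (Q : Set G))
    (hodd : (orderOf g).Coprime 2) :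
    2 * Nat.card (PCl 2 G) ≤ Nat.card ↥(P₀ : Subgroup G) := by
  classical
  haveI : Fact (Nat.Prime 2) := ⟨Nat.prime_two⟩
  letI : Fintype ↥(P₀ : Subgroup G) := Fintype.ofFinite _
  letI : Fintype (PCl 2 G) := Fintype.ofFinite _
  set F₀ : Subgroup G := Q ⊓ Subgroup.centralizer {g} with hF₀
  have hF₀Q : F₀ ≤ Q := inf_le_left
  let A : Finset ↥(P₀ : Subgroup G) := Finset.univ.filter (fun x => x.1 ∈ Q)
  let F : Finset ↥(P₀ : Subgroup G) := Finset.univ.filter (fun x => x.1 ∈ F₀)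
  have hmemA : ∀ x : ↥(P₀ : Subgroup G), x ∈ A ↔ x.1 ∈ Q := by
    intro x; simp [A]
  have hmemF : ∀ x : ↥(P₀ : Subgroup G), x ∈ F ↔ x.1 ∈ F₀ := by
    intro x; simp [F]
  have hmemF₀ : ∀ x : G, x ∈ F₀ ↔ x ∈ Q ∧ x * g = g * x := by
    intro x
    rw [hF₀, Subgroup.mem_inf, Subgroup.mem_centralizer_singleton_iff]
  have hFA : F ⊆ A := by
    intro x hx
    rw [hmemA]
    exact hF₀Q ((hmemF x).mp hx)
  have hQ2 : IsPGroup 2 Q := IsPGroup.to_le P₀.isPGroup' hQP
  have hconjQ : ∀ x ∈ Q, g * x * g⁻¹ ∈ Q := fun x hx =>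
    (Subgroup.mem_normalizer_iff.mp hgN x).mp hx
  have hmemAF : ∀ x : ↥(P₀ : Subgroup G), x ∈ A \ F ↔ x.1 ∈ Q ∧ ¬ (x.1 * g = g * x.1) := by
    intro x
    rw [Finset.mem_sdiff, hmemA, hmemF, hmemF₀]
    tauto
  have h3 : ∀ x ∈ A \ F, ∃ x' ∈ A \ F, ∃ x'' ∈ A \ F, x' ≠ x ∧ x'' ≠ x ∧ x'' ≠ x' ∧
      clsMap P₀ x' = clsMap P₀ x ∧ clsMap P₀ x'' = clsMap P₀ x := by
    intro x hx
    obtain ⟨hxQ, hxg⟩ := (hmemAF x).mp hx
    have hx'Q : g * x.1 * g⁻¹ ∈ Q := hconjQ _ hxQ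
    have hx''Q : g * (g * x.1 * g⁻¹) * g⁻¹ ∈ Q := hconjQ _ hx'Q
    have hx'g : ¬ (g * x.1 * g⁻¹ * g = g * (g * x.1 * g⁻¹)) := fun h =>
      hxg ((conj_comm_iff_comm g x.1).mp h)
    have hx''g : ¬ (g * (g * x.1 * g⁻¹) * g⁻¹ * g = g * (g * (g * x.1 * g⁻¹) * g⁻¹)) := fun h =>
      hx'g ((conj_comm_iff_comm g _).mp h)
    refine ⟨⟨g * x.1 * g⁻¹, hQP hx'Q⟩, (hmemAF _).mpr ⟨hx'Q, hx'g⟩,
      ⟨g * (g * x.1 * g⁻¹) * g⁻¹, hQP hx''Q⟩, (hmemAF _).mpr ⟨hx''Q, hx''g⟩, ?_, ?_, ?_, ?_, ?_⟩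
    · intro h
      exact hxg ((conj_eq_self_iff_comm g x.1).mp (congrArg Subtype.val h))
    · intro h
      have h1 : g * (g * x.1 * g⁻¹) * g⁻¹ = x.1 := congrArg Subtype.val h
      have h2 : g ^ 2 * x.1 * (g ^ 2)⁻¹ = x.1 := by
        calc g ^ 2 * x.1 * (g ^ 2)⁻¹ = g * (g * x.1 * g⁻¹) * g⁻¹ := by
              rw [pow_two, mul_inv_rev]; simp only [mul_assoc]
          _ = x.1 := h1
      have h3 : x.1 * g ^ 2 = g ^ 2 * x.1 := (conj_eq_self_iff_comm _ _).mp h2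
      obtain ⟨m, hm⟩ := exists_pow_eq_self_of_coprime (x := g) (n := 2) hodd.symm
      have h4 : Commute x.1 ((g ^ 2) ^ m) := (show Commute x.1 (g ^ 2) from h3).pow_right m
      rw [hm] at h4
      exact hxg h4
    · intro h
      have h1 : g * (g * x.1 * g⁻¹) * g⁻¹ = g * x.1 * g⁻¹ := congrArg Subtype.val h
      exact hx'g ((conj_eq_self_iff_comm g _).mp h1)
    · exact clsMap_eq_of_conj P₀ x ⟨g * x.1 * g⁻¹, hQP hx'Q⟩ g rfl
    · exact (clsMap_eq_of_conj P₀ ⟨g * x.1 * g⁻¹, hQP hx'Q⟩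
        ⟨g * (g * x.1 * g⁻¹) * g⁻¹, hQP hx''Q⟩ g rfl).trans
        (clsMap_eq_of_conj P₀ x ⟨g * x.1 * g⁻¹, hQP hx'Q⟩ g rfl)
  have h2 : ∀ x, x ∉ A → (∃ a ∈ A, clsMap P₀ a = clsMap P₀ x) ∨
      (∃ x', x' ∉ A ∧ x' ≠ x ∧ clsMap P₀ x' = clsMap P₀ x) := by
    intro x hx
    rw [hmemA] at hx
    have hnc : ¬ ∀ y ∈ (P₀ : Subgroup G), x.1 * y = y * x.1 := fun h => hx (hZ x.1 x.2 h)
    push Not at hnc
    obtain ⟨y, hy, hxy⟩ := hnc
    have hx'P : y * x.1 * y⁻¹ ∈ (P₀ : Subgroup G) := mul_mem (mul_mem hy x.2) (inv_mem hy)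
    have hne : (⟨y * x.1 * y⁻¹, hx'P⟩ : ↥(P₀ : Subgroup G)) ≠ x := by
      intro h
      exact hxy ((conj_eq_self_iff_comm y x.1).mp (congrArg Subtype.val h))
    have hcl : clsMap P₀ ⟨y * x.1 * y⁻¹, hx'P⟩ = clsMap P₀ x :=
      clsMap_eq_of_conj P₀ x ⟨y * x.1 * y⁻¹, hx'P⟩ y rfl
    by_cases hA : (⟨y * x.1 * y⁻¹, hx'P⟩ : ↥(P₀ : Subgroup G)) ∈ A
    · exact Or.inl ⟨_, hA, hcl⟩
    · exact Or.inr ⟨_, hA, hne, hcl⟩
  have hcount := fiber_count (clsMap P₀) (clsMap_surjective P₀) A F hFA h3 h2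
  have hcA : A.card = Nat.card ↥Q := by
    rw [← Nat.card_congr (Subgroup.subgroupOfEquivOfLe hQP).toEquiv, Nat.card_eq_fintype_card]
    exact (Fintype.card_of_subtype A (fun x => by
      rw [hmemA]; exact Subgroup.mem_subgroupOf.symm)).symm
  have hcF : F.card = Nat.card ↥F₀ := by
    rw [← Nat.card_congr (Subgroup.subgroupOfEquivOfLe (hF₀Q.trans hQP)).toEquiv,
      Nat.card_eq_fintype_card]
    exact (Fintype.card_of_subtype F (fun x => by
      rw [hmemF]; exact Subgroup.mem_subgroupOf.symm)).symm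
  have hfix := four_mul_card_fixed_le Q hQ2 g hgN hgC hodd
  have hd1 := Finset.card_sdiff_add_card_eq_card hFA
  have hd2 := Finset.card_sdiff_add_card_eq_card (Finset.subset_univ A)
  rw [Finset.card_univ] at hd2
  rw [Nat.card_eq_fintype_card, Nat.card_eq_fintype_card]
  rw [← hF₀, ← hcF, ← hcA] at hfix
  omega

end TwoClassCount

end Cfsg.Agent.Lib.Helper69
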